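import Cfsg.Agent.Lib.Helper15.AltFive

set_option autoImplicit false

namespace Cfsg.Agent.Lib.Helper15
namespace AltAut

/-- An element normalising `P`, not centralising it, with square centralising it, gives an even
index of the centraliser in the normaliser. -/
theorem even_index {G : Type*} [Group G] [Finite G] (P : Subgroup G) (γ : G)
    (hN : ∀ x ∈ P, γ * x * γ⁻¹ ∈ P) (hnC : γ ∉ Subgroup.centralizer (P : Set G))
    (hsq : γ * γ ∈ Subgroup.centralizer (P : Set G)) :
    2 ∣ ((Subgroup.centralizer (P : Set G)).subgroupOf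
      (Subgroup.normalizer (P : Set G))).index := by
  have hγN : γ ∈ Subgroup.normalizer (P : Set G) := Subgroup.mem_normalizer_fintype hN
  have hnorm : ((Subgroup.centralizer (P : Set G)).subgroupOf
      (Subgroup.normalizer (P : Set G))).Normal := by
    constructor
    intro c hc n
    rw [Subgroup.mem_subgroupOf] at hc ⊢
    rw [Subgroup.mem_centralizer_iff] at hc ⊢
    intro x hx
    have hn := n.2
    rw [Subgroup.mem_normalizer_iff] at hn
    have hy : (n : G)⁻¹ * x * n ∈ (P : Set G) := by
      apply (hn _).2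
      have e : (n : G) * ((n : G)⁻¹ * x * n) * (n : G)⁻¹ = x := by group
      rw [e]
      exact hx
    have h1 := hc _ hy
    simp only [Subgroup.coe_mul, Subgroup.coe_inv]
    calc x * ((n : G) * (c : G) * (n : G)⁻¹)
        = (n : G) * ((n : G)⁻¹ * x * (n : G) * (c : G)) * (n : G)⁻¹ := by group
      _ = (n : G) * ((c : G) * ((n : G)⁻¹ * x * (n : G))) * (n : G)⁻¹ := by rw [h1]
      _ = (n : G) * (c : G) * (n : G)⁻¹ * x := by group
  have hq1 : (QuotientGroup.mk (⟨γ, hγN⟩ : Subgroup.normalizer (P : Set G)) :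
      Subgroup.normalizer (P : Set G) ⧸ ((Subgroup.centralizer (P : Set G)).subgroupOf
        (Subgroup.normalizer (P : Set G)))) ≠ 1 := by
    intro h
    rw [QuotientGroup.eq_one_iff] at h
    exact hnC (Subgroup.mem_subgroupOf.1 h)
  have hq2 : (QuotientGroup.mk (⟨γ, hγN⟩ : Subgroup.normalizer (P : Set G)) :
      Subgroup.normalizer (P : Set G) ⧸ ((Subgroup.centralizer (P : Set G)).subgroupOf
        (Subgroup.normalizer (P : Set G)))) ^ 2 = 1 := by
    rw [← QuotientGroup.mk_pow, QuotientGroup.eq_one_iff, Subgroup.mem_subgroupOf]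
    simpa [pow_two] using hsq
  have ho := orderOf_eq_prime hq2 hq1
  rw [Subgroup.index_eq_card, ← ho]
  exact orderOf_dvd_natCard _

theorem card_alt (n : ℕ) (hn : 2 ≤ n) :
    2 * Nat.card (alternatingGroup (Fin n)) = n.factorial := by
  have : Nontrivial (Fin n) := Fin.nontrivial_iff_two_le.2 hn
  have h := two_mul_nat_card_alternatingGroup (α := Fin n)
  rw [Nat.card_perm, Nat.card_fin] at h
  exact h

theorem fact_alt (n p : ℕ) [Fact p.Prime] (hp : p ≠ 2) (hn2 : 2 ≤ n) (hn : n < p ^ 2) :
    (Nat.card (alternatingGroup (Fin n))).factorization p = n / p := by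
  have hp' := (Fact.out : p.Prime)
  have h := card_alt n hn2
  have hne : Nat.card (alternatingGroup (Fin n)) ≠ 0 := Nat.card_pos.ne'
  have h1 : (2 * Nat.card (alternatingGroup (Fin n))).factorization p =
      (Nat.card (alternatingGroup (Fin n))).factorization p := by
    rw [Nat.factorization_mul (by norm_num) hne]
    have h2 : (2 : ℕ).factorization p = 0 := by
      apply Nat.factorization_eq_zero_of_not_dvd
      intro hd
      exact hp ((Nat.prime_dvd_prime_iff_eq hp' Nat.prime_two).1 hd)
    simp [h2]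
  have hlog : Nat.log p n < 3 := by
    have : Nat.log p n < 2 := Nat.log_lt_of_lt_pow (by omega) hn
    omega
  rw [← h1, h, Nat.factorization_def _ hp', padicValNat_factorial hlog]
  have hI : Finset.Ico 1 3 = {1, 2} := by decide
  rw [hI, Finset.sum_pair (by norm_num), pow_one, Nat.div_eq_of_lt hn, add_zero]

section construction
variable (k r p : ℕ)

/-- The set on which the standard Sylow subgroup is built. -/
abbrev XT := (Fin k × ZMod p) ⊕ Fin r

/-- Translation of the blocks by the entries of `f`. -/
def shiftPerm (f : Fin k → ZMod p) : Equiv.Perm (XT k r p) where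
  toFun := Sum.map (fun x => (x.1, x.2 + f x.1)) id
  invFun := Sum.map (fun x => (x.1, x.2 - f x.1)) id
  left_inv := by rintro (⟨i, j⟩ | y) <;> simp
  right_inv := by rintro (⟨i, j⟩ | y) <;> simp

/-- Negation of the block `a`. -/
def negPerm (a : Fin k) : Equiv.Perm (XT k r p) where
  toFun := Sum.map (fun x => (x.1, if x.1 = a then -x.2 else x.2)) id
  invFun := Sum.map (fun x => (x.1, if x.1 = a then -x.2 else x.2)) id
  left_inv := by
    rintro (⟨i, j⟩ | y)
    · by_cases h : i = a <;> simp [h]
    · simp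
  right_inv := by
    rintro (⟨i, j⟩ | y)
    · by_cases h : i = a <;> simp [h]
    · simp

/-- Permutation of the blocks. -/
def blockPerm (σ : Equiv.Perm (Fin k)) : Equiv.Perm (XT k r p) where
  toFun := Sum.map (fun x => (σ x.1, x.2)) id
  invFun := Sum.map (fun x => (σ.symm x.1, x.2)) id
  left_inv := by rintro (⟨i, j⟩ | y) <;> simp
  right_inv := by rintro (⟨i, j⟩ | y) <;> simp

theorem shiftPerm_inl (f : Fin k → ZMod p) (i : Fin k) (j : ZMod p) :
    shiftPerm k r p f (Sum.inl (i, j)) = Sum.inl (i, j + f i) := rfl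

theorem shiftPerm_inr (f : Fin k → ZMod p) (y : Fin r) :
    shiftPerm k r p f (Sum.inr y) = Sum.inr y := rfl

theorem negPerm_inl (a i : Fin k) (j : ZMod p) :
    negPerm k r p a (Sum.inl (i, j)) = Sum.inl (i, if i = a then -j else j) := rfl

theorem negPerm_inr (a : Fin k) (y : Fin r) : negPerm k r p a (Sum.inr y) = Sum.inr y := rfl

theorem blockPerm_inl (σ : Equiv.Perm (Fin k)) (i : Fin k) (j : ZMod p) :
    blockPerm k r p σ (Sum.inl (i, j)) = Sum.inl (σ i, j) := rfl

theorem blockPerm_inr (σ : Equiv.Perm (Fin k)) (y : Fin r) :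
    blockPerm k r p σ (Sum.inr y) = Sum.inr y := rfl

theorem blockPerm_symm_inl (σ : Equiv.Perm (Fin k)) (i : Fin k) (j : ZMod p) :
    (blockPerm k r p σ)⁻¹ (Sum.inl (i, j)) = Sum.inl (σ.symm i, j) := rfl

theorem blockPerm_symm_inr (σ : Equiv.Perm (Fin k)) (y : Fin r) :
    (blockPerm k r p σ)⁻¹ (Sum.inr y) = Sum.inr y := rfl

theorem shiftPerm_add (f g : Fin k → ZMod p) :
    shiftPerm k r p (f + g) = shiftPerm k r p f * shiftPerm k r p g := by
  ext x : 1
  rcases x with ⟨i, j⟩ | y
  · rw [Equiv.Perm.mul_apply, shiftPerm_inl, shiftPerm_inl, shiftPerm_inl, Pi.add_apply]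
    congr 2
    ring
  · rfl

theorem shiftPerm_zero : shiftPerm k r p 0 = 1 := by
  ext x : 1
  rcases x with ⟨i, j⟩ | y
  · rw [shiftPerm_inl, Pi.zero_apply, add_zero]
    rfl
  · rfl

theorem shiftPerm_inj : Function.Injective (shiftPerm k r p) := by
  intro f g h
  funext i
  have h1 := congrArg (fun σ : Equiv.Perm (XT k r p) => σ (Sum.inl (i, 0))) h
  simp only [shiftPerm_inl, zero_add] at h1
  exact (Prod.mk.inj (Sum.inl.inj h1)).2

theorem negPerm_mul_self (a : Fin k) : negPerm k r p a * negPerm k r p a = 1 := by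
  ext x : 1
  rcases x with ⟨i, j⟩ | y
  · rw [Equiv.Perm.mul_apply, negPerm_inl, negPerm_inl]
    by_cases h : i = a <;> simp [h]
  · rfl

theorem negPerm_inv (a : Fin k) : (negPerm k r p a)⁻¹ = negPerm k r p a :=
  inv_eq_of_mul_eq_one_left (negPerm_mul_self k r p a)

theorem negPerm_comm (a b : Fin k) :
    negPerm k r p a * negPerm k r p b = negPerm k r p b * negPerm k r p a := by
  ext x : 1
  rcases x with ⟨i, j⟩ | y
  · rw [Equiv.Perm.mul_apply, Equiv.Perm.mul_apply, negPerm_inl, negPerm_inl, negPerm_inl,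
      negPerm_inl]
    congr 2
    split_ifs <;> simp
  · rfl

theorem blockPerm_conj (σ : Equiv.Perm (Fin k)) (a : Fin k) :
    blockPerm k r p σ * negPerm k r p a * (blockPerm k r p σ)⁻¹ = negPerm k r p (σ a) := by
  ext x : 1
  rcases x with ⟨i, j⟩ | y
  · rw [Equiv.Perm.mul_apply, Equiv.Perm.mul_apply, blockPerm_symm_inl, negPerm_inl,
      blockPerm_inl, negPerm_inl, Equiv.apply_symm_apply]
    have e : (σ.symm i = a) ↔ (i = σ a) := by
      rw [Equiv.symm_apply_eq]
    by_cases h : i = σ a
    · rw [if_pos (e.2 h), if_pos h]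
    · rw [if_neg (fun h' => h (e.1 h')), if_neg h]
  · rfl

theorem sign_negPerm [NeZero p] (a b : Fin k) :
    Equiv.Perm.sign (negPerm k r p a) = Equiv.Perm.sign (negPerm k r p b) := by
  have h := blockPerm_conj k r p (Equiv.swap a b) a
  rw [Equiv.swap_apply_left] at h
  rw [← h, Equiv.Perm.sign_mul, Equiv.Perm.sign_mul, Equiv.Perm.sign_inv, mul_comm, ← mul_assoc,
    Int.units_mul_self, one_mul]

theorem negPerm_conj (a : Fin k) (f : Fin k → ZMod p) :
    negPerm k r p a * shiftPerm k r p f * (negPerm k r p a)⁻¹ =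
      shiftPerm k r p (Function.update f a (-f a)) := by
  rw [negPerm_inv]
  ext x : 1
  rcases x with ⟨i, j⟩ | y
  · rw [Equiv.Perm.mul_apply, Equiv.Perm.mul_apply, negPerm_inl, shiftPerm_inl, negPerm_inl,
      shiftPerm_inl]
    by_cases h : i = a
    · subst h
      simp only [if_true, Function.update_self]
      congr 2
      ring
    · simp only [if_neg h, Function.update_of_ne h]
  · rfl

end construction

section transfer
variable {k r p : ℕ} [Fact p.Prime] {n : ℕ}

theorem sign_shiftPerm (hp : p ≠ 2) (f : Fin k → ZMod p) :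
    Equiv.Perm.sign (shiftPerm k r p f) = 1 := by
  have hpow : (shiftPerm k r p f) ^ p = 1 := by
    have h : ∀ m : ℕ, (shiftPerm k r p f) ^ m = shiftPerm k r p (m • f) := by
      intro m
      induction m with
      | zero => rw [pow_zero, zero_smul, shiftPerm_zero]
      | succ m ih => rw [pow_succ, ih, succ_nsmul, shiftPerm_add]
    rw [h]
    have h0 : (p • f) = 0 := by
      funext i
      simp [nsmul_eq_mul]
    rw [h0, shiftPerm_zero]
  have hs : Equiv.Perm.sign (shiftPerm k r p f) ^ p = 1 := by rw [← map_pow, hpow, map_one]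
  rcases Int.units_eq_one_or (Equiv.Perm.sign (shiftPerm k r p f)) with h | h
  · exact h
  · rw [h] at hs
    have hodd : Odd p := (Fact.out : p.Prime).odd_of_ne_two hp
    rw [hodd.neg_one_pow] at hs
    exact absurd hs (by decide)

/-- The embedding of the elementary abelian group into the alternating group. -/
def Phi (e : XT k r p ≃ Fin n) (hp : p ≠ 2) :
    Multiplicative (Fin k → ZMod p) →* alternatingGroup (Fin n) where
  toFun f := ⟨e.permCongrHom (shiftPerm k r p (Multiplicative.toAdd f)), by
    rw [Equiv.Perm.mem_alternatingGroup, Equiv.permCongrHom_coe, Equiv.Perm.sign_permCongr]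
    exact sign_shiftPerm hp _⟩
  map_one' := by
    apply Subtype.ext
    show e.permCongrHom (shiftPerm k r p 0) = 1
    rw [shiftPerm_zero, map_one]
  map_mul' f g := by
    apply Subtype.ext
    show e.permCongrHom (shiftPerm k r p (Multiplicative.toAdd f + Multiplicative.toAdd g)) =
      e.permCongrHom (shiftPerm k r p (Multiplicative.toAdd f)) *
        e.permCongrHom (shiftPerm k r p (Multiplicative.toAdd g))
    rw [shiftPerm_add, map_mul]

theorem Phi_val (e : XT k r p ≃ Fin n) (hp : p ≠ 2) (f : Multiplicative (Fin k → ZMod p)) :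
    ((Phi e hp f : alternatingGroup (Fin n)) : Equiv.Perm (Fin n)) =
      e.permCongrHom (shiftPerm k r p (Multiplicative.toAdd f)) := rfl

theorem Phi_injective (e : XT k r p ≃ Fin n) (hp : p ≠ 2) : Function.Injective (Phi e hp) := by
  intro f g h
  have h1 := congrArg Subtype.val h
  rw [Phi_val, Phi_val] at h1
  have h2 := shiftPerm_inj k r p (e.permCongrHom.injective h1)
  exact h2

theorem card_Phi_range (e : XT k r p ≃ Fin n) (hp : p ≠ 2) :
    Nat.card (Phi e hp).range = p ^ k := by
  rw [← Nat.card_congr (MonoidHom.ofInjective (Phi_injective e hp)).toEquiv]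
  show Nat.card (Fin k → ZMod p) = p ^ k
  rw [Nat.card_eq_fintype_card, Fintype.card_fun, ZMod.card, Fintype.card_fin]

/-- The inverting element. -/
def gam (e : XT k r p ≃ Fin n) (i0 i1 : Fin k) : alternatingGroup (Fin n) :=
  ⟨e.permCongrHom (negPerm k r p i0 * negPerm k r p i1), by
    rw [Equiv.Perm.mem_alternatingGroup, Equiv.permCongrHom_coe, Equiv.Perm.sign_permCongr,
      Equiv.Perm.sign_mul, sign_negPerm k r p i0 i1, Int.units_mul_self]⟩

theorem gam_val (e : XT k r p ≃ Fin n) (i0 i1 : Fin k) :
    ((gam e i0 i1 : alternatingGroup (Fin n)) : Equiv.Perm (Fin n)) =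
      e.permCongrHom (negPerm k r p i0 * negPerm k r p i1) := rfl

theorem gam_sq (e : XT k r p ≃ Fin n) (i0 i1 : Fin k) : gam e i0 i1 * gam e i0 i1 = 1 := by
  apply Subtype.ext
  rw [Subgroup.coe_mul, gam_val, ← map_mul]
  have h : negPerm k r p i0 * negPerm k r p i1 * (negPerm k r p i0 * negPerm k r p i1) = 1 := by
    calc negPerm k r p i0 * negPerm k r p i1 * (negPerm k r p i0 * negPerm k r p i1)
        = negPerm k r p i0 * (negPerm k r p i1 * negPerm k r p i0) * negPerm k r p i1 := by
          simp only [mul_assoc]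
      _ = negPerm k r p i0 * (negPerm k r p i0 * negPerm k r p i1) * negPerm k r p i1 := by
          rw [negPerm_comm k r p i1 i0]
      _ = (negPerm k r p i0 * negPerm k r p i0) * (negPerm k r p i1 * negPerm k r p i1) := by
          simp only [mul_assoc]
      _ = 1 := by rw [negPerm_mul_self, negPerm_mul_self, one_mul]
  rw [h, map_one]
  rfl

theorem gam_conj (e : XT k r p ≃ Fin n) (hp : p ≠ 2) (i0 i1 : Fin k)
    (f : Multiplicative (Fin k → ZMod p)) :
    gam e i0 i1 * Phi e hp f * (gam e i0 i1)⁻¹ =
      Phi e hp (Multiplicative.ofAdd (Function.update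
        (Function.update (Multiplicative.toAdd f) i1 (-(Multiplicative.toAdd f) i1)) i0
        (-(Function.update (Multiplicative.toAdd f) i1 (-(Multiplicative.toAdd f) i1)) i0))) := by
  apply Subtype.ext
  rw [Subgroup.coe_mul, Subgroup.coe_mul, Subgroup.coe_inv, gam_val, Phi_val, Phi_val, ← map_inv,
    ← map_mul, ← map_mul]
  congr 1
  rw [mul_inv_rev]
  calc negPerm k r p i0 * negPerm k r p i1 * shiftPerm k r p (Multiplicative.toAdd f) *
        ((negPerm k r p i1)⁻¹ * (negPerm k r p i0)⁻¹)
      = negPerm k r p i0 * (negPerm k r p i1 * shiftPerm k r p (Multiplicative.toAdd f) *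
        (negPerm k r p i1)⁻¹) * (negPerm k r p i0)⁻¹ := by simp only [mul_assoc]
    _ = _ := by rw [negPerm_conj, negPerm_conj]; rfl

/-- The index of the centraliser in the normaliser of the standard subgroup is even. -/
theorem even_index_Phi (e : XT k r p ≃ Fin n) (hp : p ≠ 2) (i0 i1 : Fin k) (hne : i0 ≠ i1) :
    2 ∣ ((Subgroup.centralizer ((Phi e hp).range : Set (alternatingGroup (Fin n)))).subgroupOf
      (Subgroup.normalizer ((Phi e hp).range : Set (alternatingGroup (Fin n))))).index := by
  apply even_index _ (gam e i0 i1)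
  · rintro x ⟨f, rfl⟩
    rw [gam_conj]
    exact ⟨_, rfl⟩
  · intro hc
    rw [Subgroup.mem_centralizer_iff] at hc
    have h1 := hc (Phi e hp (Multiplicative.ofAdd (Pi.single i0 1))) ⟨_, rfl⟩
    have h2 : gam e i0 i1 * Phi e hp (Multiplicative.ofAdd (Pi.single i0 1)) * (gam e i0 i1)⁻¹ =
        Phi e hp (Multiplicative.ofAdd (Pi.single i0 1)) := by
      rw [← h1, mul_inv_cancel_right]
    rw [gam_conj] at h2
    have h3 := Phi_injective e hp h2
    have h4 := congrFun (congrArg Multiplicative.toAdd h3) i0
    simp only [toAdd_ofAdd, Function.update_self, Function.update_of_ne hne, Pi.single_eq_same]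
      at h4
    have hp2 : Fact (2 < p) := ⟨by
      have := (Fact.out : p.Prime).two_le
      omega⟩
    exact ZMod.neg_one_ne_one h4
  · rw [gam_sq]
    exact Subgroup.one_mem _

end transfer

/-- The odd case: the index of the centraliser in the normaliser is even, or the Sylow subgroup
is cyclic. -/
theorem odd_case (n p : ℕ) [Fact p.Prime] (hp : p ≠ 2) (hn2 : 2 ≤ n) (hn : n < p ^ 2)
    (P : Sylow p (alternatingGroup (Fin n))) :
    2 ∣ ((Subgroup.centralizer ((P : Subgroup (alternatingGroup (Fin n))) :
        Set (alternatingGroup (Fin n)))).subgroupOf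
      (Subgroup.normalizer ((P : Subgroup (alternatingGroup (Fin n))) :
        Set (alternatingGroup (Fin n))))).index ∨
    IsCyclic (P : Subgroup (alternatingGroup (Fin n))) := by
  have hp' := (Fact.out : p.Prime)
  have hcard : Nat.card (P : Subgroup (alternatingGroup (Fin n))) = p ^ (n / p) := by
    have h := Sylow.card_eq_multiplicity P
    rw [fact_alt n p hp hn2 hn] at h
    exact h
  by_cases hk : n / p < 2
  · right
    have hk' : n / p = 0 ∨ n / p = 1 := by
      rcases Nat.lt_or_ge (n / p) 1 with h | h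
      · left
        exact Nat.lt_one_iff.1 h
      · right
        exact le_antisymm (Nat.lt_succ_iff.1 hk) h
    rcases hk' with h0 | h1
    · rw [h0, pow_zero] at hcard
      have : Subsingleton (P : Subgroup (alternatingGroup (Fin n))) :=
        (Nat.card_eq_one_iff_unique.1 hcard).1
      exact isCyclic_of_subsingleton
    · rw [h1, pow_one] at hcard
      exact isCyclic_of_prime_card hcard
  · left
    have hX : Fintype.card (XT (n / p) (n % p) p) = n := by
      rw [Fintype.card_sum, Fintype.card_prod, Fintype.card_fin, ZMod.card, Fintype.card_fin]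
      exact Nat.div_add_mod' n p
    have e : XT (n / p) (n % p) p ≃ Fin n := Fintype.equivFinOfCardEq hX
    have hQ : Nat.card (Phi e hp).range =
        p ^ (Nat.card (alternatingGroup (Fin n))).factorization p := by
      rw [card_Phi_range, fact_alt n p hp hn2 hn]
    obtain ⟨g, hg⟩ := MulAction.exists_smul_eq (alternatingGroup (Fin n))
      (Sylow.ofCard (Phi e hp).range hQ) P
    have hP : (P : Subgroup (alternatingGroup (Fin n))) =
        (Phi e hp).range.map (MulAut.conj g).toMonoidHom := by
      rw [← hg]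
      rfl
    rw [hP, index_map_equiv']
    have hk2 : 2 ≤ n / p := Nat.le_of_not_lt hk
    exact even_index_Phi e hp ⟨0, lt_of_lt_of_le (by norm_num) hk2⟩
      ⟨1, lt_of_lt_of_le (by norm_num) hk2⟩ (by
      intro h
      have := congrArg Fin.val h
      simp at this)

end AltAut
end Cfsg.Agent.Lib.Helper15
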