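import Mathlib

set_option autoImplicit false

namespace Cfsg.Agent.Lib.Helper15
namespace AltAut

/-- The alternating group of degree five. -/
abbrev A5 := alternatingGroup (Fin 5)

set_option maxRecDepth 100000 in
theorem v4_mul : ∀ a b : A5, (a : Equiv.Perm (Fin 5)) 4 = 4 → a * a = 1 →
    (b : Equiv.Perm (Fin 5)) 4 = 4 → b * b = 1 →
    ((a * b : A5) : Equiv.Perm (Fin 5)) 4 = 4 ∧ (a * b) * (a * b) = 1 := by
  decide +kernel

set_option maxRecDepth 100000 in
theorem v4_cent : ∀ g : A5, (∀ h : A5, ((h : Equiv.Perm (Fin 5)) 4 = 4 ∧ h * h = 1) →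
    h * g = g * h) ↔ ((g : Equiv.Perm (Fin 5)) 4 = 4 ∧ g * g = 1) := by
  decide +kernel

set_option maxRecDepth 100000 in
theorem v4_norm : ∀ g : A5, (∀ h : A5, ((h : Equiv.Perm (Fin 5)) 4 = 4 ∧ h * h = 1) →
    ((g * h * g⁻¹ : A5) : Equiv.Perm (Fin 5)) 4 = 4 ∧ (g * h * g⁻¹) * (g * h * g⁻¹) = 1) ↔
    (g : Equiv.Perm (Fin 5)) 4 = 4 := by
  decide +kernel

set_option maxRecDepth 100000 in
theorem card_s4 : Fintype.card {g : A5 // (g : Equiv.Perm (Fin 5)) 4 = 4} = 12 := by
  decide +kernel

set_option maxRecDepth 100000 in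
theorem card_v4 : Fintype.card {g : A5 // (g : Equiv.Perm (Fin 5)) 4 = 4 ∧ g * g = 1} = 4 := by
  decide +kernel

set_option maxRecDepth 100000 in
theorem a5_exp : ∀ g : A5, g ^ 4 = 1 → g ^ 2 = 1 := by
  decide +kernel

/-- The four-group fixing the last point. -/
def V4 : Subgroup A5 where
  carrier := {g | (g : Equiv.Perm (Fin 5)) 4 = 4 ∧ g * g = 1}
  mul_mem' := by
    intro a b ha hb
    exact v4_mul a b ha.1 ha.2 hb.1 hb.2
  one_mem' := ⟨rfl, one_mul 1⟩
  inv_mem' := by
    intro a ha
    have e : a⁻¹ = a := inv_eq_of_mul_eq_one_left ha.2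
    rw [e]
    exact ha

/-- The stabiliser of the last point. -/
def S4 : Subgroup A5 where
  carrier := {g | (g : Equiv.Perm (Fin 5)) 4 = 4}
  mul_mem' := by
    intro a b ha hb
    show ((a * b : A5) : Equiv.Perm (Fin 5)) 4 = 4
    rw [Subgroup.coe_mul, Equiv.Perm.mul_apply]
    rw [show (b : Equiv.Perm (Fin 5)) 4 = 4 from hb]
    exact ha
  one_mem' := rfl
  inv_mem' := by
    intro a ha
    show ((a⁻¹ : A5) : Equiv.Perm (Fin 5)) 4 = 4
    rw [Subgroup.coe_inv, Equiv.Perm.inv_eq_iff_eq]
    exact (show (a : Equiv.Perm (Fin 5)) 4 = 4 from ha).symm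

theorem card_V4 : Nat.card V4 = 4 := by
  show Nat.card {g : A5 // (g : Equiv.Perm (Fin 5)) 4 = 4 ∧ g * g = 1} = 4
  rw [Nat.card_eq_fintype_card]
  exact card_v4

theorem card_S4 : Nat.card S4 = 12 := by
  show Nat.card {g : A5 // (g : Equiv.Perm (Fin 5)) 4 = 4} = 12
  rw [Nat.card_eq_fintype_card]
  exact card_s4

theorem centralizer_V4 : Subgroup.centralizer (V4 : Set A5) = V4 := by
  ext g
  rw [Subgroup.mem_centralizer_iff]
  exact v4_cent g

theorem normalizer_V4 : Subgroup.normalizer (V4 : Set A5) = S4 := by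
  ext g
  constructor
  · intro hg
    rw [Subgroup.mem_normalizer_iff] at hg
    exact (v4_norm g).1 (fun h hh => (hg h).1 hh)
  · intro hg
    exact Subgroup.mem_normalizer_fintype (fun h hh => (v4_norm g).2 hg h hh)

theorem card_A5 : Nat.card A5 = 60 := by
  have h := two_mul_nat_card_alternatingGroup (α := Fin 5)
  rw [Nat.card_perm, Nat.card_fin] at h
  have h2 : Nat.factorial 5 = 120 := by decide
  rw [h2] at h
  show Nat.card (alternatingGroup (Fin 5)) = 60
  omega

theorem fact_A5 : (Nat.card A5).factorization 2 = 2 := by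
  rw [card_A5]
  have e : (60 : ℕ) = 2 ^ 2 * 15 := by norm_num
  rw [e, Nat.factorization_mul (by norm_num) (by norm_num), Nat.Prime.factorization_pow Nat.prime_two]
  have h15 : (15 : ℕ).factorization 2 = 0 := Nat.factorization_eq_zero_of_not_dvd (by norm_num)
  simp [h15]

theorem index_V4 : ((Subgroup.centralizer (V4 : Set A5)).subgroupOf
    (Subgroup.normalizer (V4 : Set A5))).index = 3 := by
  rw [centralizer_V4, normalizer_V4]
  have hle : V4 ≤ S4 := fun g hg => hg.1
  have h1 := Subgroup.index_mul_card (V4.subgroupOf S4)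
  have h2 : Nat.card (V4.subgroupOf S4) = Nat.card V4 :=
    Nat.card_congr (Subgroup.subgroupOfEquivOfLe hle).toEquiv
  rw [h2, card_V4, card_S4] at h1
  omega

/-- The index of the centraliser in the normaliser is invariant under automorphisms. -/
theorem index_map_equiv' {G : Type*} [Group G] (H : Subgroup G) (ψ : G ≃* G) :
    ((Subgroup.centralizer ((H.map ψ.toMonoidHom : Subgroup G) : Set G)).subgroupOf
      (Subgroup.normalizer ((H.map ψ.toMonoidHom : Subgroup G) : Set G))).index =
    ((Subgroup.centralizer (H : Set G)).subgroupOf (Subgroup.normalizer (H : Set G))).index := by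
  have hN := Subgroup.map_equiv_normalizer_eq H ψ
  have hC : (Subgroup.centralizer (H : Set G)).map ψ.toMonoidHom =
      Subgroup.centralizer ((H.map ψ.toMonoidHom : Subgroup G) : Set G) := by
    ext x
    rw [Subgroup.mem_map_equiv, Subgroup.mem_centralizer_iff, Subgroup.mem_centralizer_iff]
    constructor
    · intro h y hy
      obtain ⟨z, hz, rfl⟩ := hy
      have h1 := h z hz
      have h2 := congrArg ψ h1
      rw [map_mul, map_mul, MulEquiv.apply_symm_apply] at h2
      exact h2
    · intro h z hz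
      have h1 := h (ψ z) ⟨z, hz, rfl⟩
      apply ψ.injective
      rw [map_mul, map_mul, MulEquiv.apply_symm_apply]
      exact h1
  rw [← hN, ← hC]
  exact Subgroup.relIndex_map_map_of_injective _ _ ψ.injective

/-- The Sylow 2-subgroups of the alternating group of degree five. -/
theorem sylow_two_A5 (P : Sylow 2 A5) :
    ((Subgroup.centralizer ((P : Subgroup A5) : Set A5)).subgroupOf
      (Subgroup.normalizer ((P : Subgroup A5) : Set A5))).index = 3 ∧
    IsKleinFour (P : Subgroup A5) := by
  have hcard : Nat.card (P : Subgroup A5) = 4 := by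
    have h := Sylow.card_eq_multiplicity P
    rw [fact_A5] at h
    exact h.trans (by norm_num)
  constructor
  · have hQ : Nat.card V4 = 2 ^ (Nat.card A5).factorization 2 := by
      rw [card_V4, fact_A5]
      norm_num
    obtain ⟨g, hg⟩ := MulAction.exists_smul_eq A5 (Sylow.ofCard V4 hQ) P
    have hP : (P : Subgroup A5) = V4.map (MulAut.conj g).toMonoidHom := by
      rw [← hg]
      rfl
    rw [hP, index_map_equiv']
    exact index_V4
  · refine ⟨hcard, ?_⟩
    have h2 : Monoid.exponent (P : Subgroup A5) ∣ 2 := by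
      apply Monoid.exponent_dvd_of_forall_pow_eq_one
      intro x
      have h4 : x ^ 4 = 1 := by
        rw [← hcard]
        exact pow_card_eq_one'
      have h4' : (x : A5) ^ 4 = 1 := by
        have := congrArg (Subtype.val) h4
        simpa using this
      have h2' := a5_exp (x : A5) h4'
      apply Subtype.ext
      simpa using h2'
    rcases (Nat.dvd_prime Nat.prime_two).1 h2 with h | h
    · exfalso
      rw [Monoid.exp_eq_one_iff] at h
      have := Nat.card_of_subsingleton (1 : (P : Subgroup A5))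
      omega
    · exact h

end AltAut
end Cfsg.Agent.Lib.Helper15
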