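import Mathlib
import Cfsg.Agent.S0751

set_option autoImplicit false

namespace Cfsg.Agent.Lib.Helper15.HermInvol

variable {F V : Type*} [Field F] [AddCommGroup V] [Module F V] {σ : F →+* F}

/-- An involutive isometry of a sesquilinear form (the identity allowed). -/
structure HInv (B : V →ₛₗ[σ] V →ₗ[F] F) (t : V →ₗ[F] V) : Prop where
  sq : ∀ v, t (t v) = v
  iso : ∀ u v, B (t u) (t v) = B u v

/-- The nilpotent part `t - 1` of an involution. -/
def Nm (t : V →ₗ[F] V) : V →ₗ[F] V := t - LinearMap.id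

theorem Nm_apply (t : V →ₗ[F] V) (v : V) : Nm t v = t v - v := rfl

variable {B : V →ₛₗ[σ] V →ₗ[F] F}

theorem iso_swap {t : V →ₗ[F] V} (ht : HInv B t) (u v : V) : B (t u) v = B u (t v) := by
  have h := ht.iso (t u) v
  rw [ht.sq] at h
  exact h.symm

theorem Nm_adj {t : V →ₗ[F] V} (ht : HInv B t) (u v : V) :
    B (Nm t u) v = B u (Nm t v) := by
  simp only [Nm_apply, map_sub, LinearMap.sub_apply]
  rw [iso_swap ht]

theorem Nm_sq (h2 : (2 : F) = 0) {t : V →ₗ[F] V} (ht : HInv B t) (v : V) :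
    Nm t (Nm t v) = 0 := by
  simp only [Nm_apply, map_sub, ht.sq]
  have h : (v - t v) + (v - t v) = 0 := by
    have : (2 : F) • (v - t v) = 0 := by rw [h2, zero_smul]
    rwa [two_smul] at this
  rw [← h]
  abel

theorem Nm_iso (h2 : (2 : F) = 0) {t : V →ₗ[F] V} (ht : HInv B t) (u v : V) :
    B (Nm t u) (Nm t v) = 0 := by
  rw [Nm_adj ht, Nm_sq h2 ht, map_zero]

/-- An orthonormal family for the Hermitian form `(x, y) ↦ B x ((t - 1) y)`. -/
theorem exists_family [Finite F] [FiniteDimensional F V] (hσ : σ ≠ RingHom.id F)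
    (hσ2 : ∀ a : F, σ (σ a) = a) (hS : B.IsSymm) (hB : B.Nondegenerate)
    {t : V →ₗ[F] V} (ht : HInv B t) :
    ∃ u : Fin (Module.finrank F (LinearMap.range (Nm t))) → V,
      ∀ i j, B (u i) (Nm t (u j)) = if i = j then 1 else 0 := by
  obtain ⟨W, hW⟩ := Submodule.exists_isCompl (LinearMap.ker (Nm t))
  let γ : W →ₛₗ[σ] W →ₗ[F] F := (B.compl₂ (Nm t)).domRestrict₁₂ W W
  have hγ : ∀ x y : W, γ x y = B (x : V) (Nm t (y : V)) := fun x y => rfl
  have hγS : γ.IsSymm := ⟨fun x y => by rw [hγ, hγ, hS.eq, Nm_adj ht]⟩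
  have hsepL : ∀ x : W, (∀ y : W, γ x y = 0) → x = 0 := by
    intro x hx
    have h1 : Nm t (x : V) = 0 := by
      apply hB.1
      intro v
      rw [Nm_adj ht]
      obtain ⟨k, hk, w, hw, rfl⟩ : ∃ k ∈ LinearMap.ker (Nm t), ∃ w ∈ W, k + w = v := by
        have : v ∈ LinearMap.ker (Nm t) ⊔ W := by rw [hW.sup_eq_top]; trivial
        exact Submodule.mem_sup.mp this
      rw [map_add, LinearMap.mem_ker.mp hk, zero_add]
      exact hx ⟨w, hw⟩
    have h3 : (x : V) ∈ LinearMap.ker (Nm t) ⊓ W := ⟨LinearMap.mem_ker.mpr h1, x.2⟩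
    rw [hW.inf_eq_bot, Submodule.mem_bot] at h3
    exact Subtype.ext h3
  have hγN : γ.Nondegenerate := by
    refine ⟨hsepL, fun y hy => hsepL y (fun x => ?_)⟩
    rw [← hγS.eq, hy x, map_zero]
  obtain ⟨b, hb⟩ := Cfsg.Agent.S0755.result σ hσ hσ2 γ hγS hγN
  have hdim : Module.finrank F W = Module.finrank F (LinearMap.range (Nm t)) := by
    have h1 := Submodule.finrank_add_eq_of_isCompl hW
    have h2 := LinearMap.finrank_range_add_finrank_ker (Nm t)
    omega
  refine ⟨fun i => (b (finCongr hdim.symm i) : V), fun i j => ?_⟩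
  have h := hb (finCongr hdim.symm i) (finCongr hdim.symm j)
  rw [hγ] at h
  rw [h]
  simp

theorem family_li {t : V →ₗ[F] V} {r : ℕ} (u : Fin r → V)
    (hu : ∀ i j, B (u i) (Nm t (u j)) = if i = j then 1 else 0) :
    LinearIndependent F (fun i => Nm t (u i)) := by
  classical
  rw [Fintype.linearIndependent_iff]
  intro c hc j
  have h2 : B (u j) (∑ i, c i • Nm t (u i)) = 0 := by rw [hc, map_zero]
  simp only [map_sum, map_smul, smul_eq_mul, hu, mul_ite, mul_one, mul_zero,
    Finset.sum_ite_eq, Finset.mem_univ, if_true] at h2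
  exact h2

/-- Expansion of `(t - 1) v` along the family. -/
theorem expansion [FiniteDimensional F V] {t : V →ₗ[F] V} (ht : HInv B t)
    (u : Fin (Module.finrank F (LinearMap.range (Nm t))) → V)
    (hu : ∀ i j, B (u i) (Nm t (u j)) = if i = j then 1 else 0) (v : V) :
    Nm t v = ∑ i, B (Nm t (u i)) v • Nm t (u i) := by
  classical
  have hli := family_li u hu
  have hsp : Submodule.span F (Set.range (fun i => Nm t (u i))) = LinearMap.range (Nm t) := by
    apply Submodule.eq_of_le_of_finrank_eq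
    · rw [Submodule.span_le]
      rintro _ ⟨i, rfl⟩
      exact ⟨u i, rfl⟩
    · rw [finrank_span_eq_card hli, Fintype.card_fin]
  have hmem : Nm t v ∈ Submodule.span F (Set.range (fun i => Nm t (u i))) := by
    rw [hsp]
    exact ⟨v, rfl⟩
  obtain ⟨c, hc⟩ := (Submodule.mem_span_range_iff_exists_fun F).mp hmem
  have hcj : ∀ j, c j = B (Nm t (u j)) v := by
    intro j
    rw [Nm_adj ht, ← hc]
    simp only [map_sum, map_smul, smul_eq_mul, hu, mul_ite, mul_one, mul_zero,
      Finset.sum_ite_eq, Finset.mem_univ, if_true]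
  rw [← hc]
  exact Finset.sum_congr rfl (fun i _ => by rw [hcj i])

/-- Involutive isometries of a Hermitian space in characteristic two with the same rank of
`t - 1` are conjugate under an isometry. -/
theorem conj_of_rank [Finite F] [FiniteDimensional F V] (hσ : σ ≠ RingHom.id F)
    (hσ2 : ∀ a : F, σ (σ a) = a) (hS : B.IsSymm) (hB : B.Nondegenerate) (h2 : (2 : F) = 0)
    {t s : V →ₗ[F] V} (ht : HInv B t) (hs : HInv B s)
    (hrank : Module.finrank F (LinearMap.range (Nm t)) =
      Module.finrank F (LinearMap.range (Nm s))) :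
    ∃ g : V ≃ₗ[F] V, (∀ u v, B (g u) (g v) = B u v) ∧ ∀ v, g (t v) = s (g v) := by
  classical
  obtain ⟨u, hu⟩ := exists_family hσ hσ2 hS hB ht
  obtain ⟨u', hu'⟩ := exists_family hσ hσ2 hS hB hs
  have hli := family_li u hu
  have hli' := family_li u' hu'
  let b := Module.Basis.span hli
  let b' := Module.Basis.span hli'
  let φ : Submodule.span F (Set.range (fun i => Nm t (u i))) ≃ₗ[F]
      Submodule.span F (Set.range (fun i => Nm s (u' i))) := b.equiv b' (finCongr hrank)
  have hle : ∀ (t : V →ₗ[F] V) (r : ℕ) (u : Fin r → V) (x : V),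
      x ∈ Submodule.span F (Set.range (fun i => Nm t (u i))) → ∃ y, Nm t y = x := by
    intro t r u x hx
    have h1 : Submodule.span F (Set.range (fun i => Nm t (u i))) ≤ LinearMap.range (Nm t) := by
      rw [Submodule.span_le]
      rintro _ ⟨i, rfl⟩
      exact ⟨u i, rfl⟩
    exact h1 hx
  have hφ : ∀ x x' : Submodule.span F (Set.range (fun i => Nm t (u i))),
      B (φ x : V) (φ x' : V) = B (x : V) (x' : V) := by
    intro x x'
    obtain ⟨y, hy⟩ := hle t _ u x x.2
    obtain ⟨y', hy'⟩ := hle t _ u x' x'.2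
    obtain ⟨z, hz⟩ := hle s _ u' (φ x) (φ x).2
    obtain ⟨z', hz'⟩ := hle s _ u' (φ x') (φ x').2
    rw [← hy, ← hy', ← hz, ← hz', Nm_iso h2 ht, Nm_iso h2 hs]
  obtain ⟨g, hg1, hg2⟩ := Cfsg.Agent.S0751.result σ hσ hσ2 B hS hB _ _ φ hφ
  have hgN : ∀ i, g (Nm t (u i)) = Nm s (u' (finCongr hrank i)) := by
    intro i
    have h := hg2 (b i)
    have h1 : ((b i : Submodule.span F (Set.range (fun i => Nm t (u i)))) : V) = Nm t (u i) :=
      congrArg Subtype.val (Module.Basis.span_apply hli i)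
    have h3 : φ (b i) = b' (finCongr hrank i) := Module.Basis.equiv_apply ..
    have h4 : ((b' (finCongr hrank i) : Submodule.span F (Set.range (fun i => Nm s (u' i)))) : V)
        = Nm s (u' (finCongr hrank i)) := congrArg Subtype.val (Module.Basis.span_apply hli' _)
    rw [h1, h3, h4] at h
    exact h
  refine ⟨g, hg1, fun v => ?_⟩
  have key : g (Nm t v) = Nm s (g v) := by
    rw [expansion ht u hu v, expansion hs u' hu' (g v)]
    simp only [map_sum, map_smul]
    rw [← Equiv.sum_comp (finCongr hrank)]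
    apply Finset.sum_congr rfl
    intro i _
    rw [hgN i, ← hgN i, hg1]
  have h3 : t v = Nm t v + v := by rw [Nm_apply]; abel
  have h4 : s (g v) = Nm s (g v) + g v := by rw [Nm_apply]; abel
  rw [h3, h4, map_add, key]

end Cfsg.Agent.Lib.Helper15.HermInvol
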