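import Cfsg.Agent.Lib.Helper15.HermInvol

set_option autoImplicit false

namespace Cfsg.Agent.Lib.Helper15.HermInvol

open Matrix

variable {F V : Type*} [Field F] [AddCommGroup V] [Module F V] {σ : F →+* F}
variable {B : V →ₛₗ[σ] V →ₗ[F] F}

theorem trace_surj (h2 : (2 : F) = 0) (hσ : σ ≠ RingHom.id F) (hσ2 : ∀ a : F, σ (σ a) = a)
    (α : F) (hα : σ α = α) : ∃ c : F, c + σ c = α := by
  have : ∃ x, σ x ≠ x := by
    by_contra h
    push Not at h
    exact hσ (RingHom.ext h)
  obtain ⟨x, hx⟩ := this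
  have hd : x + σ x ≠ 0 := by
    intro h
    apply hx
    have h3 : x + x = 0 := by linear_combination x * h2
    linear_combination h - h3
  refine ⟨α * x / (x + σ x), ?_⟩
  rw [map_div₀, map_mul, map_add, hσ2, hα, add_comm (σ x) x, ← add_div, ← mul_add,
    mul_div_assoc, div_self hd, mul_one]

/-- A hyperbolic pair adapted to a nontrivial involutive isometry. -/
theorem exists_hyp_pair [Finite F] [FiniteDimensional F V] (hσ : σ ≠ RingHom.id F)
    (hσ2 : ∀ a : F, σ (σ a) = a) (hS : B.IsSymm) (hB : B.Nondegenerate) (h2 : (2 : F) = 0)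
    {t : V →ₗ[F] V} (ht : HInv B t) (hne : t ≠ LinearMap.id) :
    ∃ e f : V, B e e = 0 ∧ B f f = 0 ∧ B e f = 1 ∧ B f e = 1 ∧ t e = e + f ∧ t f = f := by
  obtain ⟨u, hu⟩ := exists_family hσ hσ2 hS hB ht
  have hpos : 0 < Module.finrank F (LinearMap.range (Nm t)) := by
    rw [Module.finrank_pos_iff_exists_ne_zero]
    by_contra h
    push Not at h
    apply hne
    apply LinearMap.ext
    intro v
    have h1 := h ⟨Nm t v, ⟨v, rfl⟩⟩
    have h' : Nm t v = 0 := congrArg Subtype.val h1
    rw [Nm_apply, sub_eq_zero] at h'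
    rw [h']
    rfl
  set e₀ := u ⟨0, hpos⟩ with he₀
  set f := Nm t e₀ with hf
  have h1 : B e₀ f = 1 := by rw [hf, hu]; simp
  have h1' : B f e₀ = 1 := by rw [← hS.eq, h1, map_one]
  have hff : B f f = 0 := Nm_iso h2 ht _ _
  have hα : σ (B e₀ e₀) = B e₀ e₀ := hS.eq _ _
  obtain ⟨c, hc⟩ := trace_surj h2 hσ hσ2 (B e₀ e₀) hα
  have hNf : Nm t f = 0 := Nm_sq h2 ht _
  have htf : t f = f := by rw [Nm_apply, sub_eq_zero] at hNf; exact hNf
  have hte : t e₀ = e₀ + f := by rw [hf, Nm_apply]; abel
  refine ⟨e₀ + c • f, f, ?_, hff, ?_, ?_, ?_, htf⟩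
  · simp only [map_add, map_smulₛₗ, LinearMap.add_apply, LinearMap.smul_apply, smul_eq_mul, h1,
      h1', hff, RingHom.id_apply, map_smul]
    linear_combination hc + (B e₀ e₀) * h2
  · simp only [map_add, map_smulₛₗ, LinearMap.add_apply, LinearMap.smul_apply, smul_eq_mul, h1,
      hff, mul_zero, add_zero]
  · simp only [map_add, map_smul, smul_eq_mul, h1', hff, mul_zero, add_zero]
  · rw [map_add, map_smul, hte, htf]
    abel

/-- Scalar `μ` on a hyperbolic plane, identity on its orthogonal complement. -/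
def kmap (B : V →ₛₗ[σ] V →ₗ[F] F) (μ : F) (e f : V) : V →ₗ[F] V :=
  LinearMap.id + (μ - 1) • ((B f).smulRight e + (B e).smulRight f)

theorem kmap_apply (μ : F) (e f x : V) :
    kmap B μ e f x = x + (μ - 1) • (B f x • e + B e x • f) := rfl

theorem kmap_iso (hS : B.IsSymm) {μ : F} (hμ : μ * σ μ = 1) {e f : V} (hee : B e e = 0)
    (hff : B f f = 0) (hef : B e f = 1) (hfe : B f e = 1) (x y : V) :
    B (kmap B μ e f x) (kmap B μ e f y) = B x y := by
  simp only [kmap_apply, map_add, map_smulₛₗ, map_smul, LinearMap.add_apply,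
    LinearMap.smul_apply, smul_eq_mul, hee, hff, hef, hfe, RingHom.id_apply, map_sub, map_one,
    hS.eq]
  linear_combination (B x f * B e y + B x e * B f y) * hμ

theorem kmap_comm {t : V →ₗ[F] V} (ht : HInv B t) (μ : F) {e f : V} (hte : t e = e + f)
    (htf : t f = f) (x : V) : t (kmap B μ e f x) = kmap B μ e f (t x) := by
  have h1 : B f (t x) = B f x := by rw [← iso_swap ht, htf]
  have h2 : B e (t x) = B e x + B f x := by
    rw [← iso_swap ht, hte, map_add, LinearMap.add_apply]
  simp only [kmap_apply, map_add, map_smul, hte, htf, h1, h2]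
  module

section concrete

variable {n : ℕ}

/-- The standard Hermitian form on `F^n`, semilinear in the first variable. -/
def HermB (n : ℕ) (σ : F →+* F) : (Fin n → F) →ₛₗ[σ] (Fin n → F) →ₗ[F] F :=
  LinearMap.mk₂'ₛₗ σ (RingHom.id F) (fun u v => ∑ i, v i * σ (u i))
    (fun u u' v => by simp only [Pi.add_apply, map_add, mul_add, Finset.sum_add_distrib])
    (fun c u v => by
      simp only [Pi.smul_apply, smul_eq_mul, map_mul, Finset.mul_sum]
      exact Finset.sum_congr rfl (fun i _ => by ring))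
    (fun u v v' => by simp only [Pi.add_apply, add_mul, Finset.sum_add_distrib])
    (fun c u v => by
      simp only [Pi.smul_apply, smul_eq_mul, RingHom.id_apply, Finset.mul_sum, mul_assoc])

theorem HermB_apply (u v : Fin n → F) : HermB n σ u v = ∑ i, v i * σ (u i) := rfl

theorem HermB_symm (hσ2 : ∀ a : F, σ (σ a) = a) : (HermB n σ).IsSymm :=
  ⟨fun x y => by
    simp only [HermB_apply, map_sum, map_mul, hσ2]
    exact Finset.sum_congr rfl (fun i _ => mul_comm _ _)⟩

theorem HermB_nondeg : (HermB n σ).Nondegenerate := by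
  classical
  constructor
  · intro x hx
    funext i
    have h := hx (Pi.single i 1)
    simp only [HermB_apply, Pi.single_apply, ite_mul, one_mul, zero_mul, Finset.sum_ite_eq',
      Finset.mem_univ, if_true] at h
    simpa using h
  · intro y hy
    funext i
    have h := hy (Pi.single i 1)
    simp only [HermB_apply, Pi.single_apply, apply_ite σ, map_one, map_zero, mul_ite, mul_one,
      mul_zero, Finset.sum_ite_eq', Finset.mem_univ, if_true] at h
    exact h

theorem toMatrix'_kmap (μ : F) (e f : Fin n → F) :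
    LinearMap.toMatrix' (kmap (HermB n σ) μ e f) =
      1 + (Matrix.of fun i (j : Fin 2) => (μ - 1) * ![e i, f i] j) *
        (Matrix.of fun (j : Fin 2) i => ![σ (f i), σ (e i)] j) := by
  ext i j
  rw [LinearMap.toMatrix'_apply, kmap_apply]
  simp only [HermB_apply, Matrix.add_apply, Matrix.mul_apply, Fin.sum_univ_two, Matrix.of_apply,
    Matrix.cons_val_zero, Matrix.cons_val_one, Pi.add_apply, Pi.smul_apply, smul_eq_mul,
    Pi.single_apply, ite_mul, one_mul, zero_mul, Finset.sum_ite_eq', Finset.mem_univ, if_true,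
    Matrix.one_apply]
  ring

theorem det_kmap (μ : F) {e f : Fin n → F} (hee : HermB n σ e e = 0) (hff : HermB n σ f f = 0)
    (hef : HermB n σ e f = 1) (hfe : HermB n σ f e = 1) :
    (LinearMap.toMatrix' (kmap (HermB n σ) μ e f)).det = μ ^ 2 := by
  rw [toMatrix'_kmap, Matrix.det_one_add_mul_comm]
  have h : (Matrix.of fun (j : Fin 2) i => ![σ (f i), σ (e i)] j) *
      (Matrix.of fun i (j : Fin 2) => (μ - 1) * ![e i, f i] j) =
      (μ - 1) • (1 : Matrix (Fin 2) (Fin 2) F) := by
    rw [HermB_apply] at hee hff hef hfe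
    have hsum : ∀ (x y : Fin n → F), ∑ i, σ (x i) * ((μ - 1) * y i) =
        (μ - 1) * ∑ i, y i * σ (x i) := by
      intro x y
      rw [Finset.mul_sum]
      exact Finset.sum_congr rfl (fun i _ => by ring)
    ext a b
    fin_cases a <;> fin_cases b <;>
      simp [Matrix.mul_apply, hsum, hee, hff, hef, hfe]
  rw [h, Matrix.det_fin_two]
  simp only [Matrix.add_apply, Matrix.smul_apply, Matrix.one_apply_eq, smul_eq_mul, mul_one,
    ne_eq, zero_ne_one, one_ne_zero, not_false_eq_true, Matrix.one_apply_ne, mul_zero, add_zero]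
  ring

theorem det_norm (G : Matrix (Fin n) (Fin n) F)
    (hG : ∀ u v, HermB n σ (G *ᵥ u) (G *ᵥ v) = HermB n σ u v) : G.det * σ G.det = 1 := by
  classical
  have h : (G.map σ)ᵀ * G = 1 := by
    ext j k
    have h1 := hG (Pi.single j 1) (Pi.single k 1)
    simp only [HermB_apply, Matrix.mulVec_single_one, Matrix.col_apply, Pi.single_apply,
      apply_ite σ, map_one, map_zero, mul_ite, mul_one, mul_zero, ite_mul, one_mul, zero_mul,
      Finset.sum_ite_eq', Finset.mem_univ, if_true] at h1
    rw [Matrix.mul_apply, Matrix.one_apply]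
    simp only [Matrix.transpose_apply, Matrix.map_apply]
    rw [← h1]
    exact Finset.sum_congr rfl (fun i _ => mul_comm _ _)
  have h2 := congrArg Matrix.det h
  rw [Matrix.det_mul, Matrix.det_transpose,
    show (G.map σ).det = σ G.det from (RingHom.map_det σ G).symm, Matrix.det_one] at h2
  rw [mul_comm]
  exact h2

theorem Nm_toLin' (A : Matrix (Fin n) (Fin n) F) :
    Nm (Matrix.toLin' A) = (A - 1).mulVecLin := by
  apply LinearMap.ext
  intro v
  rw [Nm_apply, Matrix.toLin'_apply, Matrix.mulVecLin_apply, Matrix.sub_mulVec, Matrix.one_mulVec]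

theorem rank_eq (A : Matrix (Fin n) (Fin n) F) :
    Module.finrank F (LinearMap.range (Nm (Matrix.toLin' A))) = (A - 1).rank := by
  rw [Nm_toLin']
  rfl

end concrete

end Cfsg.Agent.Lib.Helper15.HermInvol
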