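import Mathlib

set_option autoImplicit false

namespace Cfsg.Agent.Lib.Helper15.InvolCls

variable {F V : Type*} [Field F] [AddCommGroup V] [Module F V]

/-- Standing hypotheses on the alternating form (characteristic two). -/
structure Setup (B : LinearMap.BilinForm F V) : Prop where
  two : (2 : F) = 0
  alt : ∀ v, B v v = 0
  sepL : ∀ x, (∀ y, B x y = 0) → x = 0

/-- An involutive isometry (the identity allowed). -/
structure InvIso (B : LinearMap.BilinForm F V) (t : V →ₗ[F] V) : Prop where
  sq : ∀ v, t (t v) = v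
  iso : ∀ u v, B (t u) (t v) = B u v

/-- The nilpotent part `t - 1` of an involution. -/
def Nm (t : V →ₗ[F] V) : V →ₗ[F] V := t - LinearMap.id

theorem Nm_apply (t : V →ₗ[F] V) (v : V) : Nm t v = t v - v := rfl

variable {B : LinearMap.BilinForm F V}

theorem Setup.symm (hS : Setup B) (u v : V) : B u v = B v u := by
  have h := hS.alt (u + v)
  simp only [map_add, LinearMap.add_apply, hS.alt, zero_add, add_zero] at h
  have h2 : B v u + B v u = 0 := by linear_combination B v u * hS.two
  linear_combination h - h2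

theorem Setup.smul_two (hS : Setup B) (v : V) : v + v = 0 := by
  have : (2 : F) • v = 0 := by rw [hS.two, zero_smul]
  rwa [two_smul] at this

theorem Nm_adj {t : V →ₗ[F] V} (ht : InvIso B t) (u v : V) :
    B (Nm t u) v = B u (Nm t v) := by
  simp only [Nm_apply, map_sub, LinearMap.sub_apply]
  have h := ht.iso (t u) v
  rw [ht.sq] at h
  rw [← h]

theorem Nm_sq (hS : Setup B) {t : V →ₗ[F] V} (ht : InvIso B t) (v : V) : Nm t (Nm t v) = 0 := by
  simp only [Nm_apply, map_sub, ht.sq]
  have h := hS.smul_two (v - t v)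
  rw [← h]
  abel

theorem Nm_iso (hS : Setup B) {t : V →ₗ[F] V} (ht : InvIso B t) (u v : V) :
    B (Nm t u) (Nm t v) = 0 := by
  rw [Nm_adj ht, Nm_sq hS ht, map_zero]

theorem gam_symm (hS : Setup B) {t : V →ₗ[F] V} (ht : InvIso B t) (u v : V) :
    B u (Nm t v) = B v (Nm t u) := by
  rw [← Nm_adj ht v u, hS.symm]

theorem gam_self (hS : Setup B) (t : V →ₗ[F] V) (v : V) : B v (Nm t v) = B v (t v) := by
  rw [Nm_apply, map_sub, hS.alt, sub_zero]

/-- Normal form data: vectors `u i` with prescribed Gram matrix against their images under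
`t - 1`, which span the image of `t - 1`. -/
def NF (B : LinearMap.BilinForm F V) (t : V →ₗ[F] V) {ι : Type*} [Fintype ι] (G : ι → ι → F) : Prop :=
  ∃ u : ι → V, (∀ i j, B (u i) (Nm t (u j)) = G i j) ∧
    ∀ v, ∃ c : ι → F, Nm t v = ∑ i, c i • Nm t (u i)

/-- Nondegeneracy of a Gram matrix. -/
def GNondeg {ι : Type*} [Fintype ι] (G : ι → ι → F) : Prop :=
  ∀ c : ι → F, (∀ j, ∑ i, c i * G j i = 0) → c = 0

theorem NF_li {t : V →ₗ[F] V} {ι : Type*} [Fintype ι] {G : ι → ι → F}
    (hG : GNondeg G) (u : ι → V) (hu : ∀ i j, B (u i) (Nm t (u j)) = G i j) :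
    LinearIndependent F (fun i => Nm t (u i)) := by
  rw [Fintype.linearIndependent_iff]
  intro c hc
  have h0 : c = 0 := by
    apply hG
    intro j
    have h1 : B (u j) (∑ i, c i • Nm t (u i)) = 0 := by rw [hc, map_zero]
    simp only [map_sum, map_smul, smul_eq_mul, hu] at h1
    exact h1
  intro i
  rw [h0]
  rfl

theorem NF_rank [FiniteDimensional F V] {t : V →ₗ[F] V} {ι : Type*} [Fintype ι] {G : ι → ι → F}
    (hG : GNondeg G) (h : NF B t G) :
    Module.finrank F (LinearMap.range (Nm t)) = Fintype.card ι := by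
  obtain ⟨u, hu, hspan⟩ := h
  have hli := NF_li hG u hu
  have : LinearMap.range (Nm t) = Submodule.span F (Set.range (fun i => Nm t (u i))) := by
    apply le_antisymm
    · rintro _ ⟨v, rfl⟩
      obtain ⟨c, hc⟩ := hspan v
      rw [hc]
      exact Submodule.sum_mem _ (fun i _ => Submodule.smul_mem _ _ (Submodule.subset_span ⟨i, rfl⟩))
    · rw [Submodule.span_le]
      rintro _ ⟨i, rfl⟩
      exact ⟨u i, rfl⟩
  rw [this, finrank_span_eq_card hli]

end Cfsg.Agent.Lib.Helper15.InvolCls
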