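import Cfsg.Agent.Lib.Helper15.InvolClsA

set_option autoImplicit false

namespace Cfsg.Agent.Lib.Helper15.InvolCls

variable {F V : Type*} [Field F] [AddCommGroup V] [Module F V]
variable {B : LinearMap.BilinForm F V}

/-- The data of an isomorphism between the images of `t - 1` and `s - 1` matching the two
normal-form families. -/
structure PhiData (B : LinearMap.BilinForm F V) (t s : V →ₗ[F] V) {ι : Type*} [Fintype ι]
    (G : ι → ι → F) where
  u : ι → V
  u' : ι → V
  X : Submodule F V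
  Y : Submodule F V
  φ : X ≃ₗ[F] Y
  hu : ∀ i j, B (u i) (Nm t (u j)) = G i j
  hu' : ∀ i j, B (u' i) (Nm s (u' j)) = G i j
  hspan : ∀ v, ∃ c : ι → F, Nm t v = ∑ i, c i • Nm t (u i)
  hspan' : ∀ v, ∃ c : ι → F, Nm s v = ∑ i, c i • Nm s (u' i)
  hrepr : ∀ x : X, ∃ c : ι → F, (x : V) = ∑ i, c i • Nm t (u i) ∧
    (φ x : V) = ∑ i, c i • Nm s (u' i)
  hmem : ∀ i, ∃ hx : Nm t (u i) ∈ X, (φ ⟨Nm t (u i), hx⟩ : V) = Nm s (u' i)

theorem exists_phi {t s : V →ₗ[F] V} {ι : Type*} [Fintype ι] {G : ι → ι → F}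
    (hG : GNondeg G) (hNt : NF B t G) (hNs : NF B s G) : Nonempty (PhiData B t s G) := by
  classical
  obtain ⟨u, hu, hspan⟩ := hNt
  obtain ⟨u', hu', hspan'⟩ := hNs
  have hli := NF_li hG u hu
  have hli' := NF_li hG u' hu'
  let bX := Module.Basis.span hli
  let bY := Module.Basis.span hli'
  have hbX : ∀ i, (bX i : V) = Nm t (u i) := fun i =>
    congrArg Subtype.val (Module.Basis.span_apply hli i)
  have hbY : ∀ i, (bY i : V) = Nm s (u' i) := fun i =>
    congrArg Subtype.val (Module.Basis.span_apply hli' i)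
  let φ := bX.equiv bY (Equiv.refl ι)
  have hφ : ∀ i, φ (bX i) = bY i := fun i => by
    simp [φ]
  refine ⟨⟨u, u', _, _, φ, hu, hu', hspan, hspan', ?_, ?_⟩⟩
  · intro x
    refine ⟨fun i => bX.repr x i, ?_, ?_⟩
    · have h := bX.sum_repr x
      have h2 := congrArg (Submodule.subtype _) h
      simp only [map_sum, map_smul, Submodule.subtype_apply, hbX] at h2
      exact h2.symm
    · have h := bX.sum_repr x
      have h2 := congrArg (fun y => ((φ y : _) : V)) h
      simp only [map_sum, map_smul, hφ] at h2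
      rw [← h2]
      simp only [Submodule.coe_sum, Submodule.coe_smul, hbY]
  · intro i
    have hx : Nm t (u i) ∈ Submodule.span F (Set.range fun i => Nm t (u i)) :=
      Submodule.subset_span ⟨i, rfl⟩
    refine ⟨hx, ?_⟩
    have e : (⟨Nm t (u i), hx⟩ : Submodule.span F (Set.range fun i => Nm t (u i))) = bX i :=
      Subtype.ext (hbX i).symm
    rw [e, hφ, hbY]

/-- The isomorphism of `PhiData` is an isometry for the alternating form (both sides are
totally isotropic). -/
theorem PhiData.isometry (hS : Setup B) {t s : V →ₗ[F] V} (ht : InvIso B t) (hs : InvIso B s)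
    {ι : Type*} [Fintype ι] {G : ι → ι → F} (D : PhiData B t s G) (x x' : D.X) :
    B (D.φ x : V) (D.φ x' : V) = B (x : V) (x' : V) := by
  obtain ⟨c, hc1, hc2⟩ := D.hrepr x
  obtain ⟨c', hc1', hc2'⟩ := D.hrepr x'
  rw [hc1, hc2, hc1', hc2']
  simp only [map_sum, map_smul, LinearMap.sum_apply, LinearMap.smul_apply, Nm_iso hS ht,
    Nm_iso hS hs]

/-- Any isometry extending the isomorphism of `PhiData` conjugates `t` to `s`. -/
theorem PhiData.conj {t s : V →ₗ[F] V} (ht : InvIso B t) (hs : InvIso B s)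
    {ι : Type*} [Fintype ι] {G : ι → ι → F} (hG : GNondeg G) (D : PhiData B t s G)
    (g : V ≃ₗ[F] V) (hg1 : ∀ a b : V, B (g a) (g b) = B a b)
    (hg2 : ∀ x : D.X, g (x : V) = (D.φ x : V)) (v : V) : g (t v) = s (g v) := by
  have hgx : ∀ i, g (Nm t (D.u i)) = Nm s (D.u' i) := by
    intro i
    obtain ⟨hx, hφ⟩ := D.hmem i
    rw [← hφ, ← hg2 ⟨_, hx⟩]
  obtain ⟨c, hc⟩ := D.hspan v
  obtain ⟨d, hd⟩ := D.hspan' (g v)
  have hcd : c - d = 0 := by
    apply hG
    intro j
    have h1 : ∑ i, c i * G j i = B (D.u j) (Nm t v) := by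
      rw [hc]
      simp only [map_sum, map_smul, smul_eq_mul, D.hu]
    have h2 : ∑ i, d i * G j i = B (D.u' j) (Nm s (g v)) := by
      rw [hd]
      simp only [map_sum, map_smul, smul_eq_mul, D.hu']
    have h3 : B (D.u' j) (Nm s (g v)) = B (D.u j) (Nm t v) := by
      rw [← Nm_adj hs, ← hgx, hg1, Nm_adj ht]
    simp only [Pi.sub_apply, sub_mul, Finset.sum_sub_distrib]
    rw [h1, h2, h3, sub_self]
  have hcd' : c = d := sub_eq_zero.mp hcd
  have h4 : g (Nm t v) = Nm s (g v) := by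
    rw [hc, hd, hcd']
    simp only [map_sum, map_smul, hgx]
  rw [Nm_apply, Nm_apply, map_sub] at h4
  exact sub_left_injective h4

end Cfsg.Agent.Lib.Helper15.InvolCls
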