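import Cfsg.Agent.Lib.Helper15.InvolClsB
import Cfsg.Agent.S0752

set_option autoImplicit false

namespace Cfsg.Agent.Lib.Helper15.InvolCls

variable {F V : Type*} [Field F] [AddCommGroup V] [Module F V]
variable {B : LinearMap.BilinForm F V}

/-- The standard symplectic Gram matrix. -/
def Gs (F : Type*) [Field F] (m : ℕ) (x y : Fin m ⊕ Fin m) : F :=
  match x, y with
  | Sum.inl i, Sum.inr j => if i = j then 1 else 0
  | Sum.inr i, Sum.inl j => if i = j then 1 else 0
  | _, _ => 0

theorem Gs_nondeg (m : ℕ) : GNondeg (Gs F m) := by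
  intro c hc
  funext x
  rcases x with i | i
  · have h := hc (Sum.inr i)
    simp only [Fintype.sum_sum_type, Gs, mul_ite, mul_one, mul_zero, Finset.sum_ite_eq,
      Finset.mem_univ, if_true, Finset.sum_const_zero, add_zero] at h
    exact h
  · have h := hc (Sum.inl i)
    simp only [Fintype.sum_sum_type, Gs, mul_ite, mul_one, mul_zero, Finset.sum_ite_eq,
      Finset.mem_univ, if_true, Finset.sum_const_zero, zero_add] at h
    exact h

/-- Normal form of an involution whose associated symmetric form is alternating. -/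
theorem NF_alt [FiniteDimensional F V] (hS : Setup B) {t : V →ₗ[F] V} (ht : InvIso B t)
    (h : ∀ v, B v (t v) = 0) : ∃ m : ℕ, NF B t (Gs F m) := by
  classical
  let γ : LinearMap.BilinForm F V := B.compl₂ (Nm t)
  have hγ : ∀ u v, γ u v = B u (Nm t v) := fun u v => rfl
  have hA : γ.IsAlt := fun v => by rw [hγ, gam_self hS, h]
  obtain ⟨m, k, b, hef, hee, hff, hr⟩ := Cfsg.Agent.S0752.result γ hA
  refine ⟨m, fun x => b (Sum.inl x), ?_, ?_⟩
  · intro x y
    rcases x with i | i <;> rcases y with j | j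
    · have := hee i j
      rw [hγ] at this
      rw [this]
      rfl
    · have := hef i j
      rw [hγ] at this
      rw [this]
      rfl
    · have := hef j i
      rw [hγ] at this
      rw [gam_symm hS ht, this]
      simp only [Gs, eq_comm]
    · have := hff i j
      rw [hγ] at this
      rw [this]
      rfl
  · intro v
    have hrad : ∀ j : Fin k, Nm t (b (Sum.inr j)) = 0 := by
      intro j
      apply hS.sepL
      intro w
      rw [Nm_adj ht]
      exact hr j w
    refine ⟨fun x => b.repr v (Sum.inl x), ?_⟩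
    have h1 := b.sum_repr v
    have h2 := congrArg (Nm t) h1
    rw [← h2]
    simp only [map_sum, map_add, map_smul, Fintype.sum_sum_type, hrad, smul_zero,
      Finset.sum_const_zero, add_zero]

/-- A maximal orthonormal family for a symmetric bilinear form in characteristic two inside a
subspace on which the form is not alternating. -/
theorem exists_orthonormal [FiniteDimensional F V] (γ : V → V → F) (htwo : (2 : F) = 0)
    (hsq : ∀ a : F, ∃ c : F, c * c = a)
    (hadd : ∀ u v w, γ u (v + w) = γ u v + γ u w)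
    (hsmul : ∀ (c : F) u v, γ u (c • v) = c * γ u v)
    (hsymm : ∀ u v, γ u v = γ v u) :
    ∀ (n : ℕ) (W : Submodule F V), Module.finrank F W ≤ n → (∃ w ∈ W, γ w w ≠ 0) →
      ∃ (k : ℕ) (u : Fin k → V), (∀ i, u i ∈ W) ∧
        (∀ i j, γ (u i) (u j) = if i = j then 1 else 0) ∧
        ∀ w ∈ W, (∀ i, γ (u i) w = 0) → ∀ w' ∈ W, γ w w' = 0 := by
  have hadd' : ∀ u v w, γ (u + v) w = γ u w + γ v w := by
    intro u v w
    rw [hsymm, hadd, hsymm w u, hsymm w v]
  have hsmul' : ∀ (c : F) u v, γ (c • u) v = c * γ u v := by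
    intro c u v
    rw [hsymm, hsmul, hsymm]
  -- the kernel of `γ u₀` inside `W`
  let K : V → Submodule F V → Submodule F V := fun u₀ W =>
    { carrier := {w | w ∈ W ∧ γ u₀ w = 0}
      add_mem' := fun {a b} ha hb => ⟨W.add_mem ha.1 hb.1, by rw [hadd, ha.2, hb.2, add_zero]⟩
      zero_mem' := ⟨W.zero_mem, by
        have := hsmul 0 u₀ 0
        simpa using this⟩
      smul_mem' := fun c a ha => ⟨W.smul_mem c ha.1, by rw [hsmul, ha.2, mul_zero]⟩ }
  have hKmem : ∀ u₀ W w, w ∈ K u₀ W ↔ w ∈ W ∧ γ u₀ w = 0 := fun u₀ W w => Iff.rfl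
  have hKlt : ∀ u₀ (W : Submodule F V), u₀ ∈ W → γ u₀ u₀ = 1 →
      Module.finrank F (K u₀ W) < Module.finrank F W := by
    intro u₀ W hu₀ h1
    apply Submodule.finrank_lt_finrank_of_lt
    refine lt_of_le_of_ne (fun w hw => hw.1) ?_
    intro heq
    have : u₀ ∈ K u₀ W := by rw [heq]; exact hu₀
    have h2 := this.2
    rw [h1] at h2
    exact one_ne_zero h2
  -- the assembling step
  have step : ∀ (W : Submodule F V) (u₀ : V), u₀ ∈ W → γ u₀ u₀ = 1 →
      (∃ (k : ℕ) (u : Fin k → V), (∀ i, u i ∈ K u₀ W) ∧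
        (∀ i j, γ (u i) (u j) = if i = j then 1 else 0) ∧
        ∀ w ∈ K u₀ W, (∀ i, γ (u i) w = 0) → ∀ w' ∈ K u₀ W, γ w w' = 0) →
      ∃ (k : ℕ) (u : Fin k → V), (∀ i, u i ∈ W) ∧
        (∀ i j, γ (u i) (u j) = if i = j then 1 else 0) ∧
        ∀ w ∈ W, (∀ i, γ (u i) w = 0) → ∀ w' ∈ W, γ w w' = 0 := by
    rintro W u₀ hu₀ h1 ⟨k, u, huK, hon, hmax⟩
    refine ⟨k + 1, Fin.cons u₀ u, ?_, ?_, ?_⟩
    · intro i
      refine Fin.cases ?_ (fun i => ?_) i
      · simpa using hu₀
      · simpa using (huK i).1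
    · intro i j
      refine Fin.cases ?_ (fun i => ?_) i <;> refine Fin.cases ?_ (fun j => ?_) j
      · simpa using h1
      · simp only [Fin.cons_zero, Fin.cons_succ]
        rw [(huK j).2, if_neg (Fin.succ_ne_zero j).symm]
      · simp only [Fin.cons_zero, Fin.cons_succ]
        rw [hsymm, (huK i).2, if_neg (Fin.succ_ne_zero i)]
      · simp only [Fin.cons_succ, hon, Fin.succ_inj]
    · intro w hw hall w' hw'
      have hw0 : γ u₀ w = 0 := by
        have := hall 0
        simpa using this
      have hwK : w ∈ K u₀ W := ⟨hw, hw0⟩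
      have hall' : ∀ i, γ (u i) w = 0 := by
        intro i
        have := hall i.succ
        simpa using this
      have hmax' := hmax w hwK hall'
      set w'' := w' + (-(γ u₀ w')) • u₀ with hw''
      have hw''K : w'' ∈ K u₀ W := by
        refine ⟨W.add_mem hw' (W.smul_mem _ hu₀), ?_⟩
        rw [hw'', hadd, hsmul, h1]
        ring
      have h3 := hmax' w'' hw''K
      rw [hw'', hadd, hsmul, hsymm w u₀, hw0, mul_zero, add_zero] at h3
      exact h3
  intro n
  induction n with
  | zero =>
    intro W hW ⟨w, hw, hne⟩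
    exfalso
    have hbot : W = ⊥ := by
      apply Submodule.finrank_eq_zero.mp
      omega
    rw [hbot, Submodule.mem_bot] at hw
    apply hne
    rw [hw]
    have := hsmul 0 0 (0 : V)
    simpa using this
  | succ n ih =>
    intro W hW ⟨v, hv, hne⟩
    obtain ⟨c, hc⟩ := hsq (γ v v)
    have hc0 : c ≠ 0 := by
      rintro rfl
      rw [zero_mul] at hc
      exact hne hc.symm
    set u₀ := c⁻¹ • v with hu₀def
    have hu₀ : u₀ ∈ W := W.smul_mem _ hv
    have h1 : γ u₀ u₀ = 1 := by
      rw [hu₀def, hsmul, hsmul', ← hc]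
      field_simp
    have hlt := hKlt u₀ W hu₀ h1
    by_cases hA : ∃ w ∈ K u₀ W, γ w w ≠ 0
    · exact step W u₀ hu₀ h1 (ih (K u₀ W) (by omega) hA)
    · push Not at hA
      by_cases hZ : ∀ w ∈ K u₀ W, ∀ w' ∈ K u₀ W, γ w w' = 0
      · refine step W u₀ hu₀ h1 ⟨0, Fin.elim0, fun i => i.elim0, fun i => i.elim0, ?_⟩
        intro w hw _ w' hw'
        exact hZ w hw w' hw'
      · push Not at hZ
        obtain ⟨e, he, e', he', hee'⟩ := hZ
        set e'' := (γ e e')⁻¹ • e' with he''def
        have he'' : e'' ∈ K u₀ W := (K u₀ W).smul_mem _ he'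
        have hee'' : γ e e'' = 1 := by
          rw [he''def, hsmul, inv_mul_cancel₀ hee']
        set ũ := u₀ + e with hũ
        have hũW : ũ ∈ W := W.add_mem hu₀ he.1
        have h1' : γ ũ ũ = 1 := by
          rw [hũ, hadd, hadd', hadd', h1, he.2, hsymm e u₀, he.2, hA e he]
          ring
        have hlt' := hKlt ũ W hũW h1'
        have hz : u₀ + e'' ∈ K ũ W := by
          refine ⟨W.add_mem hu₀ he''.1, ?_⟩
          rw [hũ, hadd, hadd', hadd', h1, he''.2, hsymm e u₀, he.2, hee'']
          linear_combination htwo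
        have hzne : γ (u₀ + e'') (u₀ + e'') ≠ 0 := by
          rw [hadd, hadd', hadd', h1, he''.2, hsymm e'' u₀, he''.2, hA e'' he'']
          simp
        exact step W ũ hũW h1' (ih (K ũ W) (by omega) ⟨_, hz, hzne⟩)

end Cfsg.Agent.Lib.Helper15.InvolCls
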