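import Cfsg.Agent.Lib.Helper15.InvolClsC
import Cfsg.Agent.S0749

set_option autoImplicit false

namespace Cfsg.Agent.Lib.Helper15.InvolCls

variable {F V : Type*} [Field F] [AddCommGroup V] [Module F V]
variable {B : LinearMap.BilinForm F V}

theorem delta_nondeg (k : ℕ) : GNondeg (fun i j : Fin k => if i = j then (1 : F) else 0) := by
  intro c hc
  funext j
  have h := hc j
  simpa using h

/-- Normal form of an involution whose associated symmetric form is not alternating. -/
theorem NF_orth [FiniteDimensional F V] (hS : Setup B) (hsq : ∀ a : F, ∃ c : F, c * c = a)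
    {t : V →ₗ[F] V} (ht : InvIso B t) (h : ∃ v, B v (t v) ≠ 0) :
    ∃ k : ℕ, NF B t (fun i j : Fin k => if i = j then (1 : F) else 0) := by
  obtain ⟨v₀, hv₀⟩ := h
  obtain ⟨k, u, -, hon, hmax⟩ := exists_orthonormal (fun u v => B u (Nm t v)) hS.two hsq
    (fun u v w => by simp only [map_add])
    (fun c u v => by simp only [map_smul, smul_eq_mul])
    (fun u v => gam_symm hS ht u v) (Module.finrank F V) ⊤ (Submodule.finrank_le _)
    ⟨v₀, Submodule.mem_top, by
      show B v₀ (Nm t v₀) ≠ 0
      rw [gam_self hS]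
      exact hv₀⟩
  refine ⟨k, u, hon, ?_⟩
  intro v
  refine ⟨fun i => B (u i) (Nm t v), ?_⟩
  set w := v - ∑ i, B (u i) (Nm t v) • u i with hw
  have h1 : ∀ j, B (u j) (Nm t w) = 0 := by
    intro j
    rw [hw]
    simp only [map_sub, map_sum, map_smul, smul_eq_mul, hon, mul_ite, mul_one, mul_zero,
      Finset.sum_ite_eq, Finset.mem_univ, if_true, sub_self]
  have h2 := hmax w Submodule.mem_top h1
  have h3 : Nm t w = 0 := by
    apply hS.sepL
    intro y
    rw [Nm_adj ht]
    exact h2 y Submodule.mem_top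
  rw [hw] at h3
  simp only [map_sub, map_sum, map_smul] at h3
  exact sub_eq_zero.mp h3

/-- Two involutions with a common normal form are conjugate under an isometry. -/
theorem conj_of_NF [FiniteDimensional F V] (hS : Setup B) (hnd : B.Nondegenerate)
    {t s : V →ₗ[F] V} (ht : InvIso B t) (hs : InvIso B s) {ι : Type*} [Fintype ι]
    {G : ι → ι → F} (hG : GNondeg G) (hNt : NF B t G) (hNs : NF B s G) :
    ∃ g : V ≃ₗ[F] V, (∀ u v, B (g u) (g v) = B u v) ∧ ∀ v, g (t v) = s (g v) := by
  obtain ⟨D⟩ := exists_phi hG hNt hNs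
  obtain ⟨g, hg1, hg2⟩ := Cfsg.Agent.S0749.result B hnd (fun v => hS.alt v) D.X D.Y D.φ
    (D.isometry hS ht hs)
  exact ⟨g, hg1, D.conj ht hs hG g hg1 hg2⟩

/-- A common normal form exists for two involutions with the same invariants. -/
theorem exists_common_NF [FiniteDimensional F V] (hS : Setup B)
    (hsq : ∀ a : F, ∃ c : F, c * c = a) {t s : V →ₗ[F] V} (ht : InvIso B t) (hs : InvIso B s)
    (hrank : Module.finrank F (LinearMap.range (Nm t)) = Module.finrank F (LinearMap.range (Nm s)))
    (htype : (∀ v, B v (t v) = 0) ↔ (∀ v, B v (s v) = 0)) :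
    ∃ (k : ℕ) (G : Fin k → Fin k → F), GNondeg G ∧ NF B t G ∧ NF B s G ∧
      (∀ i, G i i = 0 ∨ G i i = 1) := by
  by_cases h : ∀ v, B v (t v) = 0
  · obtain ⟨m, hm⟩ := NF_alt hS ht h
    obtain ⟨m', hm'⟩ := NF_alt hS hs (htype.mp h)
    have r1 := NF_rank (Gs_nondeg m) hm
    have r2 := NF_rank (Gs_nondeg m') hm'
    rw [Fintype.card_sum, Fintype.card_fin] at r1 r2
    have hmm : m = m' := by omega
    subst hmm
    -- transport to `Fin (m + m)`
    let e : Fin m ⊕ Fin m ≃ Fin (m + m) := finSumFinEquiv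
    refine ⟨m + m, fun i j => Gs F m (e.symm i) (e.symm j), ?_, ?_, ?_, ?_⟩
    · intro c hc
      have h1 := Gs_nondeg (F := F) m (fun x => c (e x)) (by
        intro y
        have h2 := hc (e y)
        rw [← Equiv.sum_comp e] at h2
        simpa using h2)
      funext i
      have := congrFun h1 (e.symm i)
      simpa using this
    · obtain ⟨u, hu, hspan⟩ := hm
      refine ⟨fun i => u (e.symm i), fun i j => hu _ _, ?_⟩
      intro v
      obtain ⟨c, hc⟩ := hspan v
      refine ⟨fun i => c (e.symm i), ?_⟩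
      rw [hc, ← Equiv.sum_comp e]
      simp
    · obtain ⟨u, hu, hspan⟩ := hm'
      refine ⟨fun i => u (e.symm i), fun i j => hu _ _, ?_⟩
      intro v
      obtain ⟨c, hc⟩ := hspan v
      refine ⟨fun i => c (e.symm i), ?_⟩
      rw [hc, ← Equiv.sum_comp e]
      simp
    · intro i
      left
      show Gs F m (e.symm i) (e.symm i) = 0
      generalize e.symm i = x
      rcases x with x | x <;> rfl
  · have h' : ¬ ∀ v, B v (s v) = 0 := fun h2 => h (htype.mpr h2)
    push Not at h h'
    obtain ⟨k, hk⟩ := NF_orth hS hsq ht h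
    obtain ⟨k', hk'⟩ := NF_orth hS hsq hs h'
    have r1 := NF_rank (delta_nondeg k) hk
    have r2 := NF_rank (delta_nondeg k') hk'
    rw [Fintype.card_fin] at r1 r2
    have hkk : k = k' := by omega
    subst hkk
    exact ⟨k, _, delta_nondeg k, hk, hk', fun i => Or.inr (by simp)⟩

/-- Classification of involutive isometries of a symplectic space in characteristic two: the
rank of `t - 1` and the vanishing of `v ↦ B v (t v)` determine the class. -/
theorem conj_generic [FiniteDimensional F V] (hS : Setup B) (hnd : B.Nondegenerate)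
    (hsq : ∀ a : F, ∃ c : F, c * c = a) {t s : V →ₗ[F] V} (ht : InvIso B t) (hs : InvIso B s)
    (hrank : Module.finrank F (LinearMap.range (Nm t)) = Module.finrank F (LinearMap.range (Nm s)))
    (htype : (∀ v, B v (t v) = 0) ↔ (∀ v, B v (s v) = 0)) :
    ∃ g : V ≃ₗ[F] V, (∀ u v, B (g u) (g v) = B u v) ∧ ∀ v, g (t v) = s (g v) := by
  obtain ⟨k, G, hG, hNt, hNs, -⟩ := exists_common_NF hS hsq ht hs hrank htype
  exact conj_of_NF hS hnd ht hs hG hNt hNs

end Cfsg.Agent.Lib.Helper15.InvolCls
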