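import Cfsg.Agent.Lib.Helper15.InvolClsD
import Cfsg.Agent.S0750

set_option autoImplicit false

namespace Cfsg.Agent.Lib.Helper15.InvolCls

variable {F V : Type*} [Field F] [AddCommGroup V] [Module F V]

/-- A quadratic form is additive with squared coefficients on a family of pairwise
polar-orthogonal vectors. -/
theorem Q_sum_orth (Q : QuadraticForm F V) {ι : Type*} (s : Finset ι) (c : ι → F) (y : ι → V)
    (hy : ∀ i j, QuadraticMap.polar Q (y i) (y j) = 0) :
    Q (∑ i ∈ s, c i • y i) = ∑ i ∈ s, c i * c i * Q (y i) := by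
  classical
  induction s using Finset.induction_on with
  | empty => simp
  | insert a s ha ih =>
    rw [Finset.sum_insert ha, Finset.sum_insert ha, QuadraticMap.map_add (⇑Q), ih,
      QuadraticMap.map_smul, smul_eq_mul]
    have h0 : QuadraticMap.polar Q (c a • y a) (∑ i ∈ s, c i • y i) = 0 := by
      rw [← QuadraticMap.polarBilin_apply_apply]
      simp only [map_sum, map_smul, LinearMap.smul_apply, smul_eq_mul,
        QuadraticMap.polarBilin_apply_apply, hy, mul_zero, Finset.sum_const_zero]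
    rw [h0, add_zero]

/-- Involutions of an orthogonal group in characteristic two that are conjugate under the
symplectic group of the polar form are conjugate under the orthogonal group. -/
theorem orth_conj_generic [Finite F] [CharP F 2] [FiniteDimensional F V] (Q : QuadraticForm F V)
    (hQ : (QuadraticMap.polarBilin Q).Nondegenerate) {t s : V →ₗ[F] V}
    (ht2 : ∀ v, t (t v) = v) (hs2 : ∀ v, s (s v) = v)
    (htQ : ∀ v, Q (t v) = Q v) (hsQ : ∀ v, Q (s v) = Q v)
    (g₀ : V ≃ₗ[F] V)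
    (hg₀ : ∀ u v, QuadraticMap.polar Q (g₀ u) (g₀ v) = QuadraticMap.polar Q u v)
    (hconj : ∀ v, g₀ (t v) = s (g₀ v)) :
    ∃ g : V ≃ₗ[F] V, (∀ v, Q (g v) = Q v) ∧ ∀ v, g (t v) = s (g v) := by
  set B := QuadraticMap.polarBilin Q with hBdef
  have hB : ∀ u v, B u v = QuadraticMap.polar Q u v := fun u v =>
    QuadraticMap.polarBilin_apply_apply Q u v
  have htwo : (2 : F) = 0 := CharTwo.two_eq_zero
  have hS : Setup B := by
    refine ⟨htwo, fun v => ?_, hQ.1⟩
    rw [hB, QuadraticMap.polar_self, two_smul]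
    linear_combination Q v * htwo
  have polar_iso : ∀ (r : V →ₗ[F] V), (∀ v, Q (r v) = Q v) → ∀ u v, B (r u) (r v) = B u v := by
    intro r hr u v
    rw [hB, hB]
    unfold QuadraticMap.polar
    rw [← map_add, hr, hr, hr]
  have ht : InvIso B t := ⟨ht2, polar_iso t htQ⟩
  have hs : InvIso B s := ⟨hs2, polar_iso s hsQ⟩
  have hsq : ∀ x : F, ∃ c : F, c * c = x := fun x => by
    obtain ⟨c, hc⟩ := FiniteField.isSquare_of_char_two (ringChar.eq F 2) x
    exact ⟨c, hc.symm⟩
  have hNg : ∀ v, Nm s (g₀ v) = g₀ (Nm t v) := by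
    intro v
    rw [Nm_apply, Nm_apply, map_sub, hconj]
  have hrank : Module.finrank F (LinearMap.range (Nm t)) =
      Module.finrank F (LinearMap.range (Nm s)) := by
    have : LinearMap.range (Nm s) = (LinearMap.range (Nm t)).map (g₀ : V →ₗ[F] V) := by
      ext w
      constructor
      · rintro ⟨v, rfl⟩
        refine ⟨Nm t (g₀.symm v), ⟨_, rfl⟩, ?_⟩
        show g₀ (Nm t (g₀.symm v)) = _
        rw [← hNg, LinearEquiv.apply_symm_apply]
      · rintro ⟨_, ⟨v, rfl⟩, rfl⟩
        exact ⟨g₀ v, hNg v⟩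
    rw [this, LinearEquiv.finrank_map_eq]
  have htype : (∀ v, B v (t v) = 0) ↔ (∀ v, B v (s v) = 0) := by
    constructor
    · intro h w
      have h1 := h (g₀.symm w)
      rw [hB, ← hg₀, hconj, LinearEquiv.apply_symm_apply, ← hB] at h1
      exact h1
    · intro h v
      have h1 := h (g₀ v)
      rw [← hconj, hB, hg₀, ← hB] at h1
      exact h1
  obtain ⟨k, G, hG, hNt, hNs, -⟩ := exists_common_NF hS hsq ht hs hrank htype
  obtain ⟨D⟩ := exists_phi hG hNt hNs
  -- the value of `Q` on the image of `r - 1`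
  have hQN : ∀ (r : V →ₗ[F] V), (∀ v, Q (r v) = Q v) → ∀ u, Q (Nm r u) = B u (Nm r u) := by
    intro r hr u
    have e1 : Nm r u = r u + u := by
      rw [Nm_apply]
      have := hS.smul_two u
      rw [sub_eq_iff_eq_add, add_assoc, this, add_zero]
    rw [gam_self hS, e1, QuadraticMap.map_add (⇑Q), hr, hB, QuadraticMap.polar_comm]
    have h2 : Q u + Q u = 0 := by linear_combination Q u * htwo
    rw [h2, zero_add]
  have hφQ : ∀ x : D.X, Q (D.φ x : V) = Q (x : V) := by
    intro x
    obtain ⟨c, hc1, hc2⟩ := D.hrepr x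
    rw [hc1, hc2, Q_sum_orth Q _ c _ (fun i j => by rw [← hB]; exact Nm_iso hS hs _ _),
      Q_sum_orth Q _ c _ (fun i j => by rw [← hB]; exact Nm_iso hS ht _ _)]
    apply Finset.sum_congr rfl
    intro i _
    rw [hQN s hsQ, hQN t htQ, D.hu, D.hu']
  obtain ⟨g, hgQ, hg2⟩ := Cfsg.Agent.S0750.result Q hQ D.X D.Y D.φ hφQ
  refine ⟨g, hgQ, D.conj ht hs hG g ?_ hg2⟩
  intro a b
  rw [hB, hB]
  unfold QuadraticMap.polar
  rw [← map_add, hgQ, hgQ, hgQ]

end Cfsg.Agent.Lib.Helper15.InvolCls
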