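import Mathlib

set_option autoImplicit false

namespace Cfsg.Agent.Lib.Helper15

section InvolJ

variable {F : Type*} [Field F]

/-- The nilpotent matrix with ones in positions `(n - ℓ + j, j)`, `j < ℓ`. -/
def jN (F : Type*) [Field F] (n ℓ : ℕ) : Matrix (Fin n) (Fin n) F :=
  Matrix.of (fun i j : Fin n => if j.val < ℓ ∧ i.val = j.val + (n - ℓ) then (1 : F) else 0)

theorem jN_apply (n ℓ : ℕ) (i j : Fin n) :
    jN F n ℓ i j = if j.val < ℓ ∧ i.val = j.val + (n - ℓ) then (1 : F) else 0 := rfl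

theorem jN_mul_jN (n ℓ : ℕ) (h2 : 2 * ℓ ≤ n) : jN F n ℓ * jN F n ℓ = 0 := by
  ext i k
  rw [Matrix.mul_apply]
  apply Finset.sum_eq_zero
  intro j _
  rw [jN_apply, jN_apply]
  by_cases ha : j.val < ℓ ∧ i.val = j.val + (n - ℓ)
  · by_cases hb : k.val < ℓ ∧ j.val = k.val + (n - ℓ)
    · exfalso; omega
    · rw [if_neg hb, mul_zero]
  · rw [if_neg ha, zero_mul]

theorem det_one_add_jN (n ℓ : ℕ) (h1 : 1 ≤ ℓ) (h2 : 2 * ℓ ≤ n) : (1 + jN F n ℓ).det = 1 := by
  rw [Matrix.det_of_isLowerTriangular]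
  · apply Finset.prod_eq_one
    intro i _
    rw [Matrix.add_apply, Matrix.one_apply_eq, jN_apply, if_neg (by omega), add_zero]
  · intro i j hij
    have hij' : i < j := hij
    rw [Matrix.add_apply, Matrix.one_apply_ne (ne_of_lt hij'), jN_apply, zero_add,
      if_neg]
    intro h
    have : i.val < j.val := hij'
    omega

theorem jN_ne_zero (n ℓ : ℕ) (h1 : 1 ≤ ℓ) (h2 : 2 * ℓ ≤ n) : jN F n ℓ ≠ 0 := by
  intro h
  have h0 := congrFun (congrFun h ⟨n - ℓ, by omega⟩) ⟨0, by omega⟩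
  rw [jN_apply, if_pos ⟨(by show 0 < ℓ; omega), (by show n - ℓ = 0 + (n - ℓ); omega)⟩] at h0
  exact one_ne_zero h0

theorem one_add_jN_sq [CharP F 2] (n ℓ : ℕ) (h2 : 2 * ℓ ≤ n) :
    (1 + jN F n ℓ) * (1 + jN F n ℓ) = 1 := by
  have h : (1 + jN F n ℓ) * (1 + jN F n ℓ) = 1 + (2 : F) • jN F n ℓ + jN F n ℓ * jN F n ℓ := by
    rw [two_smul]; noncomm_ring
  rw [h, jN_mul_jN n ℓ h2, CharTwo.two_eq_zero, zero_smul, add_zero, add_zero]

theorem jN_mul_diag (n ℓ : ℕ) :
    jN F n ℓ * Matrix.diagonal (fun j : Fin n => if j.val < ℓ then (1 : F) else 0) = jN F n ℓ := by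
  ext i j
  rw [Matrix.mul_diagonal, jN_apply]
  by_cases h : j.val < ℓ
  · rw [if_pos h, mul_one]
  · rw [if_neg h, mul_zero, if_neg (fun hh => h hh.1)]

theorem jN_mul_transpose (n ℓ : ℕ) (h2 : 2 * ℓ ≤ n) :
    jN F n ℓ * (jN F n ℓ).transpose
      = Matrix.diagonal (fun i : Fin n => if n - ℓ ≤ i.val then (1 : F) else 0) := by
  ext i k
  rw [Matrix.mul_apply]
  simp only [Matrix.transpose_apply, jN_apply]
  by_cases hik : i = k
  · subst hik
    rw [Matrix.diagonal_apply_eq]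
    by_cases hi : n - ℓ ≤ i.val
    · rw [if_pos hi]
      rw [Finset.sum_eq_single (⟨i.val - (n - ℓ), by omega⟩ : Fin n)]
      · rw [if_pos ⟨by simp; omega, by simp; omega⟩, mul_one]
      · intro j _ hj
        have hne : ¬ (j.val < ℓ ∧ i.val = j.val + (n - ℓ)) := by
          rintro ⟨hj1, hj2⟩
          apply hj
          apply Fin.ext
          simp; omega
        rw [if_neg hne, mul_zero]
      · intro h; exact absurd (Finset.mem_univ _) h
    · rw [if_neg hi]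
      apply Finset.sum_eq_zero
      intro j _
      rw [if_neg (by omega), mul_zero]
  · rw [Matrix.diagonal_apply_ne _ hik]
    apply Finset.sum_eq_zero
    intro j _
    by_cases ha : j.val < ℓ ∧ i.val = j.val + (n - ℓ)
    · rw [if_pos ha, if_neg (show ¬ (j.val < ℓ ∧ k.val = j.val + (n - ℓ)) from
        fun hb => hik (Fin.ext (by omega))), mul_zero]
    · rw [if_neg ha, zero_mul]

theorem card_low (n ℓ : ℕ) (h1 : 1 ≤ ℓ) (h2 : 2 * ℓ ≤ n) [DecidableEq F] :
    Fintype.card {j : Fin n // (if j.val < ℓ then (1 : F) else 0) ≠ 0} = ℓ := by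
  have h : Fintype.card {j : Fin n // (if j.val < ℓ then (1 : F) else 0) ≠ 0}
      = (Finset.univ.filter (fun j : Fin n => j < (⟨ℓ, by omega⟩ : Fin n))).card := by
    rw [Fintype.card_subtype]
    congr 1
    ext j
    simp only [Finset.mem_filter, Finset.mem_univ, true_and, Fin.lt_def]
    by_cases hj : j.val < ℓ <;> simp [hj]
  rw [h]
  have : (Finset.univ.filter (fun j : Fin n => j < (⟨ℓ, by omega⟩ : Fin n)))
      = Finset.Iio (⟨ℓ, by omega⟩ : Fin n) := by
    ext j; simp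
  rw [this, Fin.card_Iio]

theorem card_high (n ℓ : ℕ) (h1 : 1 ≤ ℓ) (h2 : 2 * ℓ ≤ n) [DecidableEq F] :
    Fintype.card {j : Fin n // (if n - ℓ ≤ j.val then (1 : F) else 0) ≠ 0} = ℓ := by
  have h : Fintype.card {j : Fin n // (if n - ℓ ≤ j.val then (1 : F) else 0) ≠ 0}
      = (Finset.univ.filter (fun j : Fin n => (⟨n - ℓ, by omega⟩ : Fin n) ≤ j)).card := by
    rw [Fintype.card_subtype]
    congr 1
    ext j
    simp only [Finset.mem_filter, Finset.mem_univ, true_and, Fin.le_def]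
    by_cases hj : n - ℓ ≤ j.val <;> simp [hj]
  rw [h]
  have : (Finset.univ.filter (fun j : Fin n => (⟨n - ℓ, by omega⟩ : Fin n) ≤ j))
      = Finset.Ici (⟨n - ℓ, by omega⟩ : Fin n) := by
    ext j; simp
  rw [this, Fin.card_Ici]
  simp; omega

theorem rank_jN (n ℓ : ℕ) (h1 : 1 ≤ ℓ) (h2 : 2 * ℓ ≤ n) : (jN F n ℓ).rank = ℓ := by
  classical
  apply le_antisymm
  · have h := Matrix.rank_mul_le_right (jN F n ℓ)
      (Matrix.diagonal (fun j : Fin n => if j.val < ℓ then (1 : F) else 0))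
    rw [jN_mul_diag, Matrix.rank_diagonal, card_low n ℓ h1 h2] at h
    exact h
  · have h := Matrix.rank_mul_le_left (jN F n ℓ) (jN F n ℓ).transpose
    rw [jN_mul_transpose n ℓ h2, Matrix.rank_diagonal, card_high n ℓ h1 h2] at h
    exact h

/-- The involution `1 + jN` of `SL_n` in characteristic two. -/
theorem exists_involution_jN [CharP F 2] (n ℓ : ℕ) (h1 : 1 ≤ ℓ) (h2 : 2 * ℓ ≤ n) :
    ∃ a : Matrix.SpecialLinearGroup (Fin n) F,
      (a : Matrix (Fin n) (Fin n) F) = 1 + Matrix.of (fun i j : Fin n =>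
        if j.val < ℓ ∧ i.val = j.val + (n - ℓ) then (1 : F) else 0) ∧
      orderOf a = 2 ∧ ((a : Matrix (Fin n) (Fin n) F) - 1).rank = ℓ := by
  let a : Matrix.SpecialLinearGroup (Fin n) F := ⟨1 + jN F n ℓ, det_one_add_jN n ℓ h1 h2⟩
  have hsq : a * a = 1 := Subtype.ext (one_add_jN_sq n ℓ h2)
  refine ⟨a, rfl, ?_, ?_⟩
  · have : Fact (Nat.Prime 2) := ⟨Nat.prime_two⟩
    apply orderOf_eq_prime
    · rw [pow_two]; exact hsq
    · intro h
      have h' : (1 + jN F n ℓ : Matrix (Fin n) (Fin n) F) = 1 := congrArg Subtype.val h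
      apply jN_ne_zero (F := F) n ℓ h1 h2
      have : jN F n ℓ = (1 + jN F n ℓ) - 1 := by abel
      rw [this, h', sub_self]
  · show ((1 + jN F n ℓ : Matrix (Fin n) (Fin n) F) - 1).rank = ℓ
    rw [add_sub_cancel_left]
    exact rank_jN n ℓ h1 h2

end InvolJ

end Cfsg.Agent.Lib.Helper15
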