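import Mathlib
import Cfsg.Agent.Lib.Helper15.InvolJ
import Cfsg.Prelude.Def_Classical

set_option autoImplicit false

namespace Cfsg.Agent.Lib.Helper15

section InvolSU

variable {F : Type*} [Field F]

/-- The involution of `Fin n` exchanging `i` and `n - ℓ + i` for `i < ℓ`. -/
def swapTau (n ℓ : ℕ) (h2 : 2 * ℓ ≤ n) (i : Fin n) : Fin n :=
  if h : i.val < ℓ then ⟨i.val + (n - ℓ), by omega⟩
  else if h' : n - ℓ ≤ i.val then ⟨i.val - (n - ℓ), by omega⟩ else i

theorem swapTau_val (n ℓ : ℕ) (h2 : 2 * ℓ ≤ n) (i : Fin n) :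
    (swapTau n ℓ h2 i).val = if i.val < ℓ then i.val + (n - ℓ)
      else if n - ℓ ≤ i.val then i.val - (n - ℓ) else i.val := by
  unfold swapTau
  split_ifs <;> rfl

theorem swapTau_involutive (n ℓ : ℕ) (h2 : 2 * ℓ ≤ n) :
    Function.Involutive (swapTau n ℓ h2) := by
  intro i
  apply Fin.ext
  rw [swapTau_val, swapTau_val]
  split_ifs <;> omega

/-- The permutation matrix of `swapTau`, in the form of the statement. -/
def swapM (F : Type*) [Field F] (n ℓ : ℕ) : Matrix (Fin n) (Fin n) F :=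
  Matrix.of (fun i j : Fin n => if (j.val < ℓ ∧ i.val = j.val + (n - ℓ)) ∨
    (i.val < ℓ ∧ j.val = i.val + (n - ℓ)) ∨ (i = j ∧ ℓ ≤ i.val ∧ i.val < n - ℓ) then (1 : F) else 0)

theorem swapM_apply (n ℓ : ℕ) (h2 : 2 * ℓ ≤ n) (i j : Fin n) :
    swapM F n ℓ i j = if j = swapTau n ℓ h2 i then (1 : F) else 0 := by
  have hiff : ((j.val < ℓ ∧ i.val = j.val + (n - ℓ)) ∨
      (i.val < ℓ ∧ j.val = i.val + (n - ℓ)) ∨ (i = j ∧ ℓ ≤ i.val ∧ i.val < n - ℓ))
      ↔ j = swapTau n ℓ h2 i := by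
    rw [Fin.ext_iff (a := j), swapTau_val, Fin.ext_iff (a := i)]
    split_ifs <;> omega
  show (if _ then (1 : F) else 0) = _
  by_cases h : j = swapTau n ℓ h2 i
  · rw [if_pos h, if_pos (hiff.mpr h)]
  · rw [if_neg h, if_neg (fun hh => h (hiff.mp hh))]

theorem swapM_mulVec (n ℓ : ℕ) (h2 : 2 * ℓ ≤ n) (u : Fin n → F) (i : Fin n) :
    (swapM F n ℓ).mulVec u i = u (swapTau n ℓ h2 i) := by
  rw [Matrix.mulVec, dotProduct]
  simp only [swapM_apply n ℓ h2]
  simp

theorem swapM_mul_self (n ℓ : ℕ) (h2 : 2 * ℓ ≤ n) : swapM F n ℓ * swapM F n ℓ = 1 := by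
  ext i k
  rw [Matrix.mul_apply]
  simp only [swapM_apply n ℓ h2]
  rw [Finset.sum_eq_single (swapTau n ℓ h2 i)]
  · rw [if_pos rfl, one_mul, swapTau_involutive n ℓ h2 i, Matrix.one_apply]
    by_cases h : i = k
    · rw [if_pos h, if_pos h.symm]
    · rw [if_neg h, if_neg (fun hh => h hh.symm)]
  · intro j _ hj
    rw [if_neg hj, zero_mul]
  · intro h; exact absurd (Finset.mem_univ _) h

theorem det_swapM [CharP F 2] (n ℓ : ℕ) (h2 : 2 * ℓ ≤ n) : (swapM F n ℓ).det = 1 := by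
  have h := congrArg Matrix.det (swapM_mul_self (F := F) n ℓ h2)
  rw [Matrix.det_mul, Matrix.det_one] at h
  have h3 : ((swapM F n ℓ).det - 1) ^ 2 = 0 := by
    have h4 : (2 : F) = 0 := CharTwo.two_eq_zero
    linear_combination h - (swapM F n ℓ).det * h4 + h4
  have := pow_eq_zero_iff (two_ne_zero) |>.mp h3
  linear_combination this

theorem swapM_sub_one [CharP F 2] (n ℓ : ℕ) (h1 : 1 ≤ ℓ) (h2 : 2 * ℓ ≤ n) :
    swapM F n ℓ - 1 = (1 + jN F n ℓ)
      * Matrix.diagonal (fun j : Fin n => if j.val < ℓ then (1 : F) else 0)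
      * (1 + jN F n ℓ).transpose := by
  have hexp : (1 + jN F n ℓ)
      * Matrix.diagonal (fun j : Fin n => if j.val < ℓ then (1 : F) else 0)
      * (1 + jN F n ℓ).transpose
      = Matrix.diagonal (fun j : Fin n => if j.val < ℓ then (1 : F) else 0) + jN F n ℓ
        + (jN F n ℓ).transpose
        + Matrix.diagonal (fun i : Fin n => if n - ℓ ≤ i.val then (1 : F) else 0) := by
    have e1 := jN_mul_diag (F := F) n ℓ
    have e2 := jN_mul_transpose (F := F) n ℓ h2
    have e3 : Matrix.diagonal (fun j : Fin n => if j.val < ℓ then (1 : F) else 0)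
        * (jN F n ℓ).transpose = (jN F n ℓ).transpose := by
      have := congrArg Matrix.transpose e1
      rw [Matrix.transpose_mul, Matrix.diagonal_transpose] at this
      exact this
    calc (1 + jN F n ℓ)
          * Matrix.diagonal (fun j : Fin n => if j.val < ℓ then (1 : F) else 0)
          * (1 + jN F n ℓ).transpose
        = Matrix.diagonal (fun j : Fin n => if j.val < ℓ then (1 : F) else 0)
          + jN F n ℓ * Matrix.diagonal (fun j : Fin n => if j.val < ℓ then (1 : F) else 0)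
          + Matrix.diagonal (fun j : Fin n => if j.val < ℓ then (1 : F) else 0)
              * (jN F n ℓ).transpose
          + (jN F n ℓ * Matrix.diagonal (fun j : Fin n => if j.val < ℓ then (1 : F) else 0))
              * (jN F n ℓ).transpose := by
          rw [Matrix.transpose_add, Matrix.transpose_one]; noncomm_ring
      _ = _ := by rw [e1, e3, e2]
  rw [hexp]
  ext i k
  simp only [Matrix.sub_apply, Matrix.add_apply, Matrix.transpose_apply, jN_apply,
    Matrix.diagonal_apply, Matrix.one_apply]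
  show (if (k.val < ℓ ∧ i.val = k.val + (n - ℓ)) ∨
    (i.val < ℓ ∧ k.val = i.val + (n - ℓ)) ∨ (i = k ∧ ℓ ≤ i.val ∧ i.val < n - ℓ) then (1 : F) else 0)
    - _ = _
  have hm1 : (-1 : F) = 1 := CharTwo.neg_eq 1
  by_cases hik : i = k
  · subst hik
    have hA : ¬ (i.val < ℓ ∧ i.val = i.val + (n - ℓ)) := by omega
    rw [if_neg hA, if_pos rfl, if_pos rfl, if_pos rfl]
    by_cases ha : i.val < ℓ
    · have hB : ¬ ((i.val < ℓ ∧ i.val = i.val + (n - ℓ)) ∨
          (i.val < ℓ ∧ i.val = i.val + (n - ℓ)) ∨ (i = i ∧ ℓ ≤ i.val ∧ i.val < n - ℓ)) := by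
        rintro (h | h | h) <;> omega
      rw [if_neg hB, if_pos ha, if_neg (show ¬ n - ℓ ≤ i.val by omega)]
      linear_combination hm1
    · by_cases hb : n - ℓ ≤ i.val
      · have hB : ¬ ((i.val < ℓ ∧ i.val = i.val + (n - ℓ)) ∨
            (i.val < ℓ ∧ i.val = i.val + (n - ℓ)) ∨ (i = i ∧ ℓ ≤ i.val ∧ i.val < n - ℓ)) := by
          rintro (h | h | h) <;> omega
        rw [if_neg hB, if_neg ha, if_pos hb]
        linear_combination hm1
      · rw [if_pos (Or.inr (Or.inr ⟨rfl, by omega, by omega⟩)), if_neg ha, if_neg hb]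
        ring
  · rw [if_neg hik, if_neg hik, if_neg hik]
    by_cases ha : k.val < ℓ ∧ i.val = k.val + (n - ℓ)
    · rw [if_pos (Or.inl ha), if_pos ha,
        if_neg (show ¬ (i.val < ℓ ∧ k.val = i.val + (n - ℓ)) by omega)]
      ring
    · by_cases hb : i.val < ℓ ∧ k.val = i.val + (n - ℓ)
      · rw [if_pos (Or.inr (Or.inl hb)), if_neg ha, if_pos hb]
        ring
      · have hB : ¬ ((k.val < ℓ ∧ i.val = k.val + (n - ℓ)) ∨
            (i.val < ℓ ∧ k.val = i.val + (n - ℓ)) ∨ (i = k ∧ ℓ ≤ i.val ∧ i.val < n - ℓ)) := by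
          rintro (h | h | h)
          · exact ha h
          · exact hb h
          · exact hik h.1
        rw [if_neg hB, if_neg ha, if_neg hb]
        ring

theorem rank_swapM_sub_one [CharP F 2] (n ℓ : ℕ) (h1 : 1 ≤ ℓ) (h2 : 2 * ℓ ≤ n) :
    (swapM F n ℓ - 1).rank = ℓ := by
  classical
  rw [swapM_sub_one n ℓ h1 h2]
  have hd : IsUnit (1 + jN F n ℓ).det := by rw [det_one_add_jN n ℓ h1 h2]; exact isUnit_one
  have hd' : IsUnit (1 + jN F n ℓ).transpose.det := by rw [Matrix.det_transpose]; exact hd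
  rw [Matrix.rank_mul_eq_left_of_isUnit_det _ _ hd', Matrix.rank_mul_eq_right_of_isUnit_det _ _ hd,
    Matrix.rank_diagonal, card_low n ℓ h1 h2]

/-- The permutation involution in `SU_n(q)`, `q` even. -/
theorem exists_involution_SU [CharP F 2] (n q ℓ : ℕ) (h1 : 1 ≤ ℓ) (h2 : 2 * ℓ ≤ n) :
    ∃ a : ↥(Cfsg.SU n F q),
      (((a : Matrix.SpecialLinearGroup (Fin n) F) : Matrix (Fin n) (Fin n) F) = Matrix.of
        (fun i j : Fin n => if (j.val < ℓ ∧ i.val = j.val + (n - ℓ)) ∨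
          (i.val < ℓ ∧ j.val = i.val + (n - ℓ)) ∨ (i = j ∧ ℓ ≤ i.val ∧ i.val < n - ℓ)
          then (1 : F) else 0)) ∧
      orderOf a = 2 ∧
      ((((a : Matrix.SpecialLinearGroup (Fin n) F) : Matrix (Fin n) (Fin n) F)) - 1).rank = ℓ := by
  let a₀ : Matrix.SpecialLinearGroup (Fin n) F := ⟨swapM F n ℓ, det_swapM n ℓ h2⟩
  have hmem : a₀ ∈ Cfsg.SU n F q := by
    intro u v
    show Cfsg.hermForm n F q ((swapM F n ℓ).mulVec u) ((swapM F n ℓ).mulVec v)
      = Cfsg.hermForm n F q u v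
    unfold Cfsg.hermForm
    simp only [swapM_mulVec n ℓ h2]
    exact Fintype.sum_equiv (swapTau_involutive n ℓ h2).toPerm _ _ (fun i => rfl)
  have hsq0 : a₀ * a₀ = 1 := Subtype.ext (swapM_mul_self n ℓ h2)
  refine ⟨⟨a₀, hmem⟩, rfl, ?_, ?_⟩
  · have : Fact (Nat.Prime 2) := ⟨Nat.prime_two⟩
    apply orderOf_eq_prime
    · rw [pow_two]; exact Subtype.ext hsq0
    · intro h
      have h' : a₀ = 1 := congrArg Subtype.val h
      have h'' : swapM F n ℓ = 1 := congrArg Subtype.val h'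
      have h0 := congrFun (congrFun h'' ⟨0, by omega⟩) ⟨0, by omega⟩
      rw [swapM_apply n ℓ h2, Matrix.one_apply_eq, if_neg] at h0
      · exact zero_ne_one h0
      · intro hh
        have := congrArg Fin.val hh
        rw [swapTau_val] at this
        simp only at this
        split_ifs at this <;> omega
  · exact rank_swapM_sub_one n ℓ h1 h2

end InvolSU

end Cfsg.Agent.Lib.Helper15
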