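import Mathlib
import Cfsg.Prelude.Def_Classical
import Cfsg.Agent.Lib.Helper15.LawEmb

set_option autoImplicit false

namespace Cfsg.Agent.Lib.Helper15

open Matrix

section Unitary

variable {F : Type*} [Field F]

/-- The field automorphism `x ↦ x ^ q` of a field with `q ^ 2` elements. -/
theorem exists_frob [Fintype F] {q : ℕ} (hq : Fintype.card F = q ^ 2) :
    ∃ φ : F →+* F, (∀ x, φ x = x ^ q) ∧ (∀ x, φ (φ x) = x) := by
  obtain ⟨p, hp⟩ := CharP.exists F
  have hprime : p.Prime := CharP.char_is_prime F p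
  have hfact : Fact p.Prime := ⟨hprime⟩
  obtain ⟨k, -, hk⟩ := FiniteField.card F p
  have hdvd : q ∣ p ^ (k : ℕ) := by
    rw [← hk, hq]
    exact dvd_pow_self q two_ne_zero
  obtain ⟨j, -, hj⟩ := (Nat.dvd_prime_pow hprime).mp hdvd
  have hq0 : q ≠ 0 := by
    rw [hj]
    exact pow_ne_zero _ hprime.ne_zero
  refine ⟨{ toFun := fun x => x ^ q
            map_one' := one_pow q
            map_mul' := fun x y => mul_pow x y q
            map_zero' := zero_pow hq0
            map_add' := fun x y => by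
              rw [hj]
              exact add_pow_char_pow x y p j }, fun x => rfl, fun x => ?_⟩
  show (x ^ q) ^ q = x
  rw [← pow_mul, ← pow_two, ← hq, FiniteField.pow_card]

theorem herm_preserved {n q : ℕ} (φ : F →+* F) (hφ : ∀ x, φ x = x ^ q)
    (B : Matrix (Fin n) (Fin n) F) (hB : Bᵀ * B.map φ = 1) (u v : Fin n → F) :
    Cfsg.hermForm n F q (B *ᵥ u) (B *ᵥ v) = Cfsg.hermForm n F q u v := by
  have key : ∀ x y : Fin n → F, Cfsg.hermForm n F q x y = x ⬝ᵥ (φ ∘ y) := by
    intro x y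
    unfold Cfsg.hermForm
    simp [dotProduct, hφ]
  rw [key, key]
  have h1 : φ ∘ (B *ᵥ v) = (B.map φ) *ᵥ (φ ∘ v) := by
    funext i
    exact RingHom.map_mulVec φ B v i
  rw [h1, ← Matrix.vecMul_transpose, ← Matrix.dotProduct_mulVec, Matrix.mulVec_mulVec, hB,
    Matrix.one_mulVec]

theorem blockMat_unitary (r : ℕ) (φ : F →+* F) (M : Matrix (Fin 2) (Fin 2) F)
    (hM : Mᵀ * M.map φ = 1) :
    (blockMat F r M)ᵀ * (blockMat F r M).map φ = 1 := by
  have h1 : (blockMat F r M)ᵀ = blockMat F r Mᵀ := by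
    rw [blockMat_apply, blockMat_apply, Matrix.transpose_reindex, Matrix.fromBlocks_transpose]
    simp
  have h2 : (blockMat F r M).map φ = blockMat F r (M.map φ) := by
    rw [blockMat_apply, blockMat_apply, Matrix.reindex_apply, Matrix.reindex_apply,
      ← Matrix.submatrix_map, Matrix.fromBlocks_map]
    simp
  rw [h1, h2, ← map_mul, hM, map_one]

/-- The key matrix identity behind unitarity of the hyperbolic elements. -/
theorem hypM_transpose_mul {a b s : F} (ha : a ≠ 0) (hb : b ≠ 0) (hab : a ≠ b) (hs : s ≠ 0) :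
    (hypM a b s)ᵀ * hypM (-b⁻¹) (-a⁻¹) s⁻¹ = 1 := by
  have h1 : b - a ≠ 0 := sub_ne_zero.mpr hab.symm
  have h2 : a - b ≠ 0 := sub_ne_zero.mpr hab
  have h3 : -a⁻¹ - -b⁻¹ = (a - b) / (a * b) := by
    field_simp
    ring
  have h4 : -b⁻¹ - -a⁻¹ = (b - a) / (a * b) := by
    field_simp
    ring
  ext i j
  fin_cases i <;> fin_cases j <;>
    simp [hypM, projM, rk1, Matrix.mul_apply, Fin.sum_univ_two, h3, h4] <;> field_simp <;> ring

theorem hypM_map (φ : F →+* F) (a b s : F) :
    (hypM a b s).map φ = hypM (φ a) (φ b) (φ s) := by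
  ext i j
  fin_cases i <;> fin_cases j <;> simp [hypM, projM, rk1, map_inv₀]

theorem hypM_unitary (φ : F →+* F) (hφφ : ∀ x, φ (φ x) = x) {a s : F} (ha : a ≠ 0)
    (hab : a ≠ -(φ a)⁻¹) (hs : φ s = s⁻¹) (hs0 : s ≠ 0) :
    (hypM a (-(φ a)⁻¹) s)ᵀ * (hypM a (-(φ a)⁻¹) s).map φ = 1 := by
  have hφa : φ a ≠ 0 := (map_ne_zero φ).mpr ha
  have hb : -(φ a)⁻¹ ≠ 0 := neg_ne_zero.mpr (inv_ne_zero hφa)
  rw [hypM_map]
  have e1 : φ a = -(-(φ a)⁻¹)⁻¹ := by
    rw [inv_neg, inv_inv, neg_neg]
  have e2 : φ (-(φ a)⁻¹) = -a⁻¹ := by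
    rw [map_neg, map_inv₀, hφφ]
  rw [e2, hs]
  nth_rewrite 2 [e1]
  exact hypM_transpose_mul ha hb hab hs0

end Unitary

section UnitaryCount

variable {F : Type*} [Field F]

theorem card_norm_one [Fintype F] [DecidableEq F] {q : ℕ} (hq : Fintype.card F = q ^ 2)
    (hq2 : 2 ≤ q) :
    q + 1 ≤ (Finset.univ.filter (fun s : F => s ^ (q + 1) = 1)).card := by
  obtain ⟨k, rfl⟩ : ∃ k, q = k + 2 := ⟨q - 2, by omega⟩
  set S : Finset F := Finset.univ.filter (fun x : F => x ≠ 0) with hS
  have hScard : S.card = (k + 2) ^ 2 - 1 := by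
    rw [hS, Finset.filter_ne' Finset.univ (0 : F), Finset.card_erase_of_mem (Finset.mem_univ _),
      Finset.card_univ, hq]
  have himg : S.image (fun x => x ^ (k + 1))
      ⊆ Finset.univ.filter (fun s : F => s ^ (k + 2 + 1) = 1) := by
    intro y hy
    obtain ⟨x, hx, rfl⟩ := Finset.mem_image.mp hy
    have hx0 : x ≠ 0 := by simpa [hS] using hx
    simp only [Finset.mem_filter, Finset.mem_univ, true_and]
    rw [← pow_mul]
    have h1 : (k + 1) * (k + 2 + 1) = (k + 2) ^ 2 - 1 := by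
      have : (k + 2) ^ 2 = (k + 1) * (k + 2 + 1) + 1 := by ring
      omega
    rw [h1, ← hq]
    exact FiniteField.pow_card_sub_one_eq_one x hx0
  have hfib : ∀ y ∈ S.image (fun x => x ^ (k + 1)),
      (S.filter (fun x => x ^ (k + 1) = y)).card ≤ k + 1 := by
    intro y _
    calc (S.filter (fun x => x ^ (k + 1) = y)).card
        ≤ (Polynomial.nthRoots (k + 1) y).toFinset.card := by
          apply Finset.card_le_card
          intro x hx
          rw [Multiset.mem_toFinset, Polynomial.mem_nthRoots (by omega)]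
          exact (Finset.mem_filter.mp hx).2
      _ ≤ Multiset.card (Polynomial.nthRoots (k + 1) y) := Multiset.toFinset_card_le _
      _ ≤ k + 1 := Polynomial.card_nthRoots _ _
  have h1 := Finset.card_le_mul_card_image S (k + 1) hfib
  have h2 := Finset.card_le_card himg
  by_contra hcon
  have h3 : (Finset.univ.filter (fun s : F => s ^ (k + 2 + 1) = 1)).card ≤ k + 2 := by omega
  have h4 : (k + 1) * (S.image (fun x => x ^ (k + 1))).card ≤ (k + 1) * (k + 2) :=
    Nat.mul_le_mul_left _ (h2.trans h3)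
  rw [hScard] at h1
  have h5 : (k + 2) ^ 2 = (k + 1) * (k + 2) + (k + 2) := by ring
  omega

/-- Greedy choice of slopes avoiding each other's images. -/
theorem exists_slopes {α : Type*} [DecidableEq α] [Inhabited α] (X : Finset α) (β : α → α)
    (hβ : Set.InjOn β X) :
    ∀ k : ℕ, 3 * k ≤ X.card → ∃ a : ℕ → α, (∀ i < k, a i ∈ X) ∧
      (∀ i < k, ∀ j < k, i ≠ j → a i ≠ a j ∧ a i ≠ β (a j)) := by
  intro k
  induction k with
  | zero =>
    intro _
    exact ⟨fun _ => default, fun i hi => absurd hi (Nat.not_lt_zero i),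
      fun i hi => absurd hi (Nat.not_lt_zero i)⟩
  | succ k ih =>
    intro hk
    obtain ⟨a, ha1, ha2⟩ := ih (by omega)
    obtain ⟨A, hA⟩ : ∃ A, A = (Finset.range k).image a := ⟨_, rfl⟩
    have hAcard : A.card ≤ k := by
      rw [hA]
      exact Finset.card_image_le.trans (by simp)
    obtain ⟨B, hB⟩ : ∃ B, B = A ∪ A.image β ∪ X.filter (fun x => β x ∈ A) := ⟨_, rfl⟩
    have hBcard : B.card ≤ 3 * k := by
      have h1 := Finset.card_union_le (A ∪ A.image β) (X.filter (fun x => β x ∈ A))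
      have h2 := Finset.card_union_le A (A.image β)
      have h3 : (A.image β).card ≤ k := Finset.card_image_le.trans hAcard
      have h4 : (X.filter (fun x => β x ∈ A)).card ≤ A.card := by
        apply Finset.card_le_card_of_injOn β
        · intro x hx
          exact (Finset.mem_filter.mp hx).2
        · intro x hx y hy hxy
          exact hβ (Finset.mem_filter.mp hx).1 (Finset.mem_filter.mp hy).1 hxy
      rw [hB]
      omega
    obtain ⟨x, hxX, hxB⟩ := Finset.exists_mem_notMem_of_card_lt_card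
      (show B.card < X.card by omega)
    have hx1 : ∀ j < k, x ≠ a j := by
      intro j hj h
      apply hxB
      rw [hB, h]
      apply Finset.mem_union_left
      apply Finset.mem_union_left
      rw [hA]
      exact Finset.mem_image_of_mem a (Finset.mem_range.mpr hj)
    have hx2 : ∀ j < k, x ≠ β (a j) := by
      intro j hj h
      apply hxB
      rw [hB, h]
      apply Finset.mem_union_left
      apply Finset.mem_union_right
      apply Finset.mem_image_of_mem
      rw [hA]
      exact Finset.mem_image_of_mem a (Finset.mem_range.mpr hj)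
    have hx3 : ∀ j < k, a j ≠ β x := by
      intro j hj h
      apply hxB
      rw [hB]
      apply Finset.mem_union_right
      rw [Finset.mem_filter]
      refine ⟨hxX, ?_⟩
      rw [← h, hA]
      exact Finset.mem_image_of_mem a (Finset.mem_range.mpr hj)
    refine ⟨Function.update a k x, ?_, ?_⟩
    · intro i hi
      by_cases hik : i = k
      · subst hik
        rw [Function.update_self]
        exact hxX
      · rw [Function.update_of_ne hik]
        exact ha1 i (by omega)
    · intro i hi j hj hij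
      by_cases hik : i = k
      · subst hik
        have hjk : j ≠ i := fun h => hij h.symm
        rw [Function.update_self, Function.update_of_ne hjk]
        exact ⟨hx1 j (by omega), hx2 j (by omega)⟩
      · by_cases hjk : j = k
        · subst hjk
          rw [Function.update_self, Function.update_of_ne hik]
          exact ⟨fun h => hx1 i (by omega) h.symm, hx3 i (by omega)⟩
        · rw [Function.update_of_ne hik, Function.update_of_ne hjk]
          exact ha2 i (by omega) j (by omega) hij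

end UnitaryCount

section UnitaryLaw

variable {F : Type*} [Field F]

theorem hypSL_neg (sl : ℕ → F) (s : F) (hs : s ≠ 0) (i : ℕ)
    (h : ¬ sl (2 * i) ≠ sl (2 * i + 1)) : hypSL sl s hs i = 1 := by
  unfold hypSL
  exact dif_neg h

theorem blockSL_mem_SU {q : ℕ} (r : ℕ) (φ : F →+* F) (hφ : ∀ x, φ x = x ^ q)
    (A : Matrix.SpecialLinearGroup (Fin 2) F)
    (hA : (A : Matrix (Fin 2) (Fin 2) F)ᵀ * (A : Matrix (Fin 2) (Fin 2) F).map φ = 1) :
    blockSL F r A ∈ Cfsg.SU (2 + r) F q := by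
  show ∀ u v, Cfsg.hermForm (2 + r) F q ((Cfsg.slToMat (2 + r) F) (blockSL F r A) *ᵥ u)
    ((Cfsg.slToMat (2 + r) F) (blockSL F r A) *ᵥ v) = Cfsg.hermForm (2 + r) F q u v
  intro u v
  have h1 : (Cfsg.slToMat (2 + r) F) (blockSL F r A)
      = blockMat F r (A : Matrix (Fin 2) (Fin 2) F) := rfl
  rw [h1]
  exact herm_preserved φ hφ _ (blockMat_unitary r φ _ hA) u v

theorem not_claw_SU.{u} (w : FreeGroup ℕ) (hw : w ≠ 1) :
    ∃ N : ℕ, ∀ (F : Type u) [Field F] [Fintype F] (q r : ℕ), Fintype.card F = q ^ 2 → N ≤ q →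
      ¬ CLaw w (Cfsg.SU (2 + r) F q) := by
  classical
  obtain ⟨K, D, hKD⟩ := word_core.{u} w hw
  refine ⟨3 * K + 2 * D + 5, ?_⟩
  intro F _ _ q r hq hN hcl
  have : Inhabited F := ⟨0⟩
  obtain ⟨φ, hφ, hφφ⟩ := exists_frob hq
  obtain ⟨β, hβ⟩ : ∃ β : F → F, β = fun a => -(φ a)⁻¹ := ⟨_, rfl⟩
  have hβa : ∀ a, β a = -(φ a)⁻¹ := fun a => by rw [hβ]
  have hβinj : Function.Injective β := by
    intro a b h
    rw [hβa, hβa] at h
    exact φ.injective (inv_injective (neg_injective h))
  obtain ⟨X, hX⟩ : ∃ X : Finset F, X = Finset.univ.filter (fun a : F => a ≠ 0 ∧ a ≠ β a) :=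
    ⟨_, rfl⟩
  have hq2 : 2 * q ≤ q ^ 2 := by nlinarith
  have hXcard : 3 * K ≤ X.card := by
    have hcompl : Finset.univ \ X
        ⊆ insert 0 (Polynomial.nthRoots (q + 1) (-1 : F)).toFinset := by
      intro a ha
      rw [Finset.mem_sdiff] at ha
      by_cases ha0 : a = 0
      · rw [ha0]; exact Finset.mem_insert_self _ _
      · apply Finset.mem_insert_of_mem
        rw [Multiset.mem_toFinset, Polynomial.mem_nthRoots (by omega)]
        have h1 : a = β a := by
          by_contra h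
          exact ha.2 (by rw [hX]; exact Finset.mem_filter.mpr ⟨Finset.mem_univ _, ha0, h⟩)
        have h2 : a ^ q ≠ 0 := pow_ne_zero _ ha0
        rw [hβa, hφ] at h1
        calc a ^ (q + 1) = a ^ q * a := pow_succ _ _
          _ = a ^ q * (-(a ^ q)⁻¹) := by rw [← h1]
          _ = -1 := by rw [mul_neg, mul_inv_cancel₀ h2]
    have h1 := Finset.card_le_card hcompl
    have h2 : (insert 0 (Polynomial.nthRoots (q + 1) (-1 : F)).toFinset).card ≤ q + 2 := by
      have h3 := Finset.card_insert_le (0 : F) (Polynomial.nthRoots (q + 1) (-1 : F)).toFinset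
      have h4 := Multiset.toFinset_card_le (Polynomial.nthRoots (q + 1) (-1 : F))
      have h5 := Polynomial.card_nthRoots (q + 1) (-1 : F)
      omega
    have h3 := Finset.card_sdiff_add_card_eq_card (Finset.subset_univ X)
    rw [Finset.card_univ, hq] at h3
    omega
  obtain ⟨a, ha1, ha2⟩ := exists_slopes X β hβinj.injOn K hXcard
  have haX : ∀ i < K, a i ≠ 0 ∧ a i ≠ β (a i) := by
    intro i hi
    have := ha1 i hi
    rw [hX] at this
    exact (Finset.mem_filter.mp this).2
  obtain ⟨sl, hsl⟩ : ∃ sl : ℕ → F, sl = fun j =>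
      if j < 2 * K then (if j % 2 = 0 then a (j / 2) else β (a (j / 2))) else 0 := ⟨_, rfl⟩
  have hsl0 : ∀ i < K, sl (2 * i) = a i := by
    intro i hi
    rw [hsl]
    show (if 2 * i < 2 * K then (if (2 * i) % 2 = 0 then a (2 * i / 2) else β (a (2 * i / 2)))
      else 0) = a i
    rw [if_pos (show 2 * i < 2 * K by omega), if_pos (show (2 * i) % 2 = 0 by omega),
      show 2 * i / 2 = i by omega]
  have hsl1 : ∀ i < K, sl (2 * i + 1) = β (a i) := by
    intro i hi
    rw [hsl]
    show (if 2 * i + 1 < 2 * K then (if (2 * i + 1) % 2 = 0 then a ((2 * i + 1) / 2)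
      else β (a ((2 * i + 1) / 2))) else 0) = β (a i)
    rw [if_pos (show 2 * i + 1 < 2 * K by omega), if_neg (show ¬ (2 * i + 1) % 2 = 0 by omega),
      show (2 * i + 1) / 2 = i by omega]
  have hsl2 : ∀ i, K ≤ i → sl (2 * i) = sl (2 * i + 1) := by
    intro i hi
    rw [hsl]
    show (if 2 * i < 2 * K then (if (2 * i) % 2 = 0 then a (2 * i / 2) else β (a (2 * i / 2)))
      else 0) = (if 2 * i + 1 < 2 * K then (if (2 * i + 1) % 2 = 0 then a ((2 * i + 1) / 2)
      else β (a ((2 * i + 1) / 2))) else 0)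
    rw [if_neg (show ¬ 2 * i < 2 * K by omega), if_neg (show ¬ 2 * i + 1 < 2 * K by omega)]
  have hslinj : ∀ j j', j < 2 * K → j' < 2 * K → sl j = sl j' → j = j' := by
    intro j j' hj hj' h
    obtain ⟨i, hi⟩ : ∃ i, j = 2 * i ∨ j = 2 * i + 1 := ⟨j / 2, by omega⟩
    obtain ⟨i', hi'⟩ : ∃ i', j' = 2 * i' ∨ j' = 2 * i' + 1 := ⟨j' / 2, by omega⟩
    have hiK : i < K := by omega
    have hiK' : i' < K := by omega
    rcases hi with rfl | rfl <;> rcases hi' with rfl | rfl
    · rw [hsl0 i hiK, hsl0 i' hiK'] at h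
      by_contra hne
      exact (ha2 i hiK i' hiK' (by omega)).1 h
    · rw [hsl0 i hiK, hsl1 i' hiK'] at h
      by_cases hii : i = i'
      · subst hii
        exact absurd h (haX i hiK).2
      · exact absurd h (ha2 i hiK i' hiK' hii).2
    · rw [hsl1 i hiK, hsl0 i' hiK'] at h
      by_cases hii : i = i'
      · subst hii
        exact absurd h.symm (haX i hiK).2
      · exact absurd h.symm (ha2 i' hiK' i hiK (fun e => hii e.symm)).2
    · rw [hsl1 i hiK, hsl1 i' hiK'] at h
      have h' := hβinj h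
      by_contra hne
      exact (ha2 i hiK i' hiK' (by omega)).1 h'
  obtain ⟨T, hT⟩ : ∃ T : Finset F, T = Finset.univ.filter (fun s : F => s ^ (q + 1) = 1) :=
    ⟨_, rfl⟩
  have hTcard : q + 1 ≤ T.card := by
    rw [hT]
    exact card_norm_one hq (by omega)
  have hTmem : ∀ s, s ∈ T → s ^ (q + 1) = 1 := by
    intro s hs
    rw [hT] at hs
    exact (Finset.mem_filter.mp hs).2
  have h0T : (0 : F) ∉ T := by
    intro h
    have := hTmem 0 h
    rw [zero_pow (by omega)] at this
    exact zero_ne_one this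
  have hTφ : ∀ s, s ∈ T → φ s = s⁻¹ := by
    intro s hs
    rw [hφ]
    apply eq_inv_of_mul_eq_one_left
    rw [← pow_succ]
    exact hTmem s hs
  obtain ⟨s, hs0, hsT, hW⟩ := hKD F sl hslinj T (by omega) h0T
  have hU : ∀ i, ((hypSL sl s hs0 i : Matrix.SpecialLinearGroup (Fin 2) F) :
      Matrix (Fin 2) (Fin 2) F)ᵀ * ((hypSL sl s hs0 i : Matrix.SpecialLinearGroup (Fin 2) F) :
      Matrix (Fin 2) (Fin 2) F).map φ = 1 := by
    intro i
    by_cases hi : i < K
    · have hne : sl (2 * i) ≠ sl (2 * i + 1) := by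
        rw [hsl0 i hi, hsl1 i hi]
        exact (haX i hi).2
      rw [hypSL_pos sl s hs0 i hne]
      show (hypM (sl (2 * i)) (sl (2 * i + 1)) s)ᵀ * (hypM (sl (2 * i)) (sl (2 * i + 1)) s).map φ
        = 1
      rw [hsl0 i hi, hsl1 i hi, hβa]
      exact hypM_unitary φ hφφ (haX i hi).1 (by rw [← hβa]; exact (haX i hi).2) (hTφ s hsT) hs0
    · rw [hypSL_neg sl s hs0 i (by rw [not_not]; exact hsl2 i (by omega))]
      simp
  -- a diagonal unitary element
  obtain ⟨t, htT, ht2⟩ : ∃ t ∈ T, t ∉ (Polynomial.nthRoots 2 (1 : F)).toFinset := by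
    apply Finset.exists_mem_notMem_of_card_lt_card
    have h4 := Multiset.toFinset_card_le (Polynomial.nthRoots 2 (1 : F))
    have h5 := Polynomial.card_nthRoots 2 (1 : F)
    omega
  have ht0 : t ≠ 0 := fun h => h0T (h ▸ htT)
  have ht2' : t ^ 2 ≠ 1 := by
    intro h
    apply ht2
    rw [Multiset.mem_toFinset, Polynomial.mem_nthRoots (by omega)]
    exact h
  let Dt : Matrix.SpecialLinearGroup (Fin 2) F :=
    ⟨!![t, 0; 0, t⁻¹], by rw [Matrix.det_fin_two_of]; field_simp; ring⟩
  have hDt : ((Dt : Matrix.SpecialLinearGroup (Fin 2) F) : Matrix (Fin 2) (Fin 2) F)ᵀ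
      * ((Dt : Matrix.SpecialLinearGroup (Fin 2) F) : Matrix (Fin 2) (Fin 2) F).map φ = 1 := by
    show (!![t, 0; 0, t⁻¹] : Matrix (Fin 2) (Fin 2) F)ᵀ
      * (!![t, 0; 0, t⁻¹] : Matrix (Fin 2) (Fin 2) F).map φ = 1
    have e1 : φ t = t⁻¹ := hTφ t htT
    ext i j
    fin_cases i <;> fin_cases j <;>
      simp [Matrix.mul_apply, Fin.sum_univ_two, e1, map_inv₀, ht0]
  let f : ℕ → Cfsg.SU (2 + r) F q := fun i =>
    ⟨blockSL F r (hypSL sl s hs0 i), blockSL_mem_SU r φ hφ _ (hU i)⟩
  let z : Cfsg.SU (2 + r) F q := ⟨blockSL F r Dt, blockSL_mem_SU r φ hφ _ hDt⟩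
  have hcomm := Subgroup.mem_center_iff.mp (hcl f) z
  have hW1 : ((FreeGroup.lift f w : Cfsg.SU (2 + r) F q) :
      Matrix.SpecialLinearGroup (Fin (2 + r)) F)
      = blockSL F r (FreeGroup.lift (hypSL sl s hs0) w) := by
    have e1 := lift_comp_hom (Cfsg.SU (2 + r) F q).subtype f w
    have e2 := lift_comp_hom (blockSL F r) (hypSL sl s hs0) w
    rw [← e2]
    exact e1.symm
  have hcomm2 : blockSL F r Dt * blockSL F r (FreeGroup.lift (hypSL sl s hs0) w)
      = blockSL F r (FreeGroup.lift (hypSL sl s hs0) w) * blockSL F r Dt := by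
    rw [← hW1]
    exact congrArg Subtype.val hcomm
  rw [← map_mul, ← map_mul] at hcomm2
  have hcomm3 := blockSL_injective r hcomm2
  have hcomm4 : ((Dt * FreeGroup.lift (hypSL sl s hs0) w : Matrix.SpecialLinearGroup (Fin 2) F) :
      Matrix (Fin 2) (Fin 2) F) 0 1
      = ((FreeGroup.lift (hypSL sl s hs0) w * Dt : Matrix.SpecialLinearGroup (Fin 2) F) :
      Matrix (Fin 2) (Fin 2) F) 0 1 := by rw [hcomm3]
  rw [Matrix.SpecialLinearGroup.coe_mul, Matrix.SpecialLinearGroup.coe_mul, Matrix.mul_apply,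
    Matrix.mul_apply, Fin.sum_univ_two, Fin.sum_univ_two] at hcomm4
  have e00 : (Dt : Matrix (Fin 2) (Fin 2) F) 0 0 = t := rfl
  have e01 : (Dt : Matrix (Fin 2) (Fin 2) F) 0 1 = 0 := rfl
  have e11 : (Dt : Matrix (Fin 2) (Fin 2) F) 1 1 = t⁻¹ := rfl
  rw [e00, e01, e11, zero_mul, mul_zero, add_zero, zero_add] at hcomm4
  apply ht2'
  have h6 : t = t⁻¹ := by
    have h7 : (FreeGroup.lift (hypSL sl s hs0) w : Matrix (Fin 2) (Fin 2) F) 0 1 * (t - t⁻¹)
        = 0 := by
      rw [mul_sub, ← hcomm4, mul_comm, sub_self]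
    rcases mul_eq_zero.mp h7 with h8 | h8
    · exact absurd h8 hW
    · exact sub_eq_zero.mp h8
  calc t ^ 2 = t * t := pow_two t
    _ = t * t⁻¹ := by rw [← h6]
    _ = 1 := mul_inv_cancel₀ ht0

end UnitaryLaw

end Cfsg.Agent.Lib.Helper15
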