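import Mathlib
import Cfsg.Prelude.Def_Classical
import Cfsg.Agent.Lib.Helper15.LawUnitary

set_option autoImplicit false

namespace Cfsg.Agent.Lib.Helper15

open Matrix

section Bounds

theorem claw_of_law (w : FreeGroup ℕ) {G : Type*} [Group G]
    (h : ∀ f : ℕ → G, FreeGroup.lift f w = 1) : CLaw w G := by
  intro f
  rw [h f]
  exact one_mem _

/-- Cardinality bound for a type embedded in square matrices over a finite field. -/
theorem card_le_of_inj_mat {S : Type*} {ι : Type*} [Fintype ι] [DecidableEq ι] {F : Type*}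
    [Field F] [Fintype F] (g : S → Matrix ι ι F) (hg : Function.Injective g) {Q M : ℕ}
    (hQ : Fintype.card F ≤ Q) (hM : Fintype.card ι ≤ M) : Nat.card S ≤ Q ^ (M * M) := by
  classical
  have h1 : Nat.card S ≤ Nat.card (Matrix ι ι F) := Nat.card_le_card_of_injective g hg
  have h2 : Nat.card (Matrix ι ι F) = Fintype.card F ^ (Fintype.card ι * Fintype.card ι) := by
    show Nat.card (ι → ι → F) = _
    rw [Nat.card_fun, Nat.card_fun, ← pow_mul, Nat.card_eq_fintype_card, Nat.card_eq_fintype_card]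
  rw [h2] at h1
  have hpos : 0 < Fintype.card F := Fintype.card_pos
  calc Nat.card S ≤ Fintype.card F ^ (Fintype.card ι * Fintype.card ι) := h1
    _ ≤ Fintype.card F ^ (M * M) := Nat.pow_le_pow_right hpos (Nat.mul_le_mul hM hM)
    _ ≤ Q ^ (M * M) := Nat.pow_le_pow_left hQ _

theorem card_bound {G S : Type*} [Group G] [Group S] {ι : Type*} [Fintype ι] [DecidableEq ι]
    {F : Type*} [Field F] [Fintype F] (e : G ≃* S ⧸ Subgroup.center S)
    (g : S → Matrix ι ι F) (hg : Function.Injective g) {Q M : ℕ}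
    (hQ : Fintype.card F ≤ Q) (hM : Fintype.card ι ≤ M) : Nat.card G ≤ Q ^ (M * M) := by
  have : Finite S := Finite.of_injective g hg
  calc Nat.card G = Nat.card (S ⧸ Subgroup.center S) := Nat.card_congr e.toEquiv
    _ ≤ Nat.card S := Nat.card_le_card_of_surjective _ QuotientGroup.mk_surjective
    _ ≤ Q ^ (M * M) := card_le_of_inj_mat g hg hQ hM

end Bounds

section Emb2

variable {F : Type*} [Field F]

/-- Even permutations as matrices of determinant one. -/
noncomputable def altSL (F : Type*) [Field F] (n : ℕ) :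
    alternatingGroup (Fin n) →* Matrix.SpecialLinearGroup (Fin n) F where
  toFun σ := ⟨((permGL F (Fin n) σ.1 : GL (Fin n) F) : Matrix (Fin n) (Fin n) F), by
    rw [permGL_val, Matrix.det_permutation, Equiv.Perm.sign_inv,
      Equiv.Perm.mem_alternatingGroup.mp σ.2]
    simp⟩
  map_one' := by
    apply Subtype.ext
    show ((permGL F (Fin n) (1 : Equiv.Perm (Fin n)) : GL (Fin n) F) : Matrix (Fin n) (Fin n) F)
      = 1
    rw [map_one]
    rfl
  map_mul' σ τ := by
    apply Subtype.ext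
    show ((permGL F (Fin n) (σ.1 * τ.1) : GL (Fin n) F) : Matrix (Fin n) (Fin n) F)
      = ((permGL F (Fin n) σ.1 : GL (Fin n) F) : Matrix (Fin n) (Fin n) F)
        * ((permGL F (Fin n) τ.1 : GL (Fin n) F) : Matrix (Fin n) (Fin n) F)
    rw [map_mul]
    rfl

theorem altSL_val (n : ℕ) (σ : alternatingGroup (Fin n)) :
    ((altSL F n σ : Matrix.SpecialLinearGroup (Fin n) F) : Matrix (Fin n) (Fin n) F)
      = ((permGL F (Fin n) σ.1 : GL (Fin n) F) : Matrix (Fin n) (Fin n) F) := rfl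

theorem altSL_injective (n : ℕ) : Function.Injective (altSL F n) := by
  intro σ τ h
  apply Subtype.ext
  apply permGL_injective (F := F)
  apply Units.ext
  have := congrArg (fun A : Matrix.SpecialLinearGroup (Fin n) F =>
    (A : Matrix (Fin n) (Fin n) F)) h
  exact this

theorem altSL_mem_SU (n q : ℕ) (σ : alternatingGroup (Fin n)) :
    altSL F n σ ∈ Cfsg.SU n F q := by
  show ∀ u v, Cfsg.hermForm n F q ((Cfsg.slToMat n F) (altSL F n σ) *ᵥ u)
    ((Cfsg.slToMat n F) (altSL F n σ) *ᵥ v) = Cfsg.hermForm n F q u v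
  intro u v
  have h1 : (Cfsg.slToMat n F) (altSL F n σ)
      = ((permGL F (Fin n) σ.1 : GL (Fin n) F) : Matrix (Fin n) (Fin n) F) := rfl
  rw [h1, permGL_mulVec, permGL_mulVec]
  unfold Cfsg.hermForm
  exact Equiv.sum_comp (σ.1⁻¹ : Equiv.Perm (Fin n)) (fun i => u i * v i ^ q)

/-- Even permutations inside the special unitary group. -/
noncomputable def altSU (F : Type*) [Field F] (n q : ℕ) :
    alternatingGroup (Fin n) →* Cfsg.SU n F q :=
  (altSL F n).codRestrict _ (altSL_mem_SU n q)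

theorem altSU_injective (n q : ℕ) : Function.Injective (altSU F n q) := by
  intro σ τ h
  apply altSL_injective (F := F) n
  exact congrArg Subtype.val h

end Emb2

section ClawBounds

theorem claw_commGL_bound (w : FreeGroup ℕ) (hw : w ≠ 1) :
    ∃ M Q : ℕ, ∀ (F : Type) [Field F] [Fintype F] (m : ℕ), 2 ≤ m →
      CLaw w (commutator (GL (Fin m) F)) → m < M ∧ Fintype.card F < Q := by
  obtain ⟨NA, hNA⟩ := not_claw_alternating w hw
  obtain ⟨N2, hN2⟩ := not_claw_SL2.{0} w hw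
  refine ⟨max NA 5, max N2 3, ?_⟩
  intro F _ _ m hm hcl
  constructor
  · by_contra hlt
    rw [not_lt] at hlt
    have h5 : 5 ≤ m := le_trans (le_max_right _ _) hlt
    have hperf : commutator (alternatingGroup (Fin m)) = ⊤ :=
      commutator_alternatingGroup_eq_top (by
        rw [Nat.card_eq_fintype_card, Fintype.card_fin]; exact h5)
    apply hNA m (le_trans (le_max_left _ _) hlt)
    exact CLaw.of_injective
      (perfectMap hperf ((permGL F (Fin m)).comp (alternatingGroup (Fin m)).subtype))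
      (perfectMap_injective hperf _ (permGL_injective.comp Subtype.val_injective)) hcl
  · by_contra hlt
    rw [not_lt] at hlt
    have h3 : 3 ≤ Fintype.card F := le_trans (le_max_right _ _) hlt
    obtain ⟨r, rfl⟩ : ∃ r, m = 2 + r := ⟨m - 2, by omega⟩
    apply hN2 F (le_trans (le_max_left _ _) hlt)
    exact CLaw.of_injective ((commMap (blockGL F r)).comp (slComm F h3))
      ((commMap_injective _ (blockGL_injective r)).comp (slComm_injective h3)) hcl

theorem claw_SL_bound (w : FreeGroup ℕ) (hw : w ≠ 1) :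
    ∃ M Q : ℕ, ∀ (F : Type) [Field F] [Fintype F] (n : ℕ), 2 ≤ n →
      CLaw w (Matrix.SpecialLinearGroup (Fin n) F) → n < M ∧ Fintype.card F < Q := by
  obtain ⟨NA, hNA⟩ := not_claw_alternating w hw
  obtain ⟨N2, hN2⟩ := not_claw_SL2.{0} w hw
  refine ⟨NA, N2, ?_⟩
  intro F _ _ n hn hcl
  constructor
  · by_contra hlt
    rw [not_lt] at hlt
    apply hNA n hlt
    exact CLaw.of_injective (altSL F n) (altSL_injective n) hcl
  · by_contra hlt
    rw [not_lt] at hlt
    obtain ⟨r, rfl⟩ : ∃ r, n = 2 + r := ⟨n - 2, by omega⟩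
    apply hN2 F hlt
    exact CLaw.of_injective (blockSL F r) (blockSL_injective r) hcl

theorem claw_SU_bound (w : FreeGroup ℕ) (hw : w ≠ 1) :
    ∃ M Q : ℕ, ∀ (F : Type) [Field F] [Fintype F] (n q : ℕ), Fintype.card F = q ^ 2 → 2 ≤ n →
      CLaw w (Cfsg.SU n F q) → n < M ∧ q < Q := by
  obtain ⟨NA, hNA⟩ := not_claw_alternating w hw
  obtain ⟨NU, hNU⟩ := not_claw_SU.{0} w hw
  refine ⟨NA, NU, ?_⟩
  intro F _ _ n q hq hn hcl
  constructor
  · by_contra hlt
    rw [not_lt] at hlt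
    apply hNA n hlt
    exact CLaw.of_injective (altSU F n q) (altSU_injective n q) hcl
  · by_contra hlt
    rw [not_lt] at hlt
    obtain ⟨r, rfl⟩ : ∃ r, n = 2 + r := ⟨n - 2, by omega⟩
    exact hNU F q r hq hlt hcl

end ClawBounds

section Families

theorem law_bound_alternating (w : FreeGroup ℕ) (hw : w ≠ 1) :
    ∃ N : ℕ, ∀ (G : Type*) [Group G] [Finite G], Cfsg.IsAlternating G →
      (∀ f : ℕ → G, FreeGroup.lift f w = 1) → Nat.card G ≤ N := by
  obtain ⟨NA, hNA⟩ := not_claw_alternating w hw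
  refine ⟨NA.factorial, ?_⟩
  intro G _ _ hG hlaw
  obtain ⟨n, -, ⟨e⟩⟩ := hG
  have hcl : CLaw w (alternatingGroup (Fin n)) := claw_of_law w (law_of_mulEquiv w e hlaw)
  have hn : n < NA := by
    by_contra hlt
    rw [not_lt] at hlt
    exact hNA n hlt hcl
  calc Nat.card G = Nat.card (alternatingGroup (Fin n)) := Nat.card_congr e.toEquiv
    _ ≤ Nat.card (Equiv.Perm (Fin n)) :=
        Nat.card_le_card_of_injective Subtype.val Subtype.val_injective
    _ = n.factorial := by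
        rw [Nat.card_eq_fintype_card, Fintype.card_perm, Fintype.card_fin]
    _ ≤ NA.factorial := Nat.factorial_le hn.le

theorem law_bound_PSL (w : FreeGroup ℕ) (hw : w ≠ 1) :
    ∃ N : ℕ, ∀ (G : Type*) [Group G] [Finite G], Cfsg.IsPSL G →
      (∀ f : ℕ → G, FreeGroup.lift f w = 1) → Nat.card G ≤ N := by
  obtain ⟨M, Q, hMQ⟩ := claw_SL_bound w hw
  refine ⟨Q ^ (M * M), ?_⟩
  intro G _ _ hG hlaw
  obtain ⟨F, _, _, n, hn, -, ⟨e⟩⟩ := hG
  have hcl : CLaw w (Matrix.SpecialLinearGroup (Fin n) F) :=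
    claw_of_law_quotient w (law_of_mulEquiv w e hlaw)
  obtain ⟨h1, h2⟩ := hMQ F n hn hcl
  exact card_bound e
    (fun A : Matrix.SpecialLinearGroup (Fin n) F => (A : Matrix (Fin n) (Fin n) F))
    Subtype.val_injective h2.le (by rw [Fintype.card_fin]; exact h1.le)

theorem law_bound_PSp (w : FreeGroup ℕ) (hw : w ≠ 1) :
    ∃ N : ℕ, ∀ (G : Type*) [Group G] [Finite G], Cfsg.IsPSp G →
      (∀ f : ℕ → G, FreeGroup.lift f w = 1) → Nat.card G ≤ N := by
  obtain ⟨M, Q, hMQ⟩ := claw_commGL_bound w hw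
  refine ⟨Q ^ ((2 * M) * (2 * M)), ?_⟩
  intro G _ _ hG hlaw
  obtain ⟨F, _, _, m, hm, -, ⟨e⟩⟩ := hG
  have hcl : CLaw w (Matrix.symplecticGroup (Fin m) F) :=
    claw_of_law_quotient w (law_of_mulEquiv w e hlaw)
  have hcl2 : CLaw w (commutator (GL (Fin m) F)) :=
    CLaw.of_injective ((hypSp F m).comp (commutator (GL (Fin m) F)).subtype)
      ((hypSp_injective m).comp Subtype.val_injective) hcl
  obtain ⟨h1, h2⟩ := hMQ F m hm hcl2
  exact card_bound e
    (fun A : Matrix.symplecticGroup (Fin m) F =>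
      (A : Matrix (Fin m ⊕ Fin m) (Fin m ⊕ Fin m) F))
    Subtype.val_injective h2.le (by rw [Fintype.card_sum, Fintype.card_fin]; omega)

theorem law_bound_PSU (w : FreeGroup ℕ) (hw : w ≠ 1) :
    ∃ N : ℕ, ∀ (G : Type*) [Group G] [Finite G], Cfsg.IsPSU G →
      (∀ f : ℕ → G, FreeGroup.lift f w = 1) → Nat.card G ≤ N := by
  obtain ⟨M, Q, hMQ⟩ := claw_SU_bound w hw
  refine ⟨(Q ^ 2) ^ (M * M), ?_⟩
  intro G _ _ hG hlaw
  obtain ⟨F, _, _, n, q, hq, hn, -, ⟨e⟩⟩ := hG
  have hcl : CLaw w (Cfsg.SU n F q) :=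
    claw_of_law_quotient w (law_of_mulEquiv w e hlaw)
  obtain ⟨h1, h2⟩ := hMQ F n q hq (by omega) hcl
  exact card_bound e
    (fun A : Cfsg.SU n F q =>
      ((A : Matrix.SpecialLinearGroup (Fin n) F) : Matrix (Fin n) (Fin n) F))
    (Subtype.val_injective.comp Subtype.val_injective)
    (by rw [hq]; exact Nat.pow_le_pow_left h2.le 2) (by rw [Fintype.card_fin]; exact h1.le)

/-- The common part of the three orthogonal families. -/
theorem law_bound_Omega_aux (w : FreeGroup ℕ) (hw : w ≠ 1) :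
    ∃ M Q : ℕ, ∀ (G : Type*) [Group G] (F : Type) [Field F] [Fintype F] (m : ℕ)
      (ι : Type) [Fintype ι] [DecidableEq ι] (P : (ι → F) → F)
      (Θ : GL (Fin m) F →* Cfsg.isometryGroup F P), Function.Injective Θ → 2 ≤ m →
      Fintype.card ι ≤ 2 * m + 2 → Nonempty (G ≃* Cfsg.POmega F P) →
      (∀ f : ℕ → G, FreeGroup.lift f w = 1) → Nat.card G ≤ Q ^ ((2 * M + 2) * (2 * M + 2)) := by
  obtain ⟨M, Q, hMQ⟩ := claw_commGL_bound w hw
  refine ⟨M, Q, ?_⟩
  intro G _ F _ _ m ι _ _ P Θ hΘ hm hι ⟨e⟩ hlaw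
  have hcl : CLaw w (Cfsg.Omega F P) :=
    claw_of_law_quotient w (law_of_mulEquiv w e hlaw)
  have hcl2 : CLaw w (commutator (GL (Fin m) F)) :=
    CLaw.of_injective (commMap Θ) (commMap_injective Θ hΘ) hcl
  obtain ⟨h1, h2⟩ := hMQ F m hm hcl2
  exact card_bound e
    (fun A : Cfsg.Omega F P => (((A : Cfsg.isometryGroup F P) : GL ι F) : Matrix ι ι F))
    (Units.val_injective.comp (Subtype.val_injective.comp Subtype.val_injective))
    h2.le (by omega)

theorem law_bound_POmegaPlus (w : FreeGroup ℕ) (hw : w ≠ 1) :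
    ∃ N : ℕ, ∀ (G : Type*) [Group G] [Finite G], Cfsg.IsPOmegaPlus G →
      (∀ f : ℕ → G, FreeGroup.lift f w = 1) → Nat.card G ≤ N := by
  obtain ⟨M, Q, hMQ⟩ := law_bound_Omega_aux w hw
  refine ⟨Q ^ ((2 * M + 2) * (2 * M + 2)), ?_⟩
  intro G _ _ hG hlaw
  obtain ⟨F, _, _, m, hm, he⟩ := hG
  exact hMQ G F m (Fin m ⊕ Fin m) (Cfsg.quadFormPlus m F) (orthPlus F m) (orthPlus_injective m)
    (by omega) (by rw [Fintype.card_sum, Fintype.card_fin]; omega) he hlaw

theorem law_bound_POmegaOdd (w : FreeGroup ℕ) (hw : w ≠ 1) :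
    ∃ N : ℕ, ∀ (G : Type*) [Group G] [Finite G], Cfsg.IsPOmegaOdd G →
      (∀ f : ℕ → G, FreeGroup.lift f w = 1) → Nat.card G ≤ N := by
  obtain ⟨M, Q, hMQ⟩ := law_bound_Omega_aux w hw
  refine ⟨Q ^ ((2 * M + 2) * (2 * M + 2)), ?_⟩
  intro G _ _ hG hlaw
  obtain ⟨F, _, _, m, hm, -, he⟩ := hG
  have hQ : ∀ v : Unit ⊕ (Fin m ⊕ Fin m) → F, Cfsg.quadFormOdd m F v
      = (fun x : Unit → F => x () ^ 2) (v ∘ Sum.inl) + Cfsg.quadFormPlus m F (v ∘ Sum.inr) :=
    fun v => rfl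
  exact hMQ G F m (Unit ⊕ (Fin m ⊕ Fin m)) (Cfsg.quadFormOdd m F)
    ((isoExtR (Cfsg.quadFormPlus m F) (Cfsg.quadFormOdd m F) (fun x : Unit → F => x () ^ 2)
      hQ).comp (orthPlus F m))
    ((isoExtR_injective (Cfsg.quadFormPlus m F) (Cfsg.quadFormOdd m F)
      (fun x : Unit → F => x () ^ 2) hQ).comp (orthPlus_injective m))
    (by omega) (by simp [Fintype.card_sum]; omega) he hlaw

theorem law_bound_POmegaMinus (w : FreeGroup ℕ) (hw : w ≠ 1) :
    ∃ N : ℕ, ∀ (G : Type*) [Group G] [Finite G], Cfsg.IsPOmegaMinus G →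
      (∀ f : ℕ → G, FreeGroup.lift f w = 1) → Nat.card G ≤ N := by
  obtain ⟨M, Q, hMQ⟩ := law_bound_Omega_aux w hw
  refine ⟨Q ^ ((2 * M + 2) * (2 * M + 2)), ?_⟩
  intro G _ _ hG hlaw
  obtain ⟨F, _, _, m, a, b, hm, -, he⟩ := hG
  have hQ : ∀ v : (Fin (m - 1) ⊕ Fin (m - 1)) ⊕ Fin 2 → F, Cfsg.quadFormMinus (m - 1) F a b v
      = Cfsg.quadFormPlus (m - 1) F (v ∘ Sum.inl)
        + (fun z : Fin 2 → F => z 0 ^ 2 + a * z 0 * z 1 + b * z 1 ^ 2) (v ∘ Sum.inr) :=
    fun v => rfl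
  exact hMQ G F (m - 1) ((Fin (m - 1) ⊕ Fin (m - 1)) ⊕ Fin 2) (Cfsg.quadFormMinus (m - 1) F a b)
    ((isoExtL (Cfsg.quadFormPlus (m - 1) F) (Cfsg.quadFormMinus (m - 1) F a b)
      (fun z : Fin 2 → F => z 0 ^ 2 + a * z 0 * z 1 + b * z 1 ^ 2) hQ).comp
      (orthPlus F (m - 1)))
    ((isoExtL_injective (Cfsg.quadFormPlus (m - 1) F) (Cfsg.quadFormMinus (m - 1) F a b)
      (fun z : Fin 2 → F => z 0 ^ 2 + a * z 0 * z 1 + b * z 1 ^ 2) hQ).comp
      (orthPlus_injective (m - 1)))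
    (by omega) (by simp [Fintype.card_sum]; omega) he hlaw

/-- A non-trivial law holds in only finitely many alternating or classical simple groups. -/
theorem law_bound_classical (w : FreeGroup ℕ) (hw : w ≠ 1) :
    ∃ N : ℕ, ∀ (G : Type*) [Group G] [Finite G],
      (Cfsg.IsAlternating G ∨ Cfsg.IsPSL G ∨ Cfsg.IsPSp G ∨ Cfsg.IsPSU G ∨ Cfsg.IsPOmegaOdd G ∨
          Cfsg.IsPOmegaPlus G ∨ Cfsg.IsPOmegaMinus G) →
      (∀ f : ℕ → G, FreeGroup.lift f w = 1) → Nat.card G ≤ N := by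
  obtain ⟨N1, h1⟩ := law_bound_alternating w hw
  obtain ⟨N2, h2⟩ := law_bound_PSL w hw
  obtain ⟨N3, h3⟩ := law_bound_PSp w hw
  obtain ⟨N4, h4⟩ := law_bound_PSU w hw
  obtain ⟨N5, h5⟩ := law_bound_POmegaOdd w hw
  obtain ⟨N6, h6⟩ := law_bound_POmegaPlus w hw
  obtain ⟨N7, h7⟩ := law_bound_POmegaMinus w hw
  refine ⟨N1 + N2 + N3 + N4 + N5 + N6 + N7, ?_⟩
  intro G _ _ hG hlaw
  rcases hG with h | h | h | h | h | h | h
  · exact le_trans (h1 G h hlaw) (by omega)
  · exact le_trans (h2 G h hlaw) (by omega)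
  · exact le_trans (h3 G h hlaw) (by omega)
  · exact le_trans (h4 G h hlaw) (by omega)
  · exact le_trans (h5 G h hlaw) (by omega)
  · exact le_trans (h6 G h hlaw) (by omega)
  · exact le_trans (h7 G h hlaw) (by omega)

end Families

end Cfsg.Agent.Lib.Helper15
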