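import Mathlib
import Cfsg.Agent.Lib.Helper15.FreeRF

set_option autoImplicit false

namespace Cfsg.Agent.Lib.Helper15

open Polynomial

section LawPoly

variable {F : Type*} [Field F] {ι : Type*} [Fintype ι] [DecidableEq ι]

/-- Degree bound and top coefficient of a product of polynomial matrices. -/
theorem list_prod_lead {α : Type*} (d : ℕ) (P : α → Matrix ι ι F[X]) (A : α → Matrix ι ι F)
    (L : List α)
    (hP : ∀ x ∈ L, ∀ i j, (P x i j).natDegree ≤ d ∧ (P x i j).coeff d = A x i j) :
    ∀ i j, (((L.map P).prod) i j).natDegree ≤ d * L.length ∧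
      (((L.map P).prod) i j).coeff (d * L.length) = ((L.map A).prod) i j := by
  induction L with
  | nil =>
    intro i j
    simp only [List.map_nil, List.prod_nil, List.length_nil, mul_zero, Matrix.one_apply]
    by_cases h : i = j <;> simp [h]
  | cons p L ih =>
    have ih' := ih (fun x hx => hP x (List.mem_cons_of_mem _ hx))
    have hp := hP p List.mem_cons_self
    intro i j
    have hlen : d * (p :: L).length = d + d * L.length := by
      rw [List.length_cons]; ring
    rw [hlen]
    simp only [List.map_cons, List.prod_cons, Matrix.mul_apply]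
    constructor
    · apply natDegree_sum_le_of_forall_le
      intro k _
      exact natDegree_mul_le_of_le (hp i k).1 (ih' k j).1
    · rw [finsetSum_coeff]
      apply Finset.sum_congr rfl
      intro k _
      rw [coeff_mul_add_eq_of_natDegree_le (hp i k).1 (ih' k j).1, (hp i k).2, (ih' k j).2]

theorem list_prod_map_eval {α : Type*} (P : α → Matrix ι ι F[X]) (L : List α) (s : F) :
    ((L.map P).prod).map (eval s) = (L.map (fun x => (P x).map (eval s))).prod := by
  have h := map_list_prod (evalRingHom s).mapMatrix (L.map P)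
  rw [List.map_map] at h
  exact h

theorem list_prod_smul_gen {α : Type*} (M : α → Matrix ι ι F) (L : List α) (c : F) :
    (L.map (fun x => c • M x)).prod = c ^ L.length • (L.map M).prod := by
  induction L with
  | nil => simp
  | cons p L ih =>
    simp only [List.map_cons, List.prod_cons, List.length_cons]
    rw [ih, Matrix.smul_mul, Matrix.mul_smul, smul_smul, pow_succ, mul_comm]

/-- A chain of rank one matrices with non-zero consecutive pairings has a non-zero product. -/
theorem list_prod_vecMulVec {α : Type*} (u φ : α → ι → F) : ∀ (L : List α) (x : α),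
    (x :: L).IsChain (fun x y => φ x ⬝ᵥ u y ≠ 0) →
    ∃ c : F, c ≠ 0 ∧ ∃ y ∈ x :: L,
      ((x :: L).map (fun z => Matrix.vecMulVec (u z) (φ z))).prod
        = c • Matrix.vecMulVec (u x) (φ y) := by
  intro L
  induction L with
  | nil =>
    intro x _
    exact ⟨1, one_ne_zero, x, List.mem_cons_self, by simp⟩
  | cons x' L ih =>
    intro x hch
    rw [List.isChain_cons_cons] at hch
    obtain ⟨c', hc', y, hy, hprod⟩ := ih x' hch.2
    refine ⟨c' * (φ x ⬝ᵥ u x'), mul_ne_zero hc' hch.1, y, List.mem_cons_of_mem _ hy, ?_⟩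
    rw [List.map_cons, List.prod_cons, hprod, Matrix.mul_smul, Matrix.vecMulVec_mul_vecMulVec,
      Matrix.vecMulVec_smul, smul_smul]

/-- The core of the leading coefficient argument. -/
theorem word_poly_core {α : Type*} (d d₀ : ℕ) (hd : d₀ < d) (P : α → Matrix ι ι F[X])
    (u φ : α → ι → F) (L : List α) (hL : L ≠ [])
    (hP : ∀ x ∈ L, ∀ i j, (P x i j).natDegree ≤ d ∧ (P x i j).coeff d = u x i * φ x j)
    (hchain : L.IsChain (fun x y => φ x ⬝ᵥ u y ≠ 0))
    (hu : ∀ x ∈ L, u x ≠ 0) (hφ : ∀ x ∈ L, φ x ≠ 0)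
    (T : Finset F) (hT : d * L.length < T.card) :
    ∃ s ∈ T, ((L.map P).prod).map (eval s) ≠ (s ^ (d₀ * L.length)) • (1 : Matrix ι ι F) := by
  classical
  obtain ⟨x, L', rfl⟩ := List.exists_cons_of_ne_nil hL
  obtain ⟨c, hc, y, hy, hprod⟩ := list_prod_vecMulVec u φ L' x hchain
  have hlead := list_prod_lead d P (fun z => Matrix.vecMulVec (u z) (φ z)) (x :: L')
    (fun z hz i j => by rw [Matrix.vecMulVec_apply]; exact hP z hz i j)
  obtain ⟨r, hr⟩ : ∃ r, u x r ≠ 0 := by
    by_contra h
    push Not at h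
    exact hu x List.mem_cons_self (funext h)
  obtain ⟨c', hc'⟩ : ∃ c', φ y c' ≠ 0 := by
    by_contra h
    push Not at h
    exact hφ y hy (funext h)
  obtain ⟨Q, hQ⟩ : ∃ Q, Q = ((x :: L').map P).prod := ⟨_, rfl⟩
  rw [← hQ] at hlead ⊢
  obtain ⟨n, hn⟩ : ∃ n, n = (x :: L').length := ⟨_, rfl⟩
  have hn0 : 0 < n := by rw [hn]; simp
  rw [← hn] at hlead hT ⊢
  obtain ⟨f, hf⟩ : ∃ f : F[X],
      f = Q r c' - C (if r = c' then (1 : F) else 0) * X ^ (d₀ * n) := ⟨_, rfl⟩
  have hlt : d₀ * n < d * n := Nat.mul_lt_mul_of_pos_right hd hn0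
  have hfdeg : f.natDegree ≤ d * n := by
    rw [hf]
    refine (natDegree_sub_le _ _).trans (max_le (hlead r c').1 ?_)
    exact (natDegree_C_mul_X_pow_le _ _).trans hlt.le
  have hfcoeff : f.coeff (d * n) ≠ 0 := by
    rw [hf, coeff_sub, (hlead r c').2, hprod, coeff_C_mul, coeff_X_pow,
      if_neg (show ¬ d * n = d₀ * n by omega), mul_zero, sub_zero, Matrix.smul_apply,
      Matrix.vecMulVec_apply, smul_eq_mul]
    exact mul_ne_zero hc (mul_ne_zero hr hc')
  have hf0 : f ≠ 0 := by
    intro h
    rw [h, coeff_zero] at hfcoeff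
    exact hfcoeff rfl
  have hroots : f.roots.toFinset.card < T.card := by
    have h2 := Multiset.toFinset_card_le f.roots
    have h3 := card_roots' f
    omega
  obtain ⟨s, hsT, hs⟩ := Finset.exists_mem_notMem_of_card_lt_card hroots
  refine ⟨s, hsT, fun heq => hs ?_⟩
  rw [Multiset.mem_toFinset, mem_roots hf0]
  show f.eval s = 0
  have h1 := congrFun (congrFun heq r) c'
  rw [Matrix.map_apply, Matrix.smul_apply, Matrix.one_apply, smul_eq_mul] at h1
  rw [hf, eval_sub, h1, eval_mul, eval_C, eval_pow, eval_X]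
  ring

/-- Group level wrapper: the word is non-trivial when the polynomial matrices do not evaluate
to the scalar matrix. -/
theorem word_ne_one_of_poly {G : Type*} [Group G] (ρ : G →* Matrix ι ι F) (f : ℕ → G) (s : F)
    (d₀ : ℕ) (P : ℕ × Bool → Matrix ι ι F[X]) (L : List (ℕ × Bool))
    (hρ : ∀ x ∈ L, s ^ d₀ • ρ (cond x.2 (f x.1) (f x.1)⁻¹) = (P x).map (eval s))
    (hne : ((L.map P).prod).map (eval s) ≠ (s ^ (d₀ * L.length)) • (1 : Matrix ι ι F)) :
    FreeGroup.lift f (FreeGroup.mk L) ≠ 1 := by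
  intro h
  apply hne
  rw [list_prod_map_eval]
  have h1 : L.map (fun x => (P x).map (eval s))
      = L.map (fun x => s ^ d₀ • ρ (cond x.2 (f x.1) (f x.1)⁻¹)) := by
    apply List.map_congr_left
    intro x hx
    exact (hρ x hx).symm
  rw [h1, list_prod_smul_gen (fun x => ρ (cond x.2 (f x.1) (f x.1)⁻¹)) L (s ^ d₀), ← pow_mul]
  congr 1
  have h2 := map_list_prod ρ (L.map (fun x => cond x.2 (f x.1) (f x.1)⁻¹))
  rw [List.map_map] at h2
  rw [FreeGroup.lift_mk] at h
  rw [h, map_one] at h2
  exact h2.symm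

end LawPoly

end Cfsg.Agent.Lib.Helper15
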