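import Mathlib
import Cfsg.Prelude.Def_Sz
import Cfsg.Agent.Lib.Helper15.LawPoly

set_option autoImplicit false

namespace Cfsg.Agent.Lib.Helper15

open Polynomial Matrix

section ConjPoly

variable {F : Type*} [Field F] {ι : Type*} [Fintype ι] [DecidableEq ι]

/-- The conjugate of a diagonal polynomial matrix by constant matrices. -/
noncomputable def conjPoly (A B : Matrix ι ι F) (D : ι → F[X]) : Matrix ι ι F[X] :=
  Matrix.of fun r c => ∑ k, C (A r k) * D k * C (B k c)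

omit [DecidableEq ι] in
theorem conjPoly_natDegree (A B : Matrix ι ι F) (D : ι → F[X]) (d : ℕ)
    (hD : ∀ k, (D k).natDegree ≤ d) (r c : ι) : (conjPoly A B D r c).natDegree ≤ d := by
  unfold conjPoly
  rw [Matrix.of_apply]
  apply natDegree_sum_le_of_forall_le
  intro k _
  exact (natDegree_mul_C_le _ _).trans ((natDegree_C_mul_le _ _).trans (hD k))

theorem conjPoly_coeff (A B : Matrix ι ι F) (D : ι → F[X]) (d : ℕ) (p : ι)
    (hD : ∀ k, (D k).coeff d = if k = p then 1 else 0) (r c : ι) :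
    (conjPoly A B D r c).coeff d = A r p * B p c := by
  unfold conjPoly
  rw [Matrix.of_apply, finsetSum_coeff, Finset.sum_eq_single p]
  · rw [coeff_mul_C, coeff_C_mul, hD p, if_pos rfl, mul_one]
  · intro k _ hk
    rw [coeff_mul_C, coeff_C_mul, hD k, if_neg hk, mul_zero, zero_mul]
  · intro h
    exact absurd (Finset.mem_univ p) h

theorem conjPoly_eval (A B : Matrix ι ι F) (D : ι → F[X]) (s : F) :
    (conjPoly A B D).map (eval s) = A * Matrix.diagonal (fun k => (D k).eval s) * B := by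
  ext r c
  rw [Matrix.map_apply, Matrix.mul_apply]
  unfold conjPoly
  rw [Matrix.of_apply, eval_finsetSum]
  apply Finset.sum_congr rfl
  intro k _
  rw [Matrix.mul_diagonal, eval_mul, eval_mul, eval_C, eval_C]

end ConjPoly

section SzMat

variable {F : Type*} [Field F]

/-- The torus element of the Suzuki group. -/
def szH (e : ℕ) (s : F) : Matrix (Fin 4) (Fin 4) F :=
  !![s ^ (e + 1), 0, 0, 0; 0, s, 0, 0; 0, 0, s⁻¹, 0; 0, 0, 0, (s ^ (e + 1))⁻¹]

/-- Its inverse. -/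
def szHi (e : ℕ) (s : F) : Matrix (Fin 4) (Fin 4) F :=
  !![(s ^ (e + 1))⁻¹, 0, 0, 0; 0, s⁻¹, 0, 0; 0, 0, s, 0; 0, 0, 0, s ^ (e + 1)]

/-- An element of the Suzuki group over the prime field. -/
def szG : Matrix (Fin 4) (Fin 4) F := !![1, 0, 1, 1; 1, 1, 1, 0; 0, 1, 1, 1; 1, 1, 0, 1]

/-- Its inverse. -/
def szGi : Matrix (Fin 4) (Fin 4) F := !![1, 1, 0, 1; 0, 1, 1, 1; 1, 1, 1, 0; 1, 0, 1, 1]

theorem szH_mul_szHi (e : ℕ) {s : F} (hs : s ≠ 0) : szH e s * szHi e s = 1 := by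
  ext i j
  fin_cases i <;> fin_cases j <;> simp [szH, szHi, Matrix.mul_apply, Fin.sum_univ_four, hs]

theorem szHi_mul_szH (e : ℕ) {s : F} (hs : s ≠ 0) : szHi e s * szH e s = 1 := by
  ext i j
  fin_cases i <;> fin_cases j <;> simp [szH, szHi, Matrix.mul_apply, Fin.sum_univ_four, hs]

theorem szG_mul_szGi [CharP F 2] : (szG : Matrix (Fin 4) (Fin 4) F) * szGi = 1 := by
  have h2 : (2 : F) = 0 := CharTwo.two_eq_zero
  ext i j
  fin_cases i <;> fin_cases j <;>
    simp [szG, szGi, Matrix.mul_apply, Fin.sum_univ_four] <;> linear_combination h2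

theorem szGi_mul_szG [CharP F 2] : (szGi : Matrix (Fin 4) (Fin 4) F) * szG = 1 := by
  have h2 : (2 : F) = 0 := CharTwo.two_eq_zero
  ext i j
  fin_cases i <;> fin_cases j <;>
    simp [szG, szGi, Matrix.mul_apply, Fin.sum_univ_four] <;> linear_combination h2

/-- The torus element as an invertible matrix. -/
def szHU (e : ℕ) (s : F) (hs : s ≠ 0) : GL (Fin 4) F :=
  ⟨szH e s, szHi e s, szH_mul_szHi e hs, szHi_mul_szH e hs⟩

/-- The fixed element as an invertible matrix. -/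
def szGU [CharP F 2] : GL (Fin 4) F := ⟨szG, szGi, szG_mul_szGi, szGi_mul_szG⟩

theorem szHU_mem (e : ℕ) (he : e ≠ 0) (hθ : ∀ x : F, (x ^ e) ^ e = x ^ 2) (s : F) (hs : s ≠ 0) :
    szHU e s hs ∈ Cfsg.Lie.Sz F e := by
  apply Subgroup.subset_closure
  refine ⟨?_, ?_⟩
  · intro u v
    show Cfsg.Lie.altForm4 (szH e s *ᵥ u) (szH e s *ᵥ v) = Cfsg.Lie.altForm4 u v
    simp only [Cfsg.Lie.altForm4, szH, Matrix.mulVec, dotProduct, Fin.sum_univ_four]
    simp
    field_simp
  · show Cfsg.Lie.star4 (szH e s) = (szH e s).map (fun x => x ^ e)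
    have h1 : s ^ (e + 1) * s = (s ^ (e + 1)) ^ e := by
      rw [pow_succ, mul_pow, hθ]
      ring
    ext p r
    fin_cases p <;> fin_cases r <;>
      simp [Cfsg.Lie.star4, Cfsg.Lie.pairOf, szH, he]
    · exact h1
    · field_simp
      ring
    · field_simp
      ring
    · rw [← mul_inv, mul_comm, h1]

theorem szGU_mem [CharP F 2] (e : ℕ) (he : e ≠ 0) :
    (szGU : GL (Fin 4) F) ∈ Cfsg.Lie.Sz F e := by
  have h2 : (2 : F) = 0 := CharTwo.two_eq_zero
  apply Subgroup.subset_closure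
  refine ⟨?_, ?_⟩
  · intro u v
    show Cfsg.Lie.altForm4 ((szG : Matrix (Fin 4) (Fin 4) F) *ᵥ u)
      ((szG : Matrix (Fin 4) (Fin 4) F) *ᵥ v) = Cfsg.Lie.altForm4 u v
    simp only [Cfsg.Lie.altForm4, szG, Matrix.mulVec, dotProduct, Fin.sum_univ_four]
    simp
    linear_combination ((u 0 + u 1 + u 2 + u 3) * (v 0 + v 1 + v 2 + v 3)) * h2
  · show Cfsg.Lie.star4 (szG : Matrix (Fin 4) (Fin 4) F)
      = (szG : Matrix (Fin 4) (Fin 4) F).map (fun x => x ^ e)
    ext p r
    fin_cases p <;> fin_cases r <;>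
      simp [Cfsg.Lie.star4, Cfsg.Lie.pairOf, szG, he] <;> linear_combination (-1 : F) * h2

end SzMat

end Cfsg.Agent.Lib.Helper15
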