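import Mathlib
import Cfsg.Prelude.Def_Sz
import Cfsg.Agent.Lib.Helper15.LawSzMat

set_option autoImplicit false

namespace Cfsg.Agent.Lib.Helper15

open Polynomial Matrix

section SzPoly

variable {F : Type*} [Field F]

/-- The diagonal polynomial matrix of the torus element, shifted. -/
noncomputable def szDp (F : Type*) [Field F] (e : ℕ) : Fin 4 → F[X] :=
  ![X ^ (2 * e + 2), X ^ (e + 2), X ^ e, 1]

/-- The diagonal polynomial matrix of the inverse torus element, shifted. -/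
noncomputable def szDm (F : Type*) [Field F] (e : ℕ) : Fin 4 → F[X] :=
  ![1, X ^ e, X ^ (e + 2), X ^ (2 * e + 2)]

theorem szDp_natDegree (e : ℕ) (k : Fin 4) : (szDp F e k).natDegree ≤ 2 * e + 2 := by
  fin_cases k
  · exact natDegree_X_pow_le _
  · exact (natDegree_X_pow_le _).trans (by omega)
  · exact (natDegree_X_pow_le _).trans (by omega)
  · show (1 : F[X]).natDegree ≤ _
    rw [natDegree_one]; omega

theorem szDm_natDegree (e : ℕ) (k : Fin 4) : (szDm F e k).natDegree ≤ 2 * e + 2 := by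
  fin_cases k
  · show (1 : F[X]).natDegree ≤ _
    rw [natDegree_one]; omega
  · exact (natDegree_X_pow_le _).trans (by omega)
  · exact (natDegree_X_pow_le _).trans (by omega)
  · exact natDegree_X_pow_le _

theorem szDp_coeff (e : ℕ) (he : e ≠ 0) (k : Fin 4) :
    (szDp F e k).coeff (2 * e + 2) = if k = 0 then 1 else 0 := by
  fin_cases k
  · show (X ^ (2 * e + 2) : F[X]).coeff (2 * e + 2) = _
    rw [coeff_X_pow, if_pos rfl]; rfl
  · show (X ^ (e + 2) : F[X]).coeff (2 * e + 2) = _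
    rw [coeff_X_pow, if_neg (by omega)]; rfl
  · show (X ^ e : F[X]).coeff (2 * e + 2) = _
    rw [coeff_X_pow, if_neg (by omega)]; rfl
  · show (1 : F[X]).coeff (2 * e + 2) = _
    rw [coeff_one, if_neg (by omega)]; rfl

theorem szDm_coeff (e : ℕ) (he : e ≠ 0) (k : Fin 4) :
    (szDm F e k).coeff (2 * e + 2) = if k = 3 then 1 else 0 := by
  fin_cases k
  · show (1 : F[X]).coeff (2 * e + 2) = _
    rw [coeff_one, if_neg (by omega)]; rfl
  · show (X ^ e : F[X]).coeff (2 * e + 2) = _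
    rw [coeff_X_pow, if_neg (by omega)]; rfl
  · show (X ^ (e + 2) : F[X]).coeff (2 * e + 2) = _
    rw [coeff_X_pow, if_neg (by omega)]; rfl
  · show (X ^ (2 * e + 2) : F[X]).coeff (2 * e + 2) = _
    rw [coeff_X_pow, if_pos rfl]; rfl

theorem szDp_eval (e : ℕ) {s : F} (hs : s ≠ 0) :
    Matrix.diagonal (fun k => (szDp F e k).eval s) = s ^ (e + 1) • szH e s := by
  ext i j
  fin_cases i <;> fin_cases j <;> simp [szDp, szH, Matrix.diagonal] <;> field_simp <;> ring

theorem szDm_eval (e : ℕ) {s : F} (hs : s ≠ 0) :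
    Matrix.diagonal (fun k => (szDm F e k).eval s) = s ^ (e + 1) • szHi e s := by
  ext i j
  fin_cases i <;> fin_cases j <;> simp [szDm, szHi, Matrix.diagonal] <;> field_simp <;> ring

/-- The polynomial whose roots are the parameters in bad position relative to `a`. -/
noncomputable def szBad (e : ℕ) (a : F) : F[X] :=
  (X ^ (2 * e + 2) + C (a ^ (2 * e + 2)))
    * (X ^ (2 * e + 2) + (C (a ^ e) * X ^ (e + 2) + C (a ^ (2 * e + 2))))
    * (X ^ (2 * e + 2) + (C (a ^ (e + 2)) * X ^ e + C (a ^ (2 * e + 2))))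

theorem szBad_monic (e : ℕ) (he : e ≠ 0) (a : F) : (szBad e a).Monic := by
  unfold szBad
  refine Monic.mul (Monic.mul ?_ ?_) ?_
  · exact monic_X_pow_add_C _ (by omega)
  · apply monic_X_pow_add
    refine lt_of_le_of_lt (degree_add_le _ _) (max_lt ?_ ?_)
    · exact lt_of_le_of_lt (degree_C_mul_X_pow_le _ _) (by exact_mod_cast (by omega : e + 2 < 2 * e + 2))
    · exact lt_of_le_of_lt degree_C_le (by exact_mod_cast (by omega : 0 < 2 * e + 2))
  · apply monic_X_pow_add
    refine lt_of_le_of_lt (degree_add_le _ _) (max_lt ?_ ?_)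
    · exact lt_of_le_of_lt (degree_C_mul_X_pow_le _ _) (by exact_mod_cast (by omega : e < 2 * e + 2))
    · exact lt_of_le_of_lt degree_C_le (by exact_mod_cast (by omega : 0 < 2 * e + 2))

theorem szBad_natDegree (e : ℕ) (a : F) : (szBad e a).natDegree ≤ 3 * (2 * e + 2) := by
  unfold szBad
  have h1 : (X ^ (2 * e + 2) + C (a ^ (2 * e + 2)) : F[X]).natDegree ≤ 2 * e + 2 :=
    natDegree_add_le_of_degree_le (natDegree_X_pow_le _) ((natDegree_C _).le.trans (by omega))
  have h2 : (X ^ (2 * e + 2) + (C (a ^ e) * X ^ (e + 2) + C (a ^ (2 * e + 2))) : F[X]).natDegree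
      ≤ 2 * e + 2 :=
    natDegree_add_le_of_degree_le (natDegree_X_pow_le _)
      (natDegree_add_le_of_degree_le ((natDegree_C_mul_X_pow_le _ _).trans (by omega))
        ((natDegree_C _).le.trans (by omega)))
  have h3 : (X ^ (2 * e + 2) + (C (a ^ (e + 2)) * X ^ e + C (a ^ (2 * e + 2))) : F[X]).natDegree
      ≤ 2 * e + 2 :=
    natDegree_add_le_of_degree_le (natDegree_X_pow_le _)
      (natDegree_add_le_of_degree_le ((natDegree_C_mul_X_pow_le _ _).trans (by omega))
        ((natDegree_C _).le.trans (by omega)))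
  have h4 := natDegree_mul_le_of_le (natDegree_mul_le_of_le h1 h2) h3
  exact h4.trans (by omega)

/-- Generic position of two torus parameters. -/
def szGood (e : ℕ) (a b : F) : Prop :=
  b ^ (2 * e + 2) + a ^ (2 * e + 2) ≠ 0 ∧
  b ^ (2 * e + 2) + (a ^ e * b ^ (e + 2) + a ^ (2 * e + 2)) ≠ 0 ∧
  b ^ (2 * e + 2) + (a ^ (e + 2) * b ^ e + a ^ (2 * e + 2)) ≠ 0

theorem szGood_of_eval (e : ℕ) (a b : F) (h : (szBad e a).eval b ≠ 0) : szGood e a b := by
  unfold szBad at h
  simp only [eval_mul, eval_add, eval_pow, eval_X, eval_C] at h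
  exact ⟨fun h0 => h (by rw [h0, zero_mul, zero_mul]),
    fun h0 => h (by rw [h0, mul_zero, zero_mul]), fun h0 => h (by rw [h0, mul_zero])⟩

theorem szGood_symm (e : ℕ) (a b : F) (h : szGood e a b) : szGood e b a := by
  obtain ⟨h1, h2, h3⟩ := h
  refine ⟨fun h0 => h1 ?_, fun h0 => h3 ?_, fun h0 => h2 ?_⟩
  · rw [← h0]; ring
  · rw [← h0]; ring
  · rw [← h0]; ring

theorem sz_chain_entry (e : ℕ) {a b : F} (ha : a ≠ 0) (hb : b ≠ 0) (h : szGood e a b)
    (p p' : Fin 4) (hp : p = 0 ∨ p = 3) (hp' : p' = 0 ∨ p' = 3) :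
    ((szGi * szHi e a) * (szH e b * szG) : Matrix (Fin 4) (Fin 4) F) p p' ≠ 0 := by
  obtain ⟨h1, h2, h3⟩ := h
  have ha' : a ^ (e + 1) ≠ 0 := pow_ne_zero _ ha
  have hb' : b ^ (e + 1) ≠ 0 := pow_ne_zero _ hb
  rcases hp with rfl | rfl <;> rcases hp' with rfl | rfl
  · have : ((szGi * szHi e a) * (szH e b * szG) : Matrix (Fin 4) (Fin 4) F) 0 0
        = (b ^ (2 * e + 2) + (a ^ e * b ^ (e + 2) + a ^ (2 * e + 2))) / (a ^ (e + 1) * b ^ (e + 1)) := by
      simp [szG, szGi, szH, szHi, Matrix.mul_apply, Fin.sum_univ_four]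
      field_simp
      ring
    rw [this]
    exact div_ne_zero h2 (mul_ne_zero ha' hb')
  · have : ((szGi * szHi e a) * (szH e b * szG) : Matrix (Fin 4) (Fin 4) F) 0 3
        = (b ^ (2 * e + 2) + a ^ (2 * e + 2)) / (a ^ (e + 1) * b ^ (e + 1)) := by
      simp [szG, szGi, szH, szHi, Matrix.mul_apply, Fin.sum_univ_four]
      field_simp
      ring
    rw [this]
    exact div_ne_zero h1 (mul_ne_zero ha' hb')
  · have : ((szGi * szHi e a) * (szH e b * szG) : Matrix (Fin 4) (Fin 4) F) 3 0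
        = (b ^ (2 * e + 2) + a ^ (2 * e + 2)) / (a ^ (e + 1) * b ^ (e + 1)) := by
      simp [szG, szGi, szH, szHi, Matrix.mul_apply, Fin.sum_univ_four]
      field_simp
      ring
    rw [this]
    exact div_ne_zero h1 (mul_ne_zero ha' hb')
  · have : ((szGi * szHi e a) * (szH e b * szG) : Matrix (Fin 4) (Fin 4) F) 3 3
        = (b ^ (2 * e + 2) + (a ^ (e + 2) * b ^ e + a ^ (2 * e + 2))) / (a ^ (e + 1) * b ^ (e + 1)) := by
      simp [szG, szGi, szH, szHi, Matrix.mul_apply, Fin.sum_univ_four]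
      field_simp
      ring
    rw [this]
    exact div_ne_zero h3 (mul_ne_zero ha' hb')

end SzPoly

section Greedy

/-- Greedy choice of points avoiding the bad sets of the previous ones. -/
theorem exists_greedy {α : Type*} [DecidableEq α] [Inhabited α] (X : Finset α)
    (bad : α → Finset α) (c : ℕ) (hc : ∀ a, (bad a).card ≤ c) :
    ∀ k : ℕ, k * c < X.card → ∃ a : ℕ → α, (∀ i < k, a i ∈ X) ∧
      ∀ i j, i < j → j < k → a j ∉ bad (a i) := by
  intro k
  induction k with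
  | zero =>
    intro _
    exact ⟨fun _ => default, fun i hi => absurd hi (Nat.not_lt_zero i),
      fun i j _ hj => absurd hj (Nat.not_lt_zero j)⟩
  | succ k ih =>
    intro hk
    have hk' : k * c < X.card := by
      have : (k + 1) * c = k * c + c := by ring
      omega
    obtain ⟨a, ha1, ha2⟩ := ih hk'
    obtain ⟨B, hB⟩ : ∃ B, B = (Finset.range k).biUnion (fun i => bad (a i)) := ⟨_, rfl⟩
    have hBcard : B.card ≤ k * c := by
      rw [hB]
      calc ((Finset.range k).biUnion (fun i => bad (a i))).card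
          ≤ ∑ i ∈ Finset.range k, (bad (a i)).card := Finset.card_biUnion_le
        _ ≤ ∑ i ∈ Finset.range k, c := Finset.sum_le_sum (fun i _ => hc _)
        _ = k * c := by simp
    obtain ⟨x, hxX, hxB⟩ := Finset.exists_mem_notMem_of_card_lt_card
      (show B.card < X.card by omega)
    refine ⟨Function.update a k x, ?_, ?_⟩
    · intro i hi
      by_cases hik : i = k
      · subst hik
        rw [Function.update_self]
        exact hxX
      · rw [Function.update_of_ne hik]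
        exact ha1 i (by omega)
    · intro i j hij hj
      have hik : i ≠ k := by omega
      rw [Function.update_of_ne hik]
      by_cases hjk : j = k
      · subst hjk
        rw [Function.update_self]
        intro hmem
        apply hxB
        rw [hB, Finset.mem_biUnion]
        exact ⟨i, Finset.mem_range.mpr hij, hmem⟩
      · rw [Function.update_of_ne hjk]
        exact ha2 i j hij (by omega)

/-- Chains along reduced words. -/
theorem isChain_of_isReduced {R : ℕ × Bool → ℕ × Bool → Prop} (K : ℕ)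
    (hR : ∀ x y : ℕ × Bool, x.1 < K → y.1 < K → (x.1 = y.1 → x.2 = y.2) → R x y) :
    ∀ L : List (ℕ × Bool), FreeGroup.IsReduced L → (∀ x ∈ L, x.1 < K) → L.IsChain R := by
  intro L
  induction L with
  | nil => intro _ _; simp
  | cons x L ih =>
    intro hred hK
    cases L with
    | nil => simp
    | cons y L =>
      rw [FreeGroup.isReduced_cons_cons] at hred
      rw [List.isChain_cons_cons]
      refine ⟨?_, ih hred.2 (fun z hz => hK z (List.mem_cons_of_mem _ hz))⟩
      exact hR x y (hK x List.mem_cons_self) (hK y (List.mem_cons_of_mem _ List.mem_cons_self))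
        hred.1

theorem charP_two_of_card {F : Type*} [Field F] [Fintype F] {n : ℕ}
    (h : Fintype.card F = 2 ^ n) : CharP F 2 := by
  obtain ⟨p, hp⟩ := CharP.exists F
  have hprime : p.Prime := CharP.char_is_prime F p
  obtain ⟨k, -, hk⟩ := FiniteField.card F p
  have hdvd : p ∣ 2 ^ n := by
    rw [← h, hk]
    exact dvd_pow_self p k.ne_zero
  have h2 : p = 2 :=
    (Nat.prime_dvd_prime_iff_eq hprime Nat.prime_two).mp (hprime.dvd_of_dvd_pow hdvd)
  subst h2
  exact hp

end Greedy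

section SzLaw

/-- The dominant eigen-index of a letter. -/
def szIdx (b : Bool) : Fin 4 := if b then 0 else 3

theorem szIdx_cases (b : Bool) : szIdx b = 0 ∨ szIdx b = 3 := by
  cases b
  · right; rfl
  · left; rfl

/-- A non-trivial law fails in all large Suzuki groups. -/
theorem law_fails_Sz.{u} (w : FreeGroup ℕ) (hw : w ≠ 1) :
    ∃ N : ℕ, ∀ (F : Type u) [Field F] [Fintype F] (m : ℕ), 1 ≤ m → N ≤ m →
      Fintype.card F = 2 ^ (2 * m + 1) →
      ∃ f : ℕ → ↥(Cfsg.Lie.Sz F (2 ^ (m + 1))), FreeGroup.lift f w ≠ 1 := by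
  classical
  obtain ⟨L, hL⟩ : ∃ L, L = w.toWord := ⟨_, rfl⟩
  have hLne : L ≠ [] := fun h => hw (FreeGroup.toWord_eq_nil_iff.mp (hL ▸ h))
  have hLred : FreeGroup.IsReduced L := hL ▸ FreeGroup.isReduced_toWord
  have hwL : FreeGroup.mk L = w := hL ▸ FreeGroup.mk_toWord
  obtain ⟨K, hK⟩ : ∃ K, K = L.toFinset.sup Prod.fst + 1 := ⟨_, rfl⟩
  have hLK : ∀ x ∈ L, x.1 < K := fun x hx => by
    rw [hK]
    exact Nat.lt_succ_of_le (Finset.le_sup (f := Prod.fst) (List.mem_toFinset.mpr hx))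
  refine ⟨L.length + 3 * K + 3, ?_⟩
  intro F _ _ m hm1 hNm hcard
  have : CharP F 2 := charP_two_of_card hcard
  have : Inhabited F := ⟨0⟩
  obtain ⟨B, hB⟩ : ∃ B, B = 2 ^ m := ⟨_, rfl⟩
  obtain ⟨e, he⟩ : ∃ e, e = 2 ^ (m + 1) := ⟨_, rfl⟩
  have heB : e = 2 * B := by rw [he, hB, pow_succ]; ring
  have hqB : Fintype.card F = 2 * B * B := by rw [hcard, hB]; ring
  have hBbig : 4 * (L.length + 3 * K + 1) ≤ B := by
    have h1 : 2 ^ (L.length + 3 * K + 3) ≤ 2 ^ m := Nat.pow_le_pow_right (by norm_num) hNm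
    have h2 : L.length + 3 * K < 2 ^ (L.length + 3 * K) := Nat.lt_two_pow_self
    have h3 : 2 ^ (L.length + 3 * K + 3) = 8 * 2 ^ (L.length + 3 * K) := by
      rw [pow_add]; ring
    rw [hB]; omega
  have he0 : e ≠ 0 := by rw [heB]; omega
  have hθ : ∀ x : F, (x ^ e) ^ e = x ^ 2 := by
    intro x
    rw [← pow_mul]
    have h1 : e * e = Fintype.card F * 2 := by rw [heB, hqB]; ring
    rw [h1, pow_mul, FiniteField.pow_card]
  rw [← he]
  -- the non-zero elements
  obtain ⟨X, hX⟩ : ∃ X : Finset F, X = Finset.univ.filter (fun a : F => a ≠ 0) := ⟨_, rfl⟩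
  have hXcard : X.card + 1 = 2 * B * B := by
    have hpos : 0 < Fintype.card F := Fintype.card_pos
    rw [hX, Finset.filter_ne' Finset.univ (0 : F), Finset.card_erase_of_mem (Finset.mem_univ _),
      Finset.card_univ, ← hqB]
    omega
  have hXmem : ∀ a, a ∈ X → a ≠ 0 := fun a ha => by
    rw [hX] at ha
    exact (Finset.mem_filter.mp ha).2
  have h5 : 2 * B * (4 * (L.length + 3 * K + 1)) ≤ 2 * B * B := Nat.mul_le_mul_left _ hBbig
  have hc1 : (2 * e + 2) * L.length < X.card := by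
    rw [heB]
    nlinarith [h5, hBbig, Nat.zero_le (B * L.length), Nat.zero_le (B * K)]
  have hc2 : K * (3 * (2 * e + 2)) < X.card := by
    rw [heB]
    nlinarith [h5, hBbig, Nat.zero_le (B * L.length), Nat.zero_le (B * K)]
  -- greedy parameters
  obtain ⟨t₀, ht1, ht2⟩ := exists_greedy X (fun a => (szBad e a).roots.toFinset)
    (3 * (2 * e + 2))
    (fun a => (Multiset.toFinset_card_le _).trans ((card_roots' _).trans (szBad_natDegree e a)))
    K hc2
  obtain ⟨t, ht⟩ : ∃ t : ℕ → F, t = fun i => if i < K then t₀ i else 1 := ⟨_, rfl⟩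
  have htK : ∀ i, i < K → t i = t₀ i := by
    intro i hi
    rw [ht]
    exact if_pos hi
  have ht0 : ∀ i, t i ≠ 0 := by
    intro i
    by_cases h : i < K
    · rw [htK i h]
      exact hXmem _ (ht1 i h)
    · rw [ht]
      show (if i < K then t₀ i else 1) ≠ 0
      rw [if_neg h]
      exact one_ne_zero
  have hgood : ∀ i j, i < K → j < K → i ≠ j → szGood e (t i) (t j) := by
    intro i j hi hj hij
    rw [htK i hi, htK j hj]
    have key : ∀ i j, i < j → j < K → szGood e (t₀ i) (t₀ j) := by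
      intro i j hij hj
      apply szGood_of_eval
      intro h0
      apply ht2 i j hij hj
      rw [Multiset.mem_toFinset, mem_roots (szBad_monic e he0 _).ne_zero]
      exact h0
    rcases Nat.lt_or_gt_of_ne hij with h | h
    · exact key i j h hj
    · exact szGood_symm e _ _ (key j i h hi)
  -- the data of the letters
  obtain ⟨A, hA⟩ : ∃ A : ℕ → Matrix (Fin 4) (Fin 4) F, A = fun i => szH e (t i) * szG :=
    ⟨_, rfl⟩
  obtain ⟨Bm, hBm⟩ : ∃ Bm : ℕ → Matrix (Fin 4) (Fin 4) F,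
      Bm = fun i => szGi * szHi e (t i) := ⟨_, rfl⟩
  have hBA : ∀ i, Bm i * A i = 1 := by
    intro i
    rw [hA, hBm]
    show szGi * szHi e (t i) * (szH e (t i) * szG) = 1
    rw [Matrix.mul_assoc, ← Matrix.mul_assoc (szHi e (t i)), szHi_mul_szH e (ht0 i),
      Matrix.one_mul, szGi_mul_szG]
  obtain ⟨P, hP⟩ : ∃ P : ℕ × Bool → Matrix (Fin 4) (Fin 4) F[X],
      P = fun x => conjPoly (A x.1) (Bm x.1) (if x.2 then szDp F e else szDm F e) := ⟨_, rfl⟩
  obtain ⟨uu, huu⟩ : ∃ uu : ℕ × Bool → Fin 4 → F, uu = fun x r => A x.1 r (szIdx x.2) :=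
    ⟨_, rfl⟩
  obtain ⟨φφ, hφφ⟩ : ∃ φφ : ℕ × Bool → Fin 4 → F, φφ = fun x c => Bm x.1 (szIdx x.2) c :=
    ⟨_, rfl⟩
  have hpair : ∀ x y : ℕ × Bool, φφ x ⬝ᵥ uu y = (Bm x.1 * A y.1) (szIdx x.2) (szIdx y.2) := by
    intro x y
    rw [hφφ, huu, Matrix.mul_apply]
    rfl
  have hPdeg : ∀ x ∈ L, ∀ i j, (P x i j).natDegree ≤ 2 * e + 2 ∧
      (P x i j).coeff (2 * e + 2) = uu x i * φφ x j := by
    intro x _ i j
    rw [hP, huu, hφφ]
    obtain ⟨n, b⟩ := x
    cases b with
    | true =>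
      refine ⟨conjPoly_natDegree _ _ _ _ (szDp_natDegree e) i j, ?_⟩
      show (conjPoly (A n) (Bm n) (szDp F e) i j).coeff (2 * e + 2) = A n i 0 * Bm n 0 j
      exact conjPoly_coeff (A n) (Bm n) (szDp F e) (2 * e + 2) 0 (szDp_coeff e he0) i j
    | false =>
      refine ⟨conjPoly_natDegree _ _ _ _ (szDm_natDegree e) i j, ?_⟩
      show (conjPoly (A n) (Bm n) (szDm F e) i j).coeff (2 * e + 2) = A n i 3 * Bm n 3 j
      exact conjPoly_coeff (A n) (Bm n) (szDm F e) (2 * e + 2) 3 (szDm_coeff e he0) i j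
  have hchain : L.IsChain (fun x y => φφ x ⬝ᵥ uu y ≠ 0) := by
    apply isChain_of_isReduced K _ L hLred hLK
    intro x y hx hy hxy
    rw [hpair]
    by_cases h : x.1 = y.1
    · rw [h, hxy h, hBA, Matrix.one_apply_eq]
      exact one_ne_zero
    · rw [hBm, hA]
      exact sz_chain_entry e (ht0 x.1) (ht0 y.1) (hgood x.1 y.1 hx hy h) _ _ (szIdx_cases _)
        (szIdx_cases _)
  have hself : ∀ x : ℕ × Bool, φφ x ⬝ᵥ uu x = 1 := by
    intro x
    rw [hpair, hBA, Matrix.one_apply_eq]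
  have hu : ∀ x ∈ L, uu x ≠ 0 := by
    intro x _ h0
    have h1 := hself x
    rw [h0, dotProduct_zero] at h1
    exact zero_ne_one h1
  have hφ : ∀ x ∈ L, φφ x ≠ 0 := by
    intro x _ h0
    have h1 := hself x
    rw [h0, zero_dotProduct] at h1
    exact zero_ne_one h1
  obtain ⟨s, hsX, hne⟩ := word_poly_core (2 * e + 2) (e + 1) (by omega) P uu φφ L hLne hPdeg
    hchain hu hφ X hc1
  have hs0 : s ≠ 0 := hXmem s hsX
  -- the group elements
  let hEl : ∀ a : F, a ≠ 0 → Cfsg.Lie.Sz F e := fun a ha => ⟨szHU e a ha, szHU_mem e he0 hθ a ha⟩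
  let gEl : Cfsg.Lie.Sz F e := ⟨szGU, szGU_mem e he0⟩
  let xEl : ℕ → Cfsg.Lie.Sz F e := fun i => hEl (t i) (ht0 i) * gEl
  let f : ℕ → Cfsg.Lie.Sz F e := fun i => xEl i * hEl s hs0 * (xEl i)⁻¹
  let ρ : Cfsg.Lie.Sz F e →* Matrix (Fin 4) (Fin 4) F :=
    (Units.coeHom (Matrix (Fin 4) (Fin 4) F)).comp (Cfsg.Lie.Sz F e).subtype
  have hρx : ∀ i, ρ (xEl i) = A i := by
    intro i
    rw [hA]
    rfl
  have hρxi : ∀ i, ρ ((xEl i)⁻¹) = Bm i := by
    intro i
    rw [hBm]
    show ρ ((hEl (t i) (ht0 i) * gEl)⁻¹) = _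
    rw [_root_.mul_inv_rev, map_mul]
    rfl
  have hρh : ρ (hEl s hs0) = szH e s := rfl
  have hρhi : ρ ((hEl s hs0)⁻¹) = szHi e s := rfl
  refine ⟨f, ?_⟩
  rw [← hwL]
  apply word_ne_one_of_poly ρ f s (e + 1) P L _ hne
  intro x _
  obtain ⟨n, b⟩ := x
  rw [hP]
  cases b with
  | true =>
    show s ^ (e + 1) • ρ (f n) = (conjPoly (A n) (Bm n) (szDp F e)).map (eval s)
    rw [conjPoly_eval, szDp_eval e hs0]
    show s ^ (e + 1) • ρ (xEl n * hEl s hs0 * (xEl n)⁻¹) = _
    rw [map_mul, map_mul, hρx, hρxi, hρh, Matrix.mul_smul, Matrix.smul_mul]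
  | false =>
    show s ^ (e + 1) • ρ ((f n)⁻¹) = (conjPoly (A n) (Bm n) (szDm F e)).map (eval s)
    rw [conjPoly_eval, szDm_eval e hs0]
    have hinv : (f n)⁻¹ = xEl n * (hEl s hs0)⁻¹ * (xEl n)⁻¹ := by
      show (xEl n * hEl s hs0 * (xEl n)⁻¹)⁻¹ = _
      group
    rw [hinv, map_mul, map_mul, hρx, hρxi, hρhi, Matrix.mul_smul, Matrix.smul_mul]

end SzLaw

end Cfsg.Agent.Lib.Helper15
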