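import Mathlib
import Cfsg.Prelude

set_option autoImplicit false

/-! The standard plus/minus quadratic forms as `QuadraticForm`s, with nondegeneracy of the
polar form in characteristic two as well (the definitions follow the pattern of the
`SpinForms` library of another seat, restated here to keep the import closure small). -/

namespace Cfsg.Agent.Lib.Helper15.OrthForms2

section Plus

variable (m : ℕ) (F : Type*) [Field F]

theorem polar_plus (x y : Fin m ⊕ Fin m → F) :
    QuadraticMap.polar (Cfsg.quadFormPlus m F) x y
      = ∑ i : Fin m, (x (.inl i) * y (.inr i) + y (.inl i) * x (.inr i)) := by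
  unfold QuadraticMap.polar Cfsg.quadFormPlus
  rw [← Finset.sum_sub_distrib, ← Finset.sum_sub_distrib]
  refine Finset.sum_congr rfl fun i _ => ?_
  simp only [Pi.add_apply]
  ring

/-- The hyperbolic form as a quadratic form. -/
noncomputable def qPlus : QuadraticForm F (Fin m ⊕ Fin m → F) :=
  QuadraticMap.ofPolar (Cfsg.quadFormPlus m F)
    (fun a x => by
      unfold Cfsg.quadFormPlus
      rw [smul_eq_mul, Finset.mul_sum]
      refine Finset.sum_congr rfl fun i _ => ?_
      simp only [Pi.smul_apply, smul_eq_mul]
      ring)
    (fun x x' y => by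
      rw [polar_plus, polar_plus, polar_plus, ← Finset.sum_add_distrib]
      refine Finset.sum_congr rfl fun i _ => ?_
      simp only [Pi.add_apply]
      ring)
    (fun a x y => by
      rw [polar_plus, polar_plus, smul_eq_mul, Finset.mul_sum]
      refine Finset.sum_congr rfl fun i _ => ?_
      simp only [Pi.smul_apply, smul_eq_mul]
      ring)

theorem qPlus_coe : ⇑(qPlus m F) = Cfsg.quadFormPlus m F := rfl

theorem nondeg_of_sep {ι : Type} [Fintype ι] [DecidableEq ι] (Q : QuadraticForm F (ι → F))
    (key : ∀ x : ι → F, (∀ y, QuadraticMap.polar (⇑Q) y x = 0) → x = 0) :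
    (QuadraticMap.polarBilin Q).Nondegenerate :=
  ⟨fun x hx => key x (fun y => by rw [QuadraticMap.polar_comm]; exact hx y),
    fun y hy => key y (fun x => hy x)⟩

theorem qPlus_nondeg : (QuadraticMap.polarBilin (qPlus m F)).Nondegenerate := by
  apply nondeg_of_sep
  intro x hx
  funext k
  rcases k with j | j
  · have := hx (Pi.single (Sum.inr j) 1)
    rw [qPlus_coe, polar_plus] at this
    simpa [Pi.single_apply] using this
  · have := hx (Pi.single (Sum.inl j) 1)
    rw [qPlus_coe, polar_plus] at this
    simpa [Pi.single_apply] using this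

end Plus

section Minus

variable (m : ℕ) (F : Type*) [Field F] (a b : F)

theorem polar_minus (x y : (Fin m ⊕ Fin m) ⊕ Fin 2 → F) :
    QuadraticMap.polar (Cfsg.quadFormMinus m F a b) x y
      = ∑ i : Fin m, (x (.inl (.inl i)) * y (.inl (.inr i)) + y (.inl (.inl i)) * x (.inl (.inr i)))
        + (2 * x (.inr 0) * y (.inr 0) + a * (x (.inr 0) * y (.inr 1) + x (.inr 1) * y (.inr 0))
          + 2 * b * x (.inr 1) * y (.inr 1)) := by
  unfold QuadraticMap.polar Cfsg.quadFormMinus
  simp only [Finset.sum_add_distrib, Pi.add_apply, add_mul, mul_add]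
  ring

/-- The minus-type form as a quadratic form. -/
noncomputable def qMinus : QuadraticForm F ((Fin m ⊕ Fin m) ⊕ Fin 2 → F) :=
  QuadraticMap.ofPolar (Cfsg.quadFormMinus m F a b)
    (fun c x => by
      unfold Cfsg.quadFormMinus
      rw [smul_eq_mul, mul_add, Finset.mul_sum]
      congr 1
      · refine Finset.sum_congr rfl fun i _ => ?_
        simp only [Pi.smul_apply, smul_eq_mul]
        ring
      · simp only [Pi.smul_apply, smul_eq_mul]
        ring)
    (fun x x' y => by
      rw [polar_minus, polar_minus, polar_minus]
      simp only [Finset.sum_add_distrib, Pi.add_apply, add_mul, mul_add]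
      ring)
    (fun c x y => by
      rw [polar_minus, polar_minus, smul_eq_mul, mul_add c, Finset.mul_sum]
      congr 1
      · refine Finset.sum_congr rfl fun i _ => ?_
        simp only [Pi.smul_apply, smul_eq_mul]
        ring
      · simp only [Pi.smul_apply, smul_eq_mul]
        ring)

theorem qMinus_coe : ⇑(qMinus m F a b) = Cfsg.quadFormMinus m F a b := rfl

/-- Nondegeneracy of the polar form of the minus-type form in characteristic two. -/
theorem qMinus_nondeg_two [Finite F] [CharP F 2]
    (hab : ∀ z₁ z₂ : F, z₁ ^ 2 + a * z₁ * z₂ + b * z₂ ^ 2 = 0 → z₁ = 0 ∧ z₂ = 0) :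
    (QuadraticMap.polarBilin (qMinus m F a b)).Nondegenerate := by
  have h2 : (2 : F) = 0 := CharTwo.two_eq_zero
  have ha : a ≠ 0 := by
    rintro rfl
    obtain ⟨c, hc⟩ := FiniteField.isSquare_of_char_two (ringChar.eq F 2) b
    have := hab c 1 (by rw [hc]; linear_combination (c * c) * h2)
    exact one_ne_zero this.2
  apply nondeg_of_sep
  intro x hx
  funext k
  rcases k with (j | j) | j
  · have := hx (Pi.single (Sum.inl (Sum.inr j)) 1)
    rw [qMinus_coe, polar_minus] at this
    simpa [Pi.single_apply] using this
  · have := hx (Pi.single (Sum.inl (Sum.inl j)) 1)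
    rw [qMinus_coe, polar_minus] at this
    simpa [Pi.single_apply] using this
  · have h0 := hx (Pi.single (Sum.inr 0) 1)
    have h1 := hx (Pi.single (Sum.inr 1) 1)
    rw [qMinus_coe, polar_minus] at h0 h1
    simp only [Pi.single_apply, reduceCtorEq, if_false, zero_mul, add_zero,
      Finset.sum_const_zero, zero_add, if_true, one_mul, mul_zero, h2,
      Sum.inr.injEq, Fin.isValue, one_ne_zero, zero_ne_one, mul_one] at h0 h1
    fin_cases j
    · rcases mul_eq_zero.mp h1 with h | h
      · exact absurd h ha
      · exact h
    · rcases mul_eq_zero.mp h0 with h | h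
      · exact absurd h ha
      · exact h

end Minus

end Cfsg.Agent.Lib.Helper15.OrthForms2
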