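import Cfsg.Agent.Lib.Helper15.InvolClsE
import Cfsg.Prelude

set_option autoImplicit false

namespace Cfsg.Agent.Lib.Helper15.OrthInvol

open Matrix Cfsg.Agent.Lib.Helper15.InvolCls

/-- The linear equivalence given by an invertible matrix. -/
def glEquiv {ι : Type} [Fintype ι] [DecidableEq ι] {F : Type*} [Field F] (g : GL ι F) :
    (ι → F) ≃ₗ[F] (ι → F) where
  toFun := fun v => (g : Matrix ι ι F) *ᵥ v
  map_add' := fun u v => Matrix.mulVec_add _ u v
  map_smul' := fun c v => Matrix.mulVec_smul _ c v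
  invFun := fun v => ((g⁻¹ : GL ι F) : Matrix ι ι F) *ᵥ v
  left_inv := fun v => by
    show ((g⁻¹ : GL ι F) : Matrix ι ι F) *ᵥ ((g : Matrix ι ι F) *ᵥ v) = v
    rw [Matrix.mulVec_mulVec, ← Units.val_mul, inv_mul_cancel, Units.val_one, Matrix.one_mulVec]
  right_inv := fun v => by
    show (g : Matrix ι ι F) *ᵥ (((g⁻¹ : GL ι F) : Matrix ι ι F) *ᵥ v) = v
    rw [Matrix.mulVec_mulVec, ← Units.val_mul, mul_inv_cancel, Units.val_one, Matrix.one_mulVec]

theorem glEquiv_apply {ι : Type} [Fintype ι] [DecidableEq ι] {F : Type*} [Field F] (g : GL ι F)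
    (v : ι → F) : glEquiv g v = (g : Matrix ι ι F) *ᵥ v := rfl

/-- The invertible matrix of a linear equivalence. -/
noncomputable def equivGL {ι : Type} [Fintype ι] [DecidableEq ι] {F : Type*} [Field F]
    (g : (ι → F) ≃ₗ[F] (ι → F)) : GL ι F :=
  ⟨LinearMap.toMatrix' g.toLinearMap, LinearMap.toMatrix' g.symm.toLinearMap,
    by
      rw [← LinearMap.toMatrix'_comp]
      have : g.toLinearMap ∘ₗ g.symm.toLinearMap = LinearMap.id := by
        apply LinearMap.ext
        intro v
        simp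
      rw [this, LinearMap.toMatrix'_id],
    by
      rw [← LinearMap.toMatrix'_comp]
      have : g.symm.toLinearMap ∘ₗ g.toLinearMap = LinearMap.id := by
        apply LinearMap.ext
        intro v
        simp
      rw [this, LinearMap.toMatrix'_id]⟩

theorem equivGL_mulVec {ι : Type} [Fintype ι] [DecidableEq ι] {F : Type*} [Field F]
    (g : (ι → F) ≃ₗ[F] (ι → F)) (v : ι → F) :
    ((equivGL g : GL ι F) : Matrix ι ι F) *ᵥ v = g v :=
  LinearMap.toMatrix'_mulVec g.toLinearMap v

theorem mem_isometryGroup_iff {ι : Type} [Fintype ι] [DecidableEq ι] {F : Type*} [Field F]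
    (Q : (ι → F) → F) (g : GL ι F) :
    g ∈ Cfsg.isometryGroup F Q ↔ ∀ u : ι → F, Q ((g : Matrix ι ι F) *ᵥ u) = Q u := by
  constructor
  · intro h u
    exact h u u
  · intro h u v
    exact h u

/-- Conjugacy of involutions in the orthogonal group versus the symplectic group of the
polar form, characteristic two. -/
theorem orth_matrix_conj {ι : Type} [Fintype ι] [DecidableEq ι] {F : Type*} [Field F] [Finite F]
    [CharP F 2] (Qf : QuadraticForm F (ι → F)) (hQ : (QuadraticMap.polarBilin Qf).Nondegenerate)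
    (t s : ↥(Cfsg.isometryGroup F (⇑Qf))) (ht : orderOf t = 2) (hs : orderOf s = 2) :
    IsConj t s ↔ ∃ g ∈ Cfsg.preserving (Units.coeHom (Matrix ι ι F))
        (fun u v => Qf (u + v) - Qf u - Qf v),
      g * (t : GL ι F) * g⁻¹ = (s : GL ι F) := by
  constructor
  · intro h
    obtain ⟨c, hc⟩ := isConj_iff.mp h
    refine ⟨(c : GL ι F), ?_, ?_⟩
    · intro u v
      have hc2 := (mem_isometryGroup_iff (⇑Qf) (c : GL ι F)).mp c.2
      show Qf (((c : GL ι F) : Matrix ι ι F) *ᵥ u + ((c : GL ι F) : Matrix ι ι F) *ᵥ v) -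
        Qf (((c : GL ι F) : Matrix ι ι F) *ᵥ u) - Qf (((c : GL ι F) : Matrix ι ι F) *ᵥ v) = _
      rw [← Matrix.mulVec_add, hc2, hc2, hc2]
    · have := congrArg Subtype.val hc
      simpa using this
  · rintro ⟨g, hg, hgeq⟩
    have hsq2 : ∀ x : ↥(Cfsg.isometryGroup F (⇑Qf)), orderOf x = 2 →
        ∀ v : ι → F, ((x : GL ι F) : Matrix ι ι F) *ᵥ (((x : GL ι F) : Matrix ι ι F) *ᵥ v) = v := by
      intro x hx v
      have h1 : x ^ 2 = 1 := by rw [← hx]; exact pow_orderOf_eq_one x
      have h2 : ((x : GL ι F) : Matrix ι ι F) * ((x : GL ι F) : Matrix ι ι F) = 1 := by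
        have := congrArg (fun y : ↥(Cfsg.isometryGroup F (⇑Qf)) => ((y : GL ι F) : Matrix ι ι F)) h1
        simpa [pow_two] using this
      rw [Matrix.mulVec_mulVec, h2, Matrix.one_mulVec]
    have htQ := (mem_isometryGroup_iff (⇑Qf) (t : GL ι F)).mp t.2
    have hsQ := (mem_isometryGroup_iff (⇑Qf) (s : GL ι F)).mp s.2
    have hgt : g * (t : GL ι F) = (s : GL ι F) * g := by
      rw [← hgeq]
      group
    have hconj : ∀ v, glEquiv g (Matrix.toLin' ((t : GL ι F) : Matrix ι ι F) v) =
        Matrix.toLin' ((s : GL ι F) : Matrix ι ι F) (glEquiv g v) := by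
      intro v
      rw [glEquiv_apply, glEquiv_apply, Matrix.toLin'_apply, Matrix.toLin'_apply,
        Matrix.mulVec_mulVec, Matrix.mulVec_mulVec, ← Units.val_mul, ← Units.val_mul, hgt]
    obtain ⟨g', hg'Q, hg'c⟩ := orth_conj_generic Qf hQ
      (t := Matrix.toLin' ((t : GL ι F) : Matrix ι ι F))
      (s := Matrix.toLin' ((s : GL ι F) : Matrix ι ι F))
      (fun v => by rw [Matrix.toLin'_apply, Matrix.toLin'_apply]; exact hsq2 t ht v)
      (fun v => by rw [Matrix.toLin'_apply, Matrix.toLin'_apply]; exact hsq2 s hs v)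
      (fun v => by rw [Matrix.toLin'_apply]; exact htQ v)
      (fun v => by rw [Matrix.toLin'_apply]; exact hsQ v)
      (glEquiv g) (fun u v => hg u v) hconj
    have hmem : equivGL g' ∈ Cfsg.isometryGroup F (⇑Qf) := by
      rw [mem_isometryGroup_iff]
      intro u
      rw [equivGL_mulVec]
      exact hg'Q u
    rw [isConj_iff]
    refine ⟨⟨equivGL g', hmem⟩, ?_⟩
    rw [mul_inv_eq_iff_eq_mul]
    apply Subtype.ext
    apply Units.ext
    show ((equivGL g' : GL ι F) : Matrix ι ι F) * ((t : GL ι F) : Matrix ι ι F) =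
      ((s : GL ι F) : Matrix ι ι F) * ((equivGL g' : GL ι F) : Matrix ι ι F)
    apply Matrix.toLin'.injective
    apply LinearMap.ext
    intro v
    simp only [Matrix.toLin'_mul, LinearMap.comp_apply, Matrix.toLin'_apply, equivGL_mulVec]
    have h9 := hg'c v
    simp only [Matrix.toLin'_apply] at h9
    exact h9

end Cfsg.Agent.Lib.Helper15.OrthInvol
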