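import Mathlib
import Cfsg.Agent.Lib.Helper15.Eigen2

set_option autoImplicit false

namespace Cfsg.Agent.Lib.Helper15

open Module

section Transporter

/-- Transporter counting for a group acting transitively on an invariant finite set. -/
theorem sum_transporter {G X : Type*} [Group G] [Fintype G] [MulAction G X] [DecidableEq X]
    (S : Finset X) (hinv : ∀ (g : G), ∀ x ∈ S, g • x ∈ S)
    (htrans : ∀ x ∈ S, ∀ y ∈ S, ∃ g : G, g • x = y)
    {x y : X} (hx : x ∈ S) (hy : y ∈ S) :
    (S.card : ℂ) * ∑ g : G, (if g • x = y then (1 : ℂ) else 0) = Fintype.card G := by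
  classical
  have hcount : ∀ z ∈ S, (Finset.univ.filter (fun g : G => g • x = z)).card
      = (Finset.univ.filter (fun g : G => g • x = x)).card := by
    intro z hz
    obtain ⟨g₀, hg₀⟩ := htrans x hx z hz
    have : Finset.univ.filter (fun g : G => g • x = z)
        = (Finset.univ.filter (fun g : G => g • x = x)).map (Equiv.mulLeft g₀).toEmbedding := by
      ext g
      simp only [Finset.mem_filter, Finset.mem_univ, true_and, Finset.mem_map,
        Equiv.coe_toEmbedding, Equiv.coe_mulLeft]
      constructor
      · intro hg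
        refine ⟨g₀⁻¹ * g, ?_, by group⟩
        rw [mul_smul, hg, ← hg₀, inv_smul_smul]
      · rintro ⟨h, hh, rfl⟩
        rw [mul_smul, hh, hg₀]
    rw [this, Finset.card_map]
  have htot : Fintype.card G = ∑ z ∈ S, (Finset.univ.filter (fun g : G => g • x = z)).card := by
    rw [← Finset.card_univ]
    exact Finset.card_eq_sum_card_fiberwise (fun g _ => hinv g x hx)
  rw [Finset.sum_congr rfl hcount, Finset.sum_const, smul_eq_mul] at htot
  rw [Finset.sum_boole, hcount y hy, htot]
  push_cast
  ring

end Transporter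

section SLn

variable {F : Type*} [Field F] {n : ℕ}

theorem exists_basis_extending {k : ℕ} (v : Fin k → (Fin n → F)) (hv : LinearIndependent F v) :
    ∃ B : Basis (Fin k ⊕ Fin (n - k)) F (Fin n → F), ∀ i, B (Sum.inl i) = v i := by
  classical
  set W := Submodule.span F (Set.range v) with hW
  have hWrank : finrank F W = k := by
    rw [hW, finrank_span_eq_card hv, Fintype.card_fin]
  obtain ⟨Z, hZ⟩ := Submodule.exists_isCompl W
  have hsum := Submodule.finrank_add_eq_of_isCompl hZ
  rw [Module.finrank_fin_fun] at hsum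
  have hZrank : finrank F Z = n - k := by omega
  let bZ : Basis (Fin (n - k)) F Z := Module.finBasisOfFinrankEq F Z hZrank
  let z : Fin (n - k) → (Fin n → F) := fun j => (bZ j : Fin n → F)
  have hz_li : LinearIndependent F z :=
    bZ.linearIndependent.map' Z.subtype (Submodule.ker_subtype Z)
  have hspan_z : Submodule.span F (Set.range z) = Z := by
    have : Set.range z = Z.subtype '' Set.range bZ := by rw [← Set.range_comp]; rfl
    rw [this, Submodule.span_image, bZ.span_eq, Submodule.map_top, Submodule.range_subtype]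
  have hli : LinearIndependent F (Sum.elim v z) := by
    rw [linearIndependent_sum]
    refine ⟨hv, hz_li, ?_⟩
    simp only [Sum.elim_comp_inl, Sum.elim_comp_inr]
    rw [hspan_z]; exact hZ.disjoint
  have hcard : Fintype.card (Fin k ⊕ Fin (n - k)) = finrank F (Fin n → F) := by
    simp only [Fintype.card_sum, Fintype.card_fin, Module.finrank_fin_fun]; omega
  refine ⟨basisOfLinearIndependentOfCardEqFinrank' _ hli hcard, ?_⟩
  intro i
  rw [coe_basisOfLinearIndependentOfCardEqFinrank']
  rfl

/-- `SL_n` is transitive on linearly independent families of fewer than `n` vectors. -/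
theorem SL_transitive_families {k : ℕ} (hk : k < n) (v v' : Fin k → (Fin n → F))
    (hv : LinearIndependent F v) (hv' : LinearIndependent F v') :
    ∃ g : Matrix.SpecialLinearGroup (Fin n) F, ∀ i, g • (v i) = v' i := by
  classical
  obtain ⟨B, hB⟩ := exists_basis_extending v hv
  obtain ⟨B', hB'⟩ := exists_basis_extending v' hv'
  let φ : (Fin n → F) ≃ₗ[F] (Fin n → F) := B.equiv B' (Equiv.refl _)
  let G : Matrix (Fin n) (Fin n) F := LinearMap.toMatrix' (φ : (Fin n → F) →ₗ[F] (Fin n → F))
  have hG : ∀ w, G.mulVec w = φ w := by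
    intro w
    rw [← Matrix.toLin'_apply, Matrix.toLin'_toMatrix']; rfl
  have hGB : ∀ κ, G.mulVec (B κ) = B' κ := by
    intro κ
    rw [hG, Basis.equiv_apply]; rfl
  have hGdet : IsUnit G.det := by
    rw [LinearMap.det_toMatrix']
    exact LinearEquiv.isUnit_det' φ
  let j₀ : Fin (n - k) := ⟨0, by omega⟩
  let d : Fin k ⊕ Fin (n - k) → F := fun κ => if κ = Sum.inr j₀ then (G.det)⁻¹ else 1
  let c : (Fin n → F) →ₗ[F] (Fin n → F) := B'.constr F (fun κ => d κ • B' κ)
  let C : Matrix (Fin n) (Fin n) F := LinearMap.toMatrix' c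
  have hC : ∀ κ, C.mulVec (B' κ) = d κ • B' κ := by
    intro κ
    rw [← Matrix.toLin'_apply, Matrix.toLin'_toMatrix', Basis.constr_basis]
  have hCdet : C.det = (G.det)⁻¹ := by
    rw [det_of_diag_basis B' C d hC,
      Finset.prod_ite_eq' Finset.univ (Sum.inr j₀) (fun _ => (G.det)⁻¹)]
    simp
  have hdet : (C * G).det = 1 := by
    rw [Matrix.det_mul, hCdet]
    exact inv_mul_cancel₀ hGdet.ne_zero
  refine ⟨⟨C * G, hdet⟩, ?_⟩
  intro i
  show (C * G).mulVec (v i) = v' i
  rw [← Matrix.mulVec_mulVec, ← hB i, hGB, hC, hB' i]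
  simp [d]

theorem pair_smul_SL {v w : Fin n → F} (h : LinearIndependent F ![v, w])
    (g : Matrix.SpecialLinearGroup (Fin n) F) : LinearIndependent F ![g • v, g • w] := by
  rw [LinearIndependent.pair_iff] at h ⊢
  intro s t hst
  apply h s t
  have : g • (s • v + t • w) = 0 := by
    rw [smul_add, smul_comm g s v, smul_comm g t w]; exact hst
  exact (smul_eq_zero_iff_eq g).mp this

theorem pair_smul_units {v w : Fin n → F} (h : LinearIndependent F ![v, w]) (c c' : Fˣ) :
    LinearIndependent F ![(c : F) • v, (c' : F) • w] := by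
  rw [LinearIndependent.pair_iff] at h ⊢
  intro s t hst
  rw [smul_smul, smul_smul] at hst
  obtain ⟨h1, h2⟩ := h _ _ hst
  exact ⟨(mul_eq_zero.mp h1).resolve_right c.ne_zero, (mul_eq_zero.mp h2).resolve_right c'.ne_zero⟩

variable [Fintype F] [DecidableEq F]

/-- The non-zero vectors. -/
def nzVec (F : Type*) [Field F] [Fintype F] [DecidableEq F] (n : ℕ) : Finset (Fin n → F) :=
  Finset.univ.filter (fun v => v ≠ 0)

open Classical in
/-- The linearly independent pairs. -/
noncomputable def indPair (F : Type*) [Field F] [Fintype F] [DecidableEq F] (n : ℕ) :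
    Finset ((Fin n → F) × (Fin n → F)) :=
  Finset.univ.filter (fun p => LinearIndependent F ![p.1, p.2])

omit [DecidableEq F] in
theorem mem_nzVec [DecidableEq F] {v : Fin n → F} : v ∈ nzVec F n ↔ v ≠ 0 := by
  simp [nzVec]

omit [DecidableEq F] in
theorem mem_indPair [DecidableEq F] {p : (Fin n → F) × (Fin n → F)} :
    p ∈ indPair F n ↔ LinearIndependent F ![p.1, p.2] := by
  simp [indPair]

theorem transporter_vec (hn : 2 ≤ n) {x y : Fin n → F} (hx : x ≠ 0) (hy : y ≠ 0) :
    ((nzVec F n).card : ℂ) * ∑ g : Matrix.SpecialLinearGroup (Fin n) F,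
      (if g • x = y then (1 : ℂ) else 0)
      = Fintype.card (Matrix.SpecialLinearGroup (Fin n) F) := by
  apply sum_transporter (nzVec F n) _ _ (mem_nzVec.mpr hx) (mem_nzVec.mpr hy)
  · intro g v hv
    rw [mem_nzVec] at hv ⊢
    exact (smul_ne_zero_iff_ne g).mpr hv
  · intro v hv w hw
    rw [mem_nzVec] at hv hw
    obtain ⟨g, hg⟩ := SL_transitive_families (k := 1) (by omega) (fun _ => v) (fun _ => w)
      (linearIndependent_unique_iff.mpr hv) (linearIndependent_unique_iff.mpr hw)
    exact ⟨g, hg 0⟩

theorem transporter_pair (hn : 3 ≤ n) {p p' : (Fin n → F) × (Fin n → F)}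
    (hp : LinearIndependent F ![p.1, p.2]) (hp' : LinearIndependent F ![p'.1, p'.2]) :
    ((indPair F n).card : ℂ) * ∑ g : Matrix.SpecialLinearGroup (Fin n) F,
      (if g • p = p' then (1 : ℂ) else 0)
      = Fintype.card (Matrix.SpecialLinearGroup (Fin n) F) := by
  apply sum_transporter (indPair F n) _ _ (mem_indPair.mpr hp) (mem_indPair.mpr hp')
  · intro g q hq
    rw [mem_indPair] at hq ⊢
    exact pair_smul_SL hq g
  · intro q hq q' hq'
    rw [mem_indPair] at hq hq'
    obtain ⟨g, hg⟩ := SL_transitive_families (k := 2) (by omega) ![q.1, q.2] ![q'.1, q'.2] hq hq'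
    refine ⟨g, Prod.ext ?_ ?_⟩
    · exact hg 0
    · exact hg 1

theorem card_nzVec_ne_zero (hn : 1 ≤ n) : ((nzVec F n).card : ℂ) ≠ 0 := by
  rw [Nat.cast_ne_zero, ← Nat.pos_iff_ne_zero, Finset.card_pos]
  refine ⟨Pi.single ⟨0, by omega⟩ 1, mem_nzVec.mpr ?_⟩
  intro h
  have := congrFun h ⟨0, by omega⟩
  simp at this

theorem card_indPair_ne_zero (hn : 2 ≤ n) : ((indPair F n).card : ℂ) ≠ 0 := by
  rw [Nat.cast_ne_zero, ← Nat.pos_iff_ne_zero, Finset.card_pos]
  refine ⟨(Pi.single ⟨0, by omega⟩ 1, Pi.single ⟨1, by omega⟩ 1), mem_indPair.mpr ?_⟩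
  rw [LinearIndependent.pair_iff]
  intro s t hst
  have h0 := congrFun hst ⟨0, by omega⟩
  have h1 := congrFun hst ⟨1, by omega⟩
  simp [Fin.ext_iff] at h0 h1
  exact ⟨h0, h1⟩

/-- The number of non-zero vectors `v` with `g v = c v`, as a complex number. -/
noncomputable def eigCount (c : Fˣ) (g : Matrix.SpecialLinearGroup (Fin n) F) : ℂ :=
  ∑ v : Fin n → F, (if v ≠ 0 ∧ g • v = (c : F) • v then (1 : ℂ) else 0)

theorem transporter_vec' (hn : 2 ≤ n) {x y : Fin n → F} (hx : x ≠ 0) (hy : y ≠ 0) :
    ∑ g : Matrix.SpecialLinearGroup (Fin n) F, (if g • x = y then (1 : ℂ) else 0)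
      = (Fintype.card (Matrix.SpecialLinearGroup (Fin n) F) : ℂ) / (nzVec F n).card := by
  rw [eq_div_iff (card_nzVec_ne_zero (by omega)), mul_comm]
  exact transporter_vec hn hx hy

theorem transporter_pair' (hn : 3 ≤ n) {p p' : (Fin n → F) × (Fin n → F)}
    (hp : LinearIndependent F ![p.1, p.2]) (hp' : LinearIndependent F ![p'.1, p'.2]) :
    ∑ g : Matrix.SpecialLinearGroup (Fin n) F, (if g • p = p' then (1 : ℂ) else 0)
      = (Fintype.card (Matrix.SpecialLinearGroup (Fin n) F) : ℂ) / (indPair F n).card := by
  rw [eq_div_iff (card_indPair_ne_zero (by omega)), mul_comm]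
  exact transporter_pair hn hp hp'

theorem sum_eigCount (hn : 2 ≤ n) (c : Fˣ) :
    ∑ g : Matrix.SpecialLinearGroup (Fin n) F, eigCount c g
      = Fintype.card (Matrix.SpecialLinearGroup (Fin n) F) := by
  unfold eigCount
  rw [Finset.sum_comm]
  have h : ∀ v : Fin n → F, ∑ g : Matrix.SpecialLinearGroup (Fin n) F,
      (if v ≠ 0 ∧ g • v = (c : F) • v then (1 : ℂ) else 0)
      = if v ∈ nzVec F n then (Fintype.card (Matrix.SpecialLinearGroup (Fin n) F) : ℂ)
          / (nzVec F n).card else 0 := by
    intro v
    by_cases hv : v = 0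
    · subst hv
      have h0 : (0 : Fin n → F) ∉ nzVec F n := by rw [mem_nzVec]; exact fun h => h rfl
      simp [h0]
    · have hv' : v ∈ nzVec F n := mem_nzVec.mpr hv
      rw [if_pos hv']
      simp only [hv, ne_eq, not_false_eq_true, true_and]
      exact transporter_vec' hn hv (smul_ne_zero c.ne_zero hv)
  simp only [h]
  rw [Finset.sum_ite_mem, Finset.univ_inter, Finset.sum_const, nsmul_eq_mul,
    mul_div_cancel₀ _ (card_nzVec_ne_zero (by omega))]

theorem card_units_complex : ((Finset.univ.filter (fun a : F => a ≠ 0)).card : ℂ)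
    = (Fintype.card F : ℂ) - 1 := by
  rw [Finset.filter_ne' Finset.univ (0 : F), Finset.card_erase_of_mem (Finset.mem_univ _),
    Finset.card_univ, Nat.cast_sub Fintype.card_pos, Nat.cast_one]

theorem sum_eigCount_mul (hn : 3 ≤ n) (c c' : Fˣ) :
    ∑ g : Matrix.SpecialLinearGroup (Fin n) F, eigCount c g * eigCount c' g
      = (Fintype.card (Matrix.SpecialLinearGroup (Fin n) F) : ℂ)
        * (1 + ((Fintype.card F : ℂ) - 1) * (if c = c' then 1 else 0)) := by
  classical
  set N : ℂ := (Fintype.card (Matrix.SpecialLinearGroup (Fin n) F) : ℂ) with hN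
  let H : (Fin n → F) → (Fin n → F) → ℂ := fun v w =>
    ∑ g : Matrix.SpecialLinearGroup (Fin n) F,
      (if v ≠ 0 ∧ g • v = (c : F) • v then (1 : ℂ) else 0)
        * (if w ≠ 0 ∧ g • w = (c' : F) • w then (1 : ℂ) else 0)
  have h1 : ∑ g : Matrix.SpecialLinearGroup (Fin n) F, eigCount c g * eigCount c' g
      = ∑ v : Fin n → F, ∑ w : Fin n → F, H v w := by
    unfold eigCount
    simp only [Finset.sum_mul_sum]
    rw [Finset.sum_comm]
    apply Finset.sum_congr rfl
    intro v _
    rw [Finset.sum_comm]
  have hLI : ∀ v w : Fin n → F, LinearIndependent F ![v, w] → H v w = N / (indPair F n).card := by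
    intro v w hvw
    have hv : v ≠ 0 := hvw.ne_zero 0
    have hw : w ≠ 0 := hvw.ne_zero 1
    rw [← transporter_pair' hn (p := (v, w)) (p' := ((c : F) • v, (c' : F) • w)) hvw
      (pair_smul_units hvw c c')]
    apply Finset.sum_congr rfl
    intro g _
    simp only [hv, hw, ne_eq, not_false_eq_true, true_and, Prod.smul_mk, Prod.mk.injEq]
    by_cases h1 : g • v = (c : F) • v <;> by_cases h2 : g • w = (c' : F) • w <;> simp [h1, h2]
  have hzero : ∀ w : Fin n → F, H 0 w = 0 := by
    intro w
    simp [H]
  have hdep : ∀ v : Fin n → F, v ≠ 0 → ∀ a : F, H v (a • v)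
      = if a = 0 then 0 else (if c = c' then N / (nzVec F n).card else 0) := by
    intro v hv a
    by_cases ha : a = 0
    · simp [H, ha]
    · rw [if_neg ha]
      have hav : a • v ≠ 0 := smul_ne_zero ha hv
      have hterm : ∀ g : Matrix.SpecialLinearGroup (Fin n) F,
          (if v ≠ 0 ∧ g • v = (c : F) • v then (1 : ℂ) else 0)
            * (if a • v ≠ 0 ∧ g • (a • v) = (c' : F) • (a • v) then (1 : ℂ) else 0)
          = (if g • v = (c : F) • v then (1 : ℂ) else 0) * (if c = c' then 1 else 0) := by
        intro g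
        by_cases h1 : g • v = (c : F) • v
        · have : (g • (a • v) = (c' : F) • (a • v)) ↔ c = c' := by
            rw [smul_comm g a v, h1, smul_smul, smul_smul]
            constructor
            · intro h
              have h2 := smul_left_injective F hv h
              have h3 : (c : F) = (c' : F) := by
                have : a * (c : F) = a * (c' : F) := by rw [h2, mul_comm]
                exact mul_left_cancel₀ ha this
              exact Units.ext h3
            · intro h
              rw [h, mul_comm]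
          simp [hv, hav, h1, this]
        · simp [h1]
      show ∑ g : Matrix.SpecialLinearGroup (Fin n) F, _ = _
      rw [Finset.sum_congr rfl (fun g _ => hterm g), ← Finset.sum_mul,
        transporter_vec' (by omega) hv (smul_ne_zero c.ne_zero hv)]
      split_ifs with hcc
      · rw [mul_one]
      · rw [mul_zero]
  have hdepsum : ∀ v : Fin n → F, v ≠ 0 →
      ∑ w : Fin n → F, (if ¬ LinearIndependent F ![v, w] then H v w else 0)
        = ((Fintype.card F : ℂ) - 1) * (if c = c' then N / (nzVec F n).card else 0) := by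
    intro v hv
    rw [← Finset.sum_filter]
    have himg : Finset.univ.filter (fun w : Fin n → F => ¬ LinearIndependent F ![v, w])
        = Finset.univ.image (fun a : F => a • v) := by
      ext w
      simp only [Finset.mem_filter, Finset.mem_univ, true_and, Finset.mem_image]
      rw [LinearIndependent.pair_iff' hv]
      push Not
      rfl
    rw [himg, Finset.sum_image (fun a _ b _ h => smul_left_injective F hv h)]
    simp only [hdep v hv]
    have hflip : ∀ x : F, (if x = 0 then (0 : ℂ) else (if c = c' then N / (nzVec F n).card else 0))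
        = if x ≠ 0 then (if c = c' then N / (nzVec F n).card else 0) else 0 := by
      intro x
      by_cases hx : x = 0 <;> simp [hx]
    simp only [hflip]
    rw [← Finset.sum_filter, Finset.sum_const, nsmul_eq_mul, card_units_complex]
  have hsplit : ∀ v : Fin n → F, ∑ w : Fin n → F, H v w
      = ∑ w : Fin n → F, (if LinearIndependent F ![v, w] then N / (indPair F n).card else 0)
        + (if v ∈ nzVec F n then ((Fintype.card F : ℂ) - 1)
            * (if c = c' then N / (nzVec F n).card else 0) else 0) := by
    intro v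
    by_cases hv : v = 0
    · subst hv
      have h0 : (0 : Fin n → F) ∉ nzVec F n := by rw [mem_nzVec]; exact fun h => h rfl
      rw [if_neg h0, add_zero]
      apply Finset.sum_congr rfl
      intro w _
      rw [hzero, if_neg]
      intro hli
      exact hli.ne_zero 0 rfl
    · rw [if_pos (mem_nzVec.mpr hv), ← hdepsum v hv, ← Finset.sum_add_distrib]
      apply Finset.sum_congr rfl
      intro w _
      by_cases hli : LinearIndependent F ![v, w]
      · simp [hli, hLI v w hli]
      · simp [hli]
  rw [h1, Finset.sum_congr rfl (fun v _ => hsplit v), Finset.sum_add_distrib]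
  have hA : ∑ v : Fin n → F, ∑ w : Fin n → F,
      (if LinearIndependent F ![v, w] then N / (indPair F n).card else 0) = N := by
    rw [← Fintype.sum_prod_type' (f := fun v w =>
      (if LinearIndependent F ![v, w] then N / (indPair F n).card else 0))]
    rw [← Finset.sum_filter]
    have : Finset.univ.filter (fun p : (Fin n → F) × (Fin n → F) =>
        LinearIndependent F ![p.1, p.2]) = indPair F n := by
      ext p; simp [mem_indPair]
    rw [this, Finset.sum_const, nsmul_eq_mul, mul_div_cancel₀ _ (card_indPair_ne_zero (by omega))]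
  have hB : ∑ v : Fin n → F, (if v ∈ nzVec F n then ((Fintype.card F : ℂ) - 1)
      * (if c = c' then N / (nzVec F n).card else 0) else 0)
      = N * (((Fintype.card F : ℂ) - 1) * (if c = c' then 1 else 0)) := by
    rw [Finset.sum_ite_mem, Finset.univ_inter, Finset.sum_const, nsmul_eq_mul]
    have hne := card_nzVec_ne_zero (F := F) (n := n) (by omega)
    split_ifs
    · field_simp
    · simp
  rw [hA, hB]
  ring

end SLn


end Cfsg.Agent.Lib.Helper15
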