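import Mathlib
import Cfsg.Agent.Lib.Helper15.PermSLCount
import Cfsg.Agent.Lib.Helper15.GL2Chars
import Cfsg.Agent.S0148

set_option autoImplicit false

namespace Cfsg.Agent.Lib.Helper15

open Cfsg.Agent.Lib.Helper2
open scoped ComplexConjugate

section PermChar

variable {F : Type*} [Field F] [Fintype F] [DecidableEq F] {n : ℕ}

/-- The twisted permutation characters of `SL_n` on non-zero vectors. -/
noncomputable def permTw (n : ℕ) (α : MulChar F ℂ) : Matrix.SpecialLinearGroup (Fin n) F → ℂ :=
  fun g => ((Fintype.card F : ℂ) - 1)⁻¹ * ∑ c : Fˣ, α (c : F) * eigCount c g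

theorem eigCount_conj (c : Fˣ) (g : Matrix.SpecialLinearGroup (Fin n) F) :
    conj (eigCount c g) = eigCount c g := by
  unfold eigCount
  rw [map_sum]
  apply Finset.sum_congr rfl
  intro v _
  split_ifs <;> simp

theorem sum_units_mulChar_one (α : MulChar F ℂ) :
    ∑ c : Fˣ, α (c : F) = if α = 1 then ((Fintype.card F : ℂ) - 1) else 0 := by
  have h := sum_units_mulChar α (1 : MulChar F ℂ)
  simpa [MulChar.one_apply_coe] using h

theorem sum_units_mulChar_one_conj (β : MulChar F ℂ) :
    ∑ c : Fˣ, conj (β (c : F)) = if β = 1 then ((Fintype.card F : ℂ) - 1) else 0 := by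
  rw [← map_sum, sum_units_mulChar_one]
  split_ifs <;> simp

theorem classInner_permTw (hn : 3 ≤ n) (α β : MulChar F ℂ) :
    Cfsg.classInner (permTw n α) (permTw n β)
      = (if α = β then 1 else 0) + (if α = 1 ∧ β = 1 then 1 else 0) := by
  rw [classInner_def]
  have hq := card_sub_one_ne_zero (F := F)
  have hN : (Nat.card (Matrix.SpecialLinearGroup (Fin n) F) : ℂ) ≠ 0 := card_ne_zero_complex _
  have h1 : ∀ g : Matrix.SpecialLinearGroup (Fin n) F, permTw n α g * conj (permTw n β g)
      = ((Fintype.card F : ℂ) - 1)⁻¹ * ((Fintype.card F : ℂ) - 1)⁻¹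
        * ∑ c : Fˣ, ∑ c' : Fˣ, α (c : F) * conj (β (c' : F)) * (eigCount c g * eigCount c' g) := by
    intro g
    unfold permTw
    rw [map_mul, map_inv₀, map_sub, Complex.conj_natCast, map_one, map_sum]
    simp only [map_mul, eigCount_conj]
    rw [mul_mul_mul_comm, Finset.sum_mul_sum]
    congr 1
    apply Finset.sum_congr rfl; intro c _
    apply Finset.sum_congr rfl; intro c' _
    ring
  simp only [h1]
  rw [← Finset.mul_sum]
  have h2 : ∑ g : Matrix.SpecialLinearGroup (Fin n) F, ∑ c : Fˣ, ∑ c' : Fˣ,
      α (c : F) * conj (β (c' : F)) * (eigCount c g * eigCount c' g)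
      = ∑ c : Fˣ, ∑ c' : Fˣ, α (c : F) * conj (β (c' : F))
        * ((Nat.card (Matrix.SpecialLinearGroup (Fin n) F) : ℂ)
          * (1 + ((Fintype.card F : ℂ) - 1) * (if c = c' then 1 else 0))) := by
    rw [Finset.sum_comm]
    apply Finset.sum_congr rfl; intro c _
    rw [Finset.sum_comm]
    apply Finset.sum_congr rfl; intro c' _
    rw [← Finset.mul_sum, sum_eigCount_mul hn, Nat.card_eq_fintype_card]
  rw [h2]
  have h3 : ∑ c : Fˣ, ∑ c' : Fˣ, α (c : F) * conj (β (c' : F))
        * ((Nat.card (Matrix.SpecialLinearGroup (Fin n) F) : ℂ)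
          * (1 + ((Fintype.card F : ℂ) - 1) * (if c = c' then 1 else 0)))
      = (Nat.card (Matrix.SpecialLinearGroup (Fin n) F) : ℂ)
        * ((∑ c : Fˣ, α (c : F)) * (∑ c' : Fˣ, conj (β (c' : F)))
          + ((Fintype.card F : ℂ) - 1) * ∑ c : Fˣ, α (c : F) * conj (β (c : F))) := by
    have hterm : ∀ c : Fˣ, ∑ c' : Fˣ, α (c : F) * conj (β (c' : F))
        * ((Nat.card (Matrix.SpecialLinearGroup (Fin n) F) : ℂ)
          * (1 + ((Fintype.card F : ℂ) - 1) * (if c = c' then 1 else 0)))
        = (Nat.card (Matrix.SpecialLinearGroup (Fin n) F) : ℂ)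
            * (α (c : F) * ∑ c' : Fˣ, conj (β (c' : F)))
          + (Nat.card (Matrix.SpecialLinearGroup (Fin n) F) : ℂ)
            * (((Fintype.card F : ℂ) - 1) * (α (c : F) * conj (β (c : F)))) := by
      intro c
      have : ∀ c' : Fˣ, α (c : F) * conj (β (c' : F))
          * ((Nat.card (Matrix.SpecialLinearGroup (Fin n) F) : ℂ)
            * (1 + ((Fintype.card F : ℂ) - 1) * (if c = c' then 1 else 0)))
          = (Nat.card (Matrix.SpecialLinearGroup (Fin n) F) : ℂ) * (α (c : F) * conj (β (c' : F)))
            + (if c = c' then (Nat.card (Matrix.SpecialLinearGroup (Fin n) F) : ℂ)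
              * (((Fintype.card F : ℂ) - 1) * (α (c : F) * conj (β (c' : F)))) else 0) := by
        intro c'
        split_ifs <;> ring
      simp only [this]
      rw [Finset.sum_add_distrib, Finset.sum_ite_eq Finset.univ c, if_pos (Finset.mem_univ _),
        ← Finset.mul_sum, ← Finset.mul_sum]
    simp only [hterm]
    rw [Finset.sum_add_distrib, ← Finset.mul_sum, ← Finset.mul_sum, ← Finset.mul_sum,
      ← Finset.sum_mul]
    ring
  rw [h3, sum_units_mulChar_one, sum_units_mulChar_one_conj, sum_units_mulChar]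
  by_cases hα : α = 1
  · by_cases hβ : β = 1
    · have hαβ : α = β := hα.trans hβ.symm
      rw [if_pos hα, if_pos hβ, if_pos hαβ, if_pos hαβ, if_pos ⟨hα, hβ⟩]
      field_simp
    · have hαβ : ¬ α = β := fun h => hβ (h.symm.trans hα)
      rw [if_pos hα, if_neg hβ, if_neg hαβ, if_neg hαβ,
        if_neg (show ¬ (α = 1 ∧ β = 1) from fun h => hβ h.2)]
      simp
  · by_cases hβ : β = 1
    · have hαβ : ¬ α = β := fun h => hα (h.trans hβ)
      rw [if_neg hα, if_pos hβ, if_neg hαβ, if_neg hαβ,
        if_neg (show ¬ (α = 1 ∧ β = 1) from fun h => hα h.1)]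
      simp
    · rw [if_neg hα, if_neg hβ, if_neg (show ¬ (α = 1 ∧ β = 1) from fun h => hα h.1)]
      by_cases hαβ : α = β
      · rw [if_pos hαβ, if_pos hαβ]
        field_simp
        ring
      · rw [if_neg hαβ, if_neg hαβ]
        simp

theorem classInner_permTw_one (hn : 2 ≤ n) (α : MulChar F ℂ) :
    Cfsg.classInner (permTw n α) (fun _ => 1) = if α = 1 then 1 else 0 := by
  rw [classInner_def]
  have hq := card_sub_one_ne_zero (F := F)
  have hN : (Nat.card (Matrix.SpecialLinearGroup (Fin n) F) : ℂ) ≠ 0 := card_ne_zero_complex _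
  simp only [map_one, mul_one]
  unfold permTw
  rw [← Finset.mul_sum, Finset.sum_comm]
  simp only [← Finset.mul_sum, sum_eigCount hn]
  rw [← Finset.sum_mul, sum_units_mulChar_one, Nat.card_eq_fintype_card]
  rw [Nat.card_eq_fintype_card] at hN
  split_ifs
  · field_simp
  · simp

theorem sum_permTw [Fintype (MulChar F ℂ)] (g : Matrix.SpecialLinearGroup (Fin n) F) :
    ∑ α : MulChar F ℂ, permTw n α g = eigCount 1 g := by
  have hq := card_sub_one_ne_zero (F := F)
  unfold permTw
  rw [← Finset.mul_sum, Finset.sum_comm]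
  simp only [← Finset.sum_mul]
  have h : ∀ c : Fˣ, ∑ α : MulChar F ℂ, α (c : F)
      = if c = 1 then ((Fintype.card F : ℂ) - 1) else 0 := by
    intro c
    have := sum_mulChar_units (F := F) c 1
    simpa using this
  simp only [h]
  rw [Finset.sum_eq_single (1 : Fˣ)]
  · rw [if_pos rfl]
    field_simp
  · intro c _ hc
    rw [if_neg hc, zero_mul]
  · intro h; exact absurd (Finset.mem_univ _) h

/-- The stabilizer of the line through `e`. -/
def lineStab (e : Fin n → F) : Subgroup (Matrix.SpecialLinearGroup (Fin n) F) where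
  carrier := {g | ∃ c : Fˣ, g • e = (c : F) • e}
  mul_mem' := by
    rintro g h ⟨c, hc⟩ ⟨d, hd⟩
    refine ⟨c * d, ?_⟩
    rw [mul_smul, hd, smul_comm, hc, smul_smul, Units.val_mul, mul_comm]
  one_mem' := ⟨1, by simp⟩
  inv_mem' := by
    rintro g ⟨c, hc⟩
    refine ⟨c⁻¹, ?_⟩
    rw [inv_smul_eq_iff, smul_comm, hc, smul_smul, Units.val_inv_eq_inv_val,
      inv_mul_cancel₀ c.ne_zero, one_smul]

omit [Fintype F] [DecidableEq F] in
theorem lineStab_unique {e : Fin n → F} (he : e ≠ 0) {c d : Fˣ}
    (h : (c : F) • e = (d : F) • e) : c = d :=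
  Units.ext (smul_left_injective F he h)

/-- The eigenvalue on the stabilized line. -/
noncomputable def lineChar (e : Fin n → F) (he : e ≠ 0) : lineStab e →* Fˣ where
  toFun g := Classical.choose g.2
  map_one' := by
    apply lineStab_unique he
    rw [← Classical.choose_spec (1 : lineStab e).2]
    simp
  map_mul' := by
    intro g h
    apply lineStab_unique he
    have h1 := Classical.choose_spec (g * h).2
    have h2 := Classical.choose_spec g.2
    have h3 := Classical.choose_spec h.2
    calc ((Classical.choose (g * h).2 : Fˣ) : F) • e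
        = ((g * h : lineStab e) : Matrix.SpecialLinearGroup (Fin n) F) • e := h1.symm
      _ = (g : Matrix.SpecialLinearGroup (Fin n) F)
            • ((h : Matrix.SpecialLinearGroup (Fin n) F) • e) := by
          rw [Subgroup.coe_mul, mul_smul]
      _ = (g : Matrix.SpecialLinearGroup (Fin n) F)
            • (((Classical.choose h.2 : Fˣ) : F) • e) := by rw [← h3]
      _ = ((Classical.choose h.2 : Fˣ) : F)
            • ((g : Matrix.SpecialLinearGroup (Fin n) F) • e) := smul_comm _ _ _
      _ = ((Classical.choose h.2 : Fˣ) : F) • (((Classical.choose g.2 : Fˣ) : F) • e) := by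
          rw [← h2]
      _ = ((Classical.choose g.2 * Classical.choose h.2 : Fˣ) : F) • e := by
          rw [smul_smul, Units.val_mul, mul_comm]

omit [Fintype F] [DecidableEq F] in
theorem lineChar_spec (e : Fin n → F) (he : e ≠ 0) (g : lineStab e) :
    (g : Matrix.SpecialLinearGroup (Fin n) F) • e = ((lineChar e he g : Fˣ) : F) • e :=
  Classical.choose_spec g.2

theorem ext_lineChar (e : Fin n → F) (he : e ≠ 0) (α : MulChar F ℂ)
    (y : Matrix.SpecialLinearGroup (Fin n) F) :
    Cfsg.extendByZero (lineStab e) (fun g => α ((lineChar e he g : Fˣ) : F)) y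
      = ∑ c : Fˣ, if y • e = (c : F) • e then α (c : F) else 0 := by
  by_cases hy : y ∈ lineStab e
  · rw [extendByZero_of_mem _ _ hy]
    have hspec := lineChar_spec e he ⟨y, hy⟩
    rw [Finset.sum_eq_single (lineChar e he ⟨y, hy⟩)]
    · rw [if_pos hspec]
    · intro c _ hc
      rw [if_neg]
      intro h
      apply hc
      exact lineStab_unique he (h.symm.trans hspec)
    · intro h; exact absurd (Finset.mem_univ _) h
  · rw [extendByZero_of_not_mem _ _ hy]
    symm
    apply Finset.sum_eq_zero
    intro c _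
    rw [if_neg]
    intro h
    exact hy ⟨c, h⟩

theorem card_lineStab (hn : 2 ≤ n) (e : Fin n → F) (he : e ≠ 0) :
    (Nat.card (lineStab e) : ℂ) = ((Fintype.card F : ℂ) - 1)
      * ((Fintype.card (Matrix.SpecialLinearGroup (Fin n) F) : ℂ) / (nzVec F n).card) := by
  classical
  have h1 : (Nat.card (lineStab e) : ℂ)
      = ∑ x : Matrix.SpecialLinearGroup (Fin n) F, (if x ∈ lineStab e then (1 : ℂ) else 0) := by
    rw [Finset.sum_boole, Nat.card_eq_fintype_card]
    congr 1
    exact Fintype.card_of_subtype _ (by simp)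
  have h2 : ∀ x : Matrix.SpecialLinearGroup (Fin n) F, (if x ∈ lineStab e then (1 : ℂ) else 0)
      = ∑ c : Fˣ, (if x • e = (c : F) • e then (1 : ℂ) else 0) := by
    intro x
    by_cases hx : x ∈ lineStab e
    · rw [if_pos hx]
      obtain ⟨c₀, hc₀⟩ := hx
      rw [Finset.sum_eq_single c₀]
      · rw [if_pos hc₀]
      · intro c _ hc
        rw [if_neg]
        intro h
        exact hc (lineStab_unique he (h.symm.trans hc₀))
      · intro h; exact absurd (Finset.mem_univ _) h
    · rw [if_neg hx]
      symm
      apply Finset.sum_eq_zero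
      intro c _
      rw [if_neg]
      intro h
      exact hx ⟨c, h⟩
  rw [h1]
  simp only [h2]
  rw [Finset.sum_comm]
  have h3 : ∀ c : Fˣ, ∑ x : Matrix.SpecialLinearGroup (Fin n) F,
      (if x • e = (c : F) • e then (1 : ℂ) else 0)
      = (Fintype.card (Matrix.SpecialLinearGroup (Fin n) F) : ℂ) / (nzVec F n).card :=
    fun c => transporter_vec' hn he (smul_ne_zero c.ne_zero he)
  simp only [h3]
  rw [Finset.sum_const, nsmul_eq_mul, Finset.card_univ, Fintype.card_units,
    Nat.cast_sub Fintype.card_pos, Nat.cast_one]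

theorem permTw_eq_indFun (hn : 2 ≤ n) (e : Fin n → F) (he : e ≠ 0) (α : MulChar F ℂ) :
    permTw n α = Cfsg.indFun (lineStab e) (fun g => α ((lineChar e he g : Fˣ) : F)) := by
  classical
  funext g
  rw [indFun_apply]
  simp only [ext_lineChar]
  have hq := card_sub_one_ne_zero (F := F)
  have hN : (Fintype.card (Matrix.SpecialLinearGroup (Fin n) F) : ℂ) ≠ 0 := by
    rw [← Nat.card_eq_fintype_card]; exact card_ne_zero_complex _
  have hS := card_nzVec_ne_zero (F := F) (n := n) (by omega)
  have h1 : ∀ (x : Matrix.SpecialLinearGroup (Fin n) F) (c : Fˣ),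
      ((x⁻¹ * g * x) • e = (c : F) • e) ↔ (g • (x • e) = (c : F) • (x • e)) := by
    intro x c
    rw [mul_smul, mul_smul, inv_smul_eq_iff, smul_comm x (c : F) e]
  have h2 : ∀ c : Fˣ, ∑ x : Matrix.SpecialLinearGroup (Fin n) F,
      (if g • (x • e) = (c : F) • (x • e) then (1 : ℂ) else 0)
      = eigCount c g
        * ((Fintype.card (Matrix.SpecialLinearGroup (Fin n) F) : ℂ) / (nzVec F n).card) := by
    intro c
    unfold eigCount
    rw [Finset.sum_mul]
    have hv : ∀ v : Fin n → F, (if v ≠ 0 ∧ g • v = (c : F) • v then (1 : ℂ) else 0)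
        * ((Fintype.card (Matrix.SpecialLinearGroup (Fin n) F) : ℂ) / (nzVec F n).card)
        = ∑ x : Matrix.SpecialLinearGroup (Fin n) F,
          (if x • e = v ∧ g • v = (c : F) • v then (1 : ℂ) else 0) := by
      intro v
      by_cases hv : v = 0
      · subst hv
        have : ∀ x : Matrix.SpecialLinearGroup (Fin n) F, ¬ (x • e = 0) := fun x =>
          (smul_ne_zero_iff_ne x).mpr he
        simp [this]
      · by_cases hg : g • v = (c : F) • v
        · simp only [hv, hg, ne_eq, not_false_eq_true, and_self, if_true, one_mul, and_true]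
          exact (transporter_vec' hn he hv).symm
        · simp [hg]
    simp only [hv]
    rw [Finset.sum_comm]
    apply Finset.sum_congr rfl
    intro x _
    rw [Finset.sum_eq_single (x • e)]
    · simp
    · intro v _ hv
      rw [if_neg]
      intro h
      exact hv h.1.symm
    · intro h; exact absurd (Finset.mem_univ _) h
  have h3 : ∑ x : Matrix.SpecialLinearGroup (Fin n) F, ∑ c : Fˣ,
      (if (x⁻¹ * g * x) • e = (c : F) • e then α (c : F) else 0)
      = (∑ c : Fˣ, α (c : F) * eigCount c g)
        * ((Fintype.card (Matrix.SpecialLinearGroup (Fin n) F) : ℂ) / (nzVec F n).card) := by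
    rw [Finset.sum_comm, Finset.sum_mul]
    apply Finset.sum_congr rfl
    intro c _
    rw [mul_assoc, ← h2 c, Finset.mul_sum]
    apply Finset.sum_congr rfl
    intro x _
    simp only [h1 x c]
    split_ifs <;> simp
  rw [h3, card_lineStab hn e he]
  unfold permTw
  field_simp

theorem permTw_isCharacter (hn : 2 ≤ n) (α : MulChar F ℂ) :
    Cfsg.IsCharacter (Matrix.SpecialLinearGroup (Fin n) F) (permTw n α) := by
  let e : Fin n → F := Pi.single ⟨0, by omega⟩ 1
  have he : e ≠ 0 := by
    intro h
    have := congrFun h ⟨0, by omega⟩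
    simp [e] at this
  rw [permTw_eq_indFun hn e he α]
  apply Cfsg.Agent.S0148.result
  apply isCharacter_of_isIrrCharacter
  have h := isIrrCharacter_of_hom (α.toUnitHom.comp (lineChar e he))
  convert h using 1
  funext g
  simp

/-- The irreducible constituents of the permutation character. -/
noncomputable def permIrr (n : ℕ) (α : MulChar F ℂ) :
    Matrix.SpecialLinearGroup (Fin n) F → ℂ :=
  if α = 1 then permTw n (1 : MulChar F ℂ) - (fun _ => 1) else permTw n α

theorem classInner_one_permTw (hn : 2 ≤ n) (α : MulChar F ℂ) :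
    Cfsg.classInner (fun _ : Matrix.SpecialLinearGroup (Fin n) F => (1 : ℂ)) (permTw n α)
      = if α = 1 then 1 else 0 := by
  rw [← classInner_conj_symm, classInner_permTw_one hn]
  split_ifs <;> simp

theorem classInner_one_one :
    Cfsg.classInner (fun _ : Matrix.SpecialLinearGroup (Fin n) F => (1 : ℂ)) (fun _ => 1) = 1 :=
  classInner_irr_self isIrrCharacter_one

theorem classInner_permIrr (hn : 3 ≤ n) (α β : MulChar F ℂ) :
    Cfsg.classInner (permIrr n α) (permIrr n β) = if α = β then 1 else 0 := by
  unfold permIrr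
  by_cases hα : α = 1
  · by_cases hβ : β = 1
    · subst hα; subst hβ
      simp only [if_true]
      rw [classInner_sub_left, classInner_sub_right', classInner_sub_right', classInner_permTw hn,
        classInner_permTw_one (by omega), classInner_one_permTw (by omega), classInner_one_one]
      simp
    · have hαβ : ¬ α = β := fun h => hβ (h.symm.trans hα)
      have h1β : ¬ (1 : MulChar F ℂ) = β := fun h => hβ h.symm
      rw [if_pos hα, if_neg hβ, if_neg hαβ, classInner_sub_left, classInner_permTw hn,
        classInner_one_permTw (by omega)]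
      simp [hβ, h1β]
  · by_cases hβ : β = 1
    · have hαβ : ¬ α = β := fun h => hα (h.trans hβ)
      rw [if_neg hα, if_pos hβ, if_neg hαβ, classInner_sub_right', classInner_permTw hn,
        classInner_permTw_one (by omega)]
      simp [hα]
    · rw [if_neg hα, if_neg hβ, classInner_permTw hn]
      simp [hα]

theorem permIrr_isCharacter (hn : 3 ≤ n) (α : MulChar F ℂ) :
    Cfsg.IsCharacter (Matrix.SpecialLinearGroup (Fin n) F) (permIrr n α) := by
  unfold permIrr
  by_cases hα : α = 1
  · rw [if_pos hα]
    have hch := permTw_isCharacter (F := F) (n := n) (by omega) (1 : MulChar F ℂ)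
    apply isCharacter_of_nat_inner _
      (IsClassFunction.sub (isClassFunction_of_isCharacter hch)
        (isClassFunction_of_isIrrCharacter isIrrCharacter_one))
    intro ψ hψ
    rw [classInner_sub_left]
    obtain ⟨m, hm⟩ := classInner_isCharacter_nat hch (isCharacter_of_isIrrCharacter hψ)
    rw [classInner_irr isIrrCharacter_one hψ]
    by_cases h : (fun _ : Matrix.SpecialLinearGroup (Fin n) F => (1 : ℂ)) = ψ
    · subst h
      rw [classInner_permTw_one (by omega)]
      exact ⟨0, by simp⟩
    · rw [if_neg h, hm]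
      exact ⟨m, by simp⟩
  · rw [if_neg hα]
    exact permTw_isCharacter (by omega) α

theorem permIrr_irr (hn : 3 ≤ n) (α : MulChar F ℂ) :
    Cfsg.IsIrrCharacter (Matrix.SpecialLinearGroup (Fin n) F) (permIrr n α) := by
  apply isIrrCharacter_of_norm_one (permIrr_isCharacter hn α)
  rw [classInner_permIrr hn, if_pos rfl]

theorem permIrr_injective (hn : 3 ≤ n) : Function.Injective (permIrr (F := F) n) := by
  intro α β h
  have h1 := classInner_permIrr hn α β
  rw [← h, classInner_permIrr hn α α, if_pos rfl] at h1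
  by_contra hne
  rw [if_neg hne] at h1
  exact one_ne_zero h1

/-- The permutation character of `SL_n(q)` on non-zero vectors, `n ≥ 3`. -/
theorem perm_char_SL (n : ℕ) (hn : 3 ≤ n) :
    ∃ χ : Fin (Fintype.card F - 1) → (Matrix.SpecialLinearGroup (Fin n) F → ℂ),
      (∀ i, Cfsg.IsIrrCharacter (Matrix.SpecialLinearGroup (Fin n) F) (χ i)) ∧
      Function.Injective χ ∧
      ∀ g : Matrix.SpecialLinearGroup (Fin n) F,
        (Nat.card {v : Fin n → F // v ≠ 0 ∧ (g : Matrix (Fin n) (Fin n) F).mulVec v = v} : ℂ)
          = 1 + ∑ i, χ i g := by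
  classical
  have hfin : Finite (MulChar F ℂ) := by
    apply Nat.finite_of_card_ne_zero
    rw [card_mulChar]
    have := Fintype.one_lt_card (α := F)
    omega
  have := Fintype.ofFinite (MulChar F ℂ)
  have hcard : Fintype.card (MulChar F ℂ) = Fintype.card F - 1 := by
    rw [← Nat.card_eq_fintype_card, card_mulChar]
  let e : Fin (Fintype.card F - 1) ≃ MulChar F ℂ := (Fintype.equivFinOfCardEq hcard).symm
  refine ⟨fun i => permIrr n (e i), fun i => permIrr_irr hn (e i),
    (permIrr_injective hn).comp e.injective, ?_⟩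
  intro g
  rw [Equiv.sum_comp e (fun α => permIrr n α g)]
  have h1 : ∀ α : MulChar F ℂ, permIrr n α g = permTw n α g - (if α = 1 then 1 else 0) := by
    intro α
    unfold permIrr
    by_cases hα : α = 1
    · subst hα
      simp
    · simp [hα]
  simp only [h1]
  rw [Finset.sum_sub_distrib, sum_permTw, Finset.sum_ite_eq' Finset.univ (1 : MulChar F ℂ),
    if_pos (Finset.mem_univ _)]
  unfold eigCount
  rw [Finset.sum_boole, Nat.card_eq_fintype_card, Fintype.card_subtype]
  simp only [Units.val_one, one_smul]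
  ring_nf
  rfl

end PermChar

end Cfsg.Agent.Lib.Helper15
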