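import Mathlib
import Cfsg.Agent.Lib.Helper15.SpW
import Cfsg.Agent.Lib.Helper8.SylPermDL

set_option autoImplicit false

/-!
Derived length of the Sylow `2`-subgroups of the symplectic groups in odd characteristic.
-/

namespace Cfsg.Agent.Lib.Helper15.SpDL

open Matrix

open Cfsg.Agent.Lib.Helper15.SpW

open scoped Pointwise

open scoped commutatorElement

noncomputable section

universe u

/-! ### General group lemmas -/

theorem ds_inj {A B : Type*} [Group A] [Group B] (θ : A →* B) (hθ : Function.Injective θ)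
    (k : ℕ) (h : derivedSeries B k = ⊥) : derivedSeries A k = ⊥ := by
  have h1 : (derivedSeries A k).map θ ≤ derivedSeries B k :=
    map_derivedSeries_le_derivedSeries θ k
  rw [h, le_bot_iff] at h1
  exact (Subgroup.map_eq_bot_iff_of_injective _ hθ).mp h1

theorem ds_one_ne_bot {G : Type*} [Group G] (a b : G) (hab : a * b ≠ b * a) :
    derivedSeries G 1 ≠ ⊥ := by
  intro h
  apply hab
  have h1 : ⁅a, b⁆ ∈ derivedSeries G 1 := by
    rw [derivedSeries_one, commutator_def]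
    exact Subgroup.commutator_mem_commutator (Subgroup.mem_top a) (Subgroup.mem_top b)
  rw [h, Subgroup.mem_bot] at h1
  exact commutatorElement_eq_one_iff_mul_comm.mp h1

theorem isPGroup_zpowers_of_pow_four {G : Type*} [Group G] (x : G) (hx : x ^ 4 = 1) :
    IsPGroup 2 ↥(Subgroup.zpowers x) := by
  have h1 : orderOf x ∣ 4 := orderOf_dvd_of_pow_eq_one hx
  have h4 : (4 : ℕ) = 2 ^ 2 := by norm_num
  rw [h4] at h1
  obtain ⟨m, -, hm⟩ := (Nat.dvd_prime_pow Nat.prime_two).mp h1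
  apply IsPGroup.of_card (n := m)
  rw [Nat.card_zpowers, hm]

theorem mem_normalizer_zpowers {G : Type*} [Group G] (x y : G) (h1 : x * y * x⁻¹ = y⁻¹) :
    x ∈ Subgroup.normalizer (Subgroup.zpowers y : Set G) := by
  have key : ∀ i : ℤ, x * y ^ i * x⁻¹ = (y ^ i)⁻¹ := by
    intro i
    have h2 := map_zpow (MulAut.conj x) y i
    rw [MulAut.conj_apply, MulAut.conj_apply, h1, _root_.inv_zpow] at h2
    exact h2
  rw [Subgroup.mem_normalizer_iff]
  intro h
  constructor
  · intro hh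
    obtain ⟨i, rfl⟩ := Subgroup.mem_zpowers_iff.mp hh
    rw [key]
    exact inv_mem (Subgroup.zpow_mem_zpowers y i)
  · intro hh
    obtain ⟨i, hi⟩ := Subgroup.mem_zpowers_iff.mp hh
    have h3 : x * (y ^ i)⁻¹ * x⁻¹ = x * h * x⁻¹ := by
      rw [← hi, ← _root_.zpow_neg, key, _root_.zpow_neg, inv_inv]
    have h4 : (y ^ i)⁻¹ = h := mul_left_cancel (mul_right_cancel h3)
    rw [← h4]
    exact inv_mem (Subgroup.zpow_mem_zpowers y i)

theorem q8_aux {G : Type*} [Group G] (x y z : G) (hxx : x * x = z) (hyy : y * y = z)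
    (hzz : z * z = 1) (hxy : x * y = z * (y * x)) (hz : z ≠ 1) :
    IsPGroup 2 ↥(Subgroup.zpowers x ⊔ Subgroup.zpowers y) ∧
      derivedSeries ↥(Subgroup.zpowers x ⊔ Subgroup.zpowers y) 1 ≠ ⊥ := by
  have hx4 : x ^ 4 = 1 := by
    have h : x ^ 4 = (x * x) * (x * x) := by
      rw [show (4 : ℕ) = 2 + 2 from rfl, pow_add, pow_two]
    rw [h, hxx, hzz]
  have hy4 : y ^ 4 = 1 := by
    have h : y ^ 4 = (y * y) * (y * y) := by
      rw [show (4 : ℕ) = 2 + 2 from rfl, pow_add, pow_two]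
    rw [h, hyy, hzz]
  have hyinv : y⁻¹ = y * y * y := by
    apply inv_eq_of_mul_eq_one_right
    have h' : y * (y * y * y) = (y * y) * (y * y) := by simp only [mul_assoc]
    rw [h', hyy, hzz]
  have hconj : x * y * x⁻¹ = y⁻¹ := by
    rw [mul_inv_eq_iff_eq_mul, hxy, ← hyy, hyinv]
    simp only [mul_assoc]
  have hP : IsPGroup 2 ↥(Subgroup.zpowers x ⊔ Subgroup.zpowers y) :=
    IsPGroup.to_sup_of_normal_right' (isPGroup_zpowers_of_pow_four x hx4)
      (isPGroup_zpowers_of_pow_four y hy4)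
      (Subgroup.zpowers_le.mpr (mem_normalizer_zpowers x y hconj))
  refine ⟨hP, ?_⟩
  apply ds_one_ne_bot
    (⟨x, Subgroup.mem_sup_left (Subgroup.mem_zpowers x)⟩ :
      ↥(Subgroup.zpowers x ⊔ Subgroup.zpowers y))
    ⟨y, Subgroup.mem_sup_right (Subgroup.mem_zpowers y)⟩
  intro hc
  have hc' : x * y = y * x := congrArg Subtype.val hc
  apply hz
  rw [hc'] at hxy
  have h5 : z * (y * x) = 1 * (y * x) := by
    rw [one_mul]
    exact hxy.symm
  exact mul_right_cancel h5

/-! ### Two by two matrices -/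

section TwoByTwo

variable {F : Type u} [Field F]

/-- Two by two constructor. -/
def mk2 (a b c d : F) (h : a * d - b * c = 1) : Sp2 F :=
  ⟨blockD (fun _ => a) (fun _ => b) (fun _ => c) (fun _ => d),
    blockD_mem _ _ _ _ (fun _ => h)⟩

theorem ea_mk2 (a b c d : F) (h : a * d - b * c = 1) : ea (mk2 a b c d h) = a := by
  simp [ea, mk2, blockD]

theorem eb_mk2 (a b c d : F) (h : a * d - b * c = 1) : eb (mk2 a b c d h) = b := by
  simp [eb, mk2, blockD]

theorem ec_mk2 (a b c d : F) (h : a * d - b * c = 1) : ec (mk2 a b c d h) = c := by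
  simp [ec, mk2, blockD]

theorem ed_mk2 (a b c d : F) (h : a * d - b * c = 1) : ed (mk2 a b c d h) = d := by
  simp [ed, mk2, blockD]

theorem ea_one : ea (1 : Sp2 F) = 1 := by
  show (1 : Matrix (Fin 1 ⊕ Fin 1) (Fin 1 ⊕ Fin 1) F) (Sum.inl 0) (Sum.inl 0) = 1
  exact Matrix.one_apply_eq _

theorem eb_one : eb (1 : Sp2 F) = 0 := by
  show (1 : Matrix (Fin 1 ⊕ Fin 1) (Fin 1 ⊕ Fin 1) F) (Sum.inl 0) (Sum.inr 0) = 0
  exact Matrix.one_apply_ne (by simp)

theorem ec_one : ec (1 : Sp2 F) = 0 := by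
  show (1 : Matrix (Fin 1 ⊕ Fin 1) (Fin 1 ⊕ Fin 1) F) (Sum.inr 0) (Sum.inl 0) = 0
  exact Matrix.one_apply_ne (by simp)

theorem ed_one : ed (1 : Sp2 F) = 1 := by
  show (1 : Matrix (Fin 1 ⊕ Fin 1) (Fin 1 ⊕ Fin 1) F) (Sum.inr 0) (Sum.inr 0) = 1
  exact Matrix.one_apply_eq _

theorem mk2_mul_eq (a b c d a' b' c' d' a'' b'' c'' d'' : F) (h : a * d - b * c = 1)
    (h' : a' * d' - b' * c' = 1) (h'' : a'' * d'' - b'' * c'' = 1)
    (h1 : a * a' + b * c' = a'') (h2 : a * b' + b * d' = b'')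
    (h3 : c * a' + d * c' = c'') (h4 : c * b' + d * d' = d'') :
    mk2 a b c d h * mk2 a' b' c' d' h' = mk2 a'' b'' c'' d'' h'' := by
  apply sp2_ext
  · rw [ea_mul]
    simp only [ea_mk2, eb_mk2, ec_mk2, ed_mk2]
    exact h1
  · rw [eb_mul]
    simp only [ea_mk2, eb_mk2, ec_mk2, ed_mk2]
    exact h2
  · rw [ec_mul]
    simp only [ea_mk2, eb_mk2, ec_mk2, ed_mk2]
    exact h3
  · rw [ed_mul]
    simp only [ea_mk2, eb_mk2, ec_mk2, ed_mk2]
    exact h4

theorem mk2_one (h : (1 : F) * 1 - 0 * 0 = 1) : mk2 1 0 0 1 h = 1 := by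
  apply sp2_ext
  · rw [ea_mk2, ea_one]
  · rw [eb_mk2, eb_one]
  · rw [ec_mk2, ec_one]
  · rw [ed_mk2, ed_one]

theorem exists_base (h2 : (2 : F) ≠ 0) (a b : F) (hab : a ^ 2 + b ^ 2 = -1) :
    ∃ D : Subgroup (Sp2 F), IsPGroup 2 ↥D ∧ derivedSeries ↥D 1 ≠ ⊥ := by
  have hx0 : (0 : F) * 0 - 1 * (-1) = 1 := by ring
  have hy0 : a * (-a) - b * b = 1 := by linear_combination -hab
  have hz0 : (-1 : F) * (-1) - 0 * 0 = 1 := by ring
  have hw0 : (-b) * b - a * a = 1 := by linear_combination -hab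
  have hv0 : b * (-b) - (-a) * (-a) = 1 := by linear_combination -hab
  have h10 : (1 : F) * 1 - 0 * 0 = 1 := by ring
  have hxx : mk2 0 1 (-1) 0 hx0 * mk2 0 1 (-1) 0 hx0 = mk2 (-1) 0 0 (-1) hz0 :=
    mk2_mul_eq _ _ _ _ _ _ _ _ _ _ _ _ _ _ _ (by ring) (by ring) (by ring) (by ring)
  have hyy : mk2 a b b (-a) hy0 * mk2 a b b (-a) hy0 = mk2 (-1) 0 0 (-1) hz0 :=
    mk2_mul_eq _ _ _ _ _ _ _ _ _ _ _ _ _ _ _ (by linear_combination hab) (by ring) (by ring)
      (by linear_combination hab)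
  have hzz : mk2 (-1) 0 0 (-1) hz0 * mk2 (-1) 0 0 (-1) hz0 = 1 := by
    rw [← mk2_one h10]
    exact mk2_mul_eq _ _ _ _ _ _ _ _ _ _ _ _ _ _ _ (by ring) (by ring) (by ring) (by ring)
  have hyx : mk2 a b b (-a) hy0 * mk2 0 1 (-1) 0 hx0 = mk2 (-b) a a b hw0 :=
    mk2_mul_eq _ _ _ _ _ _ _ _ _ _ _ _ _ _ _ (by ring) (by ring) (by ring) (by ring)
  have hxy1 : mk2 0 1 (-1) 0 hx0 * mk2 a b b (-a) hy0 = mk2 b (-a) (-a) (-b) hv0 :=
    mk2_mul_eq _ _ _ _ _ _ _ _ _ _ _ _ _ _ _ (by ring) (by ring) (by ring) (by ring)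
  have hzw : mk2 (-1) 0 0 (-1) hz0 * mk2 (-b) a a b hw0 = mk2 b (-a) (-a) (-b) hv0 :=
    mk2_mul_eq _ _ _ _ _ _ _ _ _ _ _ _ _ _ _ (by ring) (by ring) (by ring) (by ring)
  have hxy : mk2 0 1 (-1) 0 hx0 * mk2 a b b (-a) hy0 =
      mk2 (-1) 0 0 (-1) hz0 * (mk2 a b b (-a) hy0 * mk2 0 1 (-1) 0 hx0) := by
    rw [hyx, hzw, hxy1]
  have hz1 : mk2 (-1) 0 0 (-1) hz0 ≠ (1 : Sp2 F) := by
    intro h
    have h3 := congrArg ea h
    rw [ea_mk2, ea_one] at h3
    apply h2
    linear_combination -h3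
  exact ⟨_, q8_aux _ _ _ hxx hyy hzz hxy hz1⟩

end TwoByTwo

/-! ### Monomial data -/

section Datum

variable {F : Type u} [Field F]

/-- Monomial datum. -/
def IsDatum {B : Type*} [Group B] {ι : Type*} (g : B → ι → Sp2 F)
    (σ : B → Equiv.Perm ι) : Prop :=
  (∀ b c, σ (b * c) = σ b * σ c) ∧ (∀ b c i, g (b * c) i = g b i * g c ((σ b)⁻¹ i)) ∧
    (∀ b c, g b = g c → σ b = σ c → b = c)

theorem hom_of_datum {B : Type*} [Group B] {n : ℕ} (g : B → Fin n → Sp2 F)
    (σ : B → Equiv.Perm (Fin n)) (h : IsDatum g σ) :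
    ∃ φ : B →* ↥(symplecticGroup (Fin n) F), Function.Injective φ := by
  obtain ⟨h1, h2, h3⟩ := h
  have hmul : ∀ b c : B, iota F n (g (b * c)) * piHom F n (σ (b * c)) =
      iota F n (g b) * piHom F n (σ b) * (iota F n (g c) * piHom F n (σ c)) := by
    intro b c
    have hg : g (b * c) = g b * (fun i => g c ((σ b)⁻¹ i)) := by
      funext i
      exact h2 b c i
    symm
    calc iota F n (g b) * piHom F n (σ b) * (iota F n (g c) * piHom F n (σ c))
        = iota F n (g b) * (piHom F n (σ b) * iota F n (g c)) * piHom F n (σ c) := by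
          simp only [mul_assoc]
      _ = iota F n (g b) * (iota F n (fun i => g c ((σ b)⁻¹ i)) * piHom F n (σ b)) *
            piHom F n (σ c) := by
          rw [Cfsg.Agent.Lib.Helper15.SpW.star]
      _ = (iota F n (g b) * iota F n (fun i => g c ((σ b)⁻¹ i))) *
            (piHom F n (σ b) * piHom F n (σ c)) := by
          simp only [mul_assoc]
      _ = iota F n (g (b * c)) * piHom F n (σ (b * c)) := by
          rw [hg, h1, map_mul, map_mul]
  refine ⟨MonoidHom.mk' (fun b => iota F n (g b) * piHom F n (σ b)) hmul, ?_⟩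
  intro b c hbc
  have h4 : (fun p : (Fin n → Sp2 F) × Equiv.Perm (Fin n) => iota F n p.1 * piHom F n p.2)
      (g b, σ b) =
      (fun p : (Fin n → Sp2 F) × Equiv.Perm (Fin n) => iota F n p.1 * piHom F n p.2)
      (g c, σ c) := hbc
  have h5 := psi_injective F n h4
  exact h3 b c (congrArg Prod.fst h5) (congrArg Prod.snd h5)

theorem datum_base {B : Type*} [Group B] (d : B →* Sp2 F) (hd : Function.Injective d) :
    IsDatum (fun (b : B) (_ : Unit) => d b) (fun _ : B => (1 : Equiv.Perm Unit)) := by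
  refine ⟨fun b c => (mul_one 1).symm, fun b c i => map_mul d b c, fun b c h _ => ?_⟩
  exact hd (congrFun h ())

/-- Wreath permutation. -/
def wrPerm {B Q ι : Type*} [Group B] [Group Q] (σ : B → Equiv.Perm ι)
    (w : RegularWreathProduct B Q) : Equiv.Perm (Q × ι) where
  toFun p := (w.right * p.1, σ (w.left (w.right * p.1)) p.2)
  invFun p := (w.right⁻¹ * p.1, (σ (w.left p.1))⁻¹ p.2)
  left_inv p := by
    rcases p with ⟨x, i⟩
    show (w.right⁻¹ * (w.right * x),
      (σ (w.left (w.right * x))).symm (σ (w.left (w.right * x)) i)) = (x, i)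
    rw [inv_mul_cancel_left, Equiv.symm_apply_apply]
  right_inv p := by
    rcases p with ⟨x, i⟩
    show (w.right * (w.right⁻¹ * x),
      σ (w.left (w.right * (w.right⁻¹ * x))) ((σ (w.left x)).symm i)) = (x, i)
    rw [mul_inv_cancel_left, Equiv.apply_symm_apply]

theorem datum_wreath {B Q ι : Type*} [Group B] [Group Q] (g : B → ι → Sp2 F)
    (σ : B → Equiv.Perm ι) (hne : Nonempty ι) (h : IsDatum g σ) :
    IsDatum (fun (w : RegularWreathProduct B Q) (p : Q × ι) => g (w.left p.1) p.2)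
      (fun w : RegularWreathProduct B Q => wrPerm σ w) := by
  obtain ⟨h1, h2, h3⟩ := h
  refine ⟨?_, ?_, ?_⟩
  · intro w v
    apply Equiv.ext
    rintro ⟨x, i⟩
    have e1 : (w * v).right = w.right * v.right := rfl
    have e2 : ∀ y, (w * v).left y = w.left y * v.left (w.right⁻¹ * y) := fun y => rfl
    show (((w * v).right * x, σ ((w * v).left ((w * v).right * x)) i) : Q × ι) =
      (w.right * (v.right * x), σ (w.left (w.right * (v.right * x)))
        (σ (v.left (v.right * x)) i))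
    rw [e2, e1, h1, mul_assoc, inv_mul_cancel_left]
    rfl
  · intro w v p
    rcases p with ⟨x, i⟩
    have e2 : (w * v).left x = w.left x * v.left (w.right⁻¹ * x) := rfl
    show g ((w * v).left x) i = g (w.left x) i *
      g (v.left (w.right⁻¹ * x)) ((σ (w.left x))⁻¹ i)
    rw [e2, h2]
  · intro w v hG hS
    obtain ⟨i₀⟩ := hne
    have hr : w.right = v.right := by
      have h4 := congrArg Prod.fst (Equiv.congr_fun hS ((1 : Q), i₀))
      have h5 : w.right * 1 = v.right * 1 := h4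
      rwa [mul_one, mul_one] at h5
    have hl : w.left = v.left := by
      funext y
      apply h3
      · funext i
        exact congrFun hG (y, i)
      · apply Equiv.ext
        intro i
        have h4 := congrArg Prod.snd (Equiv.congr_fun hS (w.right⁻¹ * y, i))
        have h5 : σ (w.left (w.right * (w.right⁻¹ * y))) i =
            σ (v.left (v.right * (w.right⁻¹ * y))) i := h4
        rw [← hr, mul_inv_cancel_left] at h5
        exact h5
    exact RegularWreathProduct.ext hl hr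

theorem datum_sum {B : Type*} [Group B] {ι κ : Type*} (g : B → ι → Sp2 F)
    (σ : B → Equiv.Perm ι) (h : IsDatum g σ) :
    IsDatum (fun (b : B) => (Sum.elim (g b) (fun _ : κ => (1 : Sp2 F))))
      (fun b => Equiv.Perm.sumCongr (σ b) (1 : Equiv.Perm κ)) := by
  obtain ⟨h1, h2, h3⟩ := h
  refine ⟨?_, ?_, ?_⟩
  · intro b c
    apply Equiv.ext
    rintro (i | k)
    · show (Sum.inl (σ (b * c) i) : ι ⊕ κ) = Sum.inl (σ b (σ c i))
      rw [h1]
      rfl
    · rfl
  · intro b c p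
    rcases p with i | k
    · exact h2 b c i
    · exact (mul_one 1).symm
  · intro b c hg hs
    apply h3
    · funext i
      exact congrFun hg (Sum.inl i)
    · apply Equiv.ext
      intro i
      have h4 := Equiv.congr_fun hs (Sum.inl i)
      exact Sum.inl_injective h4

theorem datum_equiv {B : Type*} [Group B] {ι κ : Type*} (e : ι ≃ κ) (g : B → ι → Sp2 F)
    (σ : B → Equiv.Perm ι) (h : IsDatum g σ) :
    IsDatum (fun (b : B) (k : κ) => g b (e.symm k))
      (fun b => (e.symm.trans (σ b)).trans e) := by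
  obtain ⟨h1, h2, h3⟩ := h
  refine ⟨?_, ?_, ?_⟩
  · intro b c
    apply Equiv.ext
    intro k
    show e (σ (b * c) (e.symm k)) = e (σ b (e.symm (e (σ c (e.symm k)))))
    rw [h1, Equiv.symm_apply_apply]
    rfl
  · intro b c k
    show g (b * c) (e.symm k) = g b (e.symm k) * g c (e.symm (e ((σ b)⁻¹ (e.symm k))))
    rw [Equiv.symm_apply_apply]
    exact h2 b c (e.symm k)
  · intro b c hg hs
    apply h3
    · funext i
      have h4 := congrFun hg (e i)
      have h5 : g b (e.symm (e i)) = g c (e.symm (e i)) := h4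
      rwa [Equiv.symm_apply_apply] at h5
    · apply Equiv.ext
      intro i
      have h4 := Equiv.congr_fun hs (e i)
      have h5 : e (σ b (e.symm (e i))) = e (σ c (e.symm (e i))) := h4
      rw [Equiv.symm_apply_apply] at h5
      exact e.injective h5

theorem iter (D₀ : Type u) [Group D₀] (hcard : ∃ a, Nat.card D₀ = 2 ^ a)
    (hD : derivedSeries D₀ 1 ≠ ⊥) (d : D₀ →* Sp2 F) (hd : Function.Injective d) (j : ℕ) :
    ∃ (B : Type u) (_ : Group B) (ι : Type) (_ : Fintype ι) (g : B → ι → Sp2 F)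
      (σ : B → Equiv.Perm ι), (∃ a, Nat.card B = 2 ^ a) ∧ derivedSeries B (j + 1) ≠ ⊥ ∧
        Fintype.card ι = 2 ^ j ∧ Nonempty ι ∧ IsDatum g σ := by
  induction j with
  | zero =>
    exact ⟨D₀, inferInstance, Unit, inferInstance, _, _, hcard, hD,
      by rw [Fintype.card_unit, pow_zero], ⟨()⟩, datum_base d hd⟩
  | succ j ih =>
    obtain ⟨B, hB, ι, hι, g, σ, ⟨a, ha⟩, hds, hc, hne, hdat⟩ := ih
    refine ⟨RegularWreathProduct B ℤˣ, inferInstance, ℤˣ × ι, inferInstance, _, _, ?_, ?_, ?_,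
      ?_, datum_wreath g σ hne hdat⟩
    · refine ⟨a * 2 + 1, ?_⟩
      rw [RegularWreathProduct.card, ha, card_units_int']
      ring
    · exact Cfsg.Agent.Lib.Helper8.SylPermDL.wreath_ne_bot ⟨-1, neg_one_ne_one_units⟩
        (j + 1) hds
    · rw [Fintype.card_prod, Fintype.card_units_int, hc]
      ring
    · exact ⟨(1, hne.some)⟩

end Datum

/-! ### The two bounds -/

theorem lower {F : Type u} [Field F] [Fintype F] (hF : Odd (Fintype.card F)) (n : ℕ)
    (hn : 1 ≤ n) (R : Sylow 2 ↥(symplecticGroup (Fin n) F)) :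
    derivedSeries ↥(R : Subgroup ↥(symplecticGroup (Fin n) F)) (Nat.log 2 n + 1) ≠ ⊥ := by
  classical
  have h2 : (2 : F) ≠ 0 := two_ne_zero_of_odd_card hF
  have : Finite ↥(symplecticGroup (Fin n) F) := inferInstance
  have : Finite (Sp2 F) := inferInstance
  obtain ⟨p, hp⟩ := CharP.exists F
  haveI := hp
  have : NeZero p := ⟨CharP.char_ne_zero_of_finite F p⟩
  obtain ⟨a, b, hab⟩ := CharP.sq_add_sq F p (-1)
  have hab' : (a : F) ^ 2 + (b : F) ^ 2 = -1 := by
    rw [hab, Int.cast_neg, Int.cast_one]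
  obtain ⟨D, hP0, hD0⟩ := exists_base h2 (a : F) (b : F) hab'
  obtain ⟨B, hB, ι, hι, g, σ, ⟨e, he⟩, hds, hc, hne, hdat⟩ :=
    iter (F := F) (↥D) (IsPGroup.iff_card.mp hP0) hD0 D.subtype
      (Subgroup.subtype_injective D) (Nat.log 2 n)
  have hjn : 2 ^ Nat.log 2 n ≤ n := Nat.pow_log_le_self 2 (by omega)
  have hcard : Fintype.card (ι ⊕ Fin (n - 2 ^ Nat.log 2 n)) = n := by
    rw [Fintype.card_sum, hc, Fintype.card_fin]
    omega
  have hdat2 := datum_equiv (Fintype.equivFinOfCardEq hcard) _ _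
    (datum_sum (κ := Fin (n - 2 ^ Nat.log 2 n)) g σ hdat)
  obtain ⟨φ, hφ⟩ := hom_of_datum _ _ hdat2
  have hBp : IsPGroup 2 B := IsPGroup.of_card he
  have hrange : IsPGroup 2 ↥φ.range :=
    hBp.of_surjective φ.rangeRestrict φ.rangeRestrict_surjective
  obtain ⟨Q, hQ⟩ := hrange.exists_le_sylow
  obtain ⟨c, hc⟩ := MulAction.exists_smul_eq ↥(symplecticGroup (Fin n) F) Q R
  have hmem : ∀ b : B, c * φ b * c⁻¹ ∈ (R : Subgroup ↥(symplecticGroup (Fin n) F)) := by
    intro b
    have h1 : (R : Subgroup ↥(symplecticGroup (Fin n) F)) =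
        MulAut.conj c • (Q : Subgroup ↥(symplecticGroup (Fin n) F)) := by
      rw [← hc, Sylow.coe_subgroup_smul]
    rw [h1, Subgroup.mem_pointwise_smul_iff_inv_smul_mem]
    have h3 : c⁻¹ * (c * φ b * c⁻¹) * c = φ b := by group
    have h4 : c⁻¹ * (c * φ b * c⁻¹) * c ∈ (Q : Subgroup ↥(symplecticGroup (Fin n) F)) := by
      rw [h3]
      exact hQ (MonoidHom.mem_range.mpr ⟨b, rfl⟩)
    exact h4
  obtain ⟨θ, hθ⟩ : ∃ θ : B →* ↥(R : Subgroup ↥(symplecticGroup (Fin n) F)),
      ∀ b, (θ b : ↥(symplecticGroup (Fin n) F)) = c * φ b * c⁻¹ :=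
    ⟨((MulAut.conj c).toMonoidHom.comp φ).codRestrict
      (R : Subgroup ↥(symplecticGroup (Fin n) F)) hmem, fun b => rfl⟩
  have hθinj : Function.Injective θ := by
    intro b b' hbb
    have h4 : c * φ b * c⁻¹ = c * φ b' * c⁻¹ := by
      rw [← hθ, ← hθ, hbb]
    exact hφ (mul_left_cancel (mul_right_cancel h4))
  intro hbot
  exact hds (ds_inj θ hθinj _ hbot)

/-- Reindexing embedding into square matrices. -/
def toMat (F : Type*) [Field F] (n : ℕ) :
    ↥(symplecticGroup (Fin n) F) →* Matrix (Fin (n + n)) (Fin (n + n)) F where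
  toFun x := x.1.submatrix finSumFinEquiv.symm finSumFinEquiv.symm
  map_one' := Matrix.submatrix_one_equiv _
  map_mul' x y := (Matrix.submatrix_mul_equiv x.1 y.1 _ _ _).symm

theorem toMat_injective (F : Type*) [Field F] (n : ℕ) : Function.Injective (toMat F n) := by
  intro x y hxy
  apply Subtype.ext
  ext i j
  have h1 := congrFun (congrFun hxy (finSumFinEquiv i)) (finSumFinEquiv j)
  have h2 : x.1 (finSumFinEquiv.symm (finSumFinEquiv i)) (finSumFinEquiv.symm (finSumFinEquiv j)) =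
      y.1 (finSumFinEquiv.symm (finSumFinEquiv i))
        (finSumFinEquiv.symm (finSumFinEquiv j)) := h1
  rw [Equiv.symm_apply_apply, Equiv.symm_apply_apply] at h2
  exact h2

theorem upper {F : Type*} [Field F] (n k : ℕ) (R : Sylow 2 ↥(symplecticGroup (Fin n) F))
    (key : ∀ (P : Subgroup (Matrix.GeneralLinearGroup (Fin (n + n)) F)), IsPGroup 2 ↥P →
      derivedSeries ↥P k = ⊥) :
    derivedSeries ↥(R : Subgroup ↥(symplecticGroup (Fin n) F)) k = ⊥ := by
  have hψ : Function.Injective (toMat F n).toHomUnits := by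
    intro x y h
    apply toMat_injective
    have h1 := congrArg Units.val h
    rwa [MonoidHom.coe_toHomUnits, MonoidHom.coe_toHomUnits] at h1
  have h1 := key ((R : Subgroup ↥(symplecticGroup (Fin n) F)).map (toMat F n).toHomUnits)
    (R.isPGroup'.map _)
  refine ds_inj (((toMat F n).toHomUnits).subgroupMap
    (R : Subgroup ↥(symplecticGroup (Fin n) F))) ?_ k h1
  intro a b hab
  apply Subtype.ext
  apply hψ
  exact congrArg Subtype.val hab

end

end Cfsg.Agent.Lib.Helper15.SpDL
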