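import Mathlib
import Cfsg.Prelude
import Cfsg.Agent.S0752

set_option autoImplicit false

namespace Cfsg.Agent.Lib.Helper15.SpInvol

open Matrix

variable {F : Type*} [Field F] {m : ℕ}

local notation "V" => (Fin m ⊕ Fin m → F)

theorem form_add_left (u u' v : V) :
    Cfsg.sympForm m F (u + u') v = Cfsg.sympForm m F u v + Cfsg.sympForm m F u' v := by
  unfold Cfsg.sympForm
  rw [add_dotProduct]

theorem form_add_right (u v v' : V) :
    Cfsg.sympForm m F u (v + v') = Cfsg.sympForm m F u v + Cfsg.sympForm m F u v' := by
  unfold Cfsg.sympForm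
  rw [Matrix.mulVec_add, dotProduct_add]

theorem form_smul_left (c : F) (u v : V) :
    Cfsg.sympForm m F (c • u) v = c * Cfsg.sympForm m F u v := by
  unfold Cfsg.sympForm
  rw [smul_dotProduct, smul_eq_mul]

theorem form_smul_right (c : F) (u v : V) :
    Cfsg.sympForm m F u (c • v) = c * Cfsg.sympForm m F u v := by
  unfold Cfsg.sympForm
  rw [Matrix.mulVec_smul, dotProduct_smul, smul_eq_mul]

theorem form_self (u : V) : Cfsg.sympForm m F u u = 0 := by
  unfold Cfsg.sympForm
  simp only [Matrix.J, dotProduct, Fintype.sum_sum_type, Matrix.mulVec, Matrix.fromBlocks_apply₁₁,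
    Matrix.fromBlocks_apply₁₂, Matrix.fromBlocks_apply₂₁, Matrix.fromBlocks_apply₂₂,
    Matrix.zero_apply, zero_mul, Finset.sum_const_zero, zero_add, add_zero, Matrix.neg_apply,
    Matrix.one_apply, neg_mul, ite_mul, one_mul, Finset.sum_neg_distrib, Finset.sum_ite_eq,
    Finset.mem_univ, if_true]
  rw [← Finset.sum_add_distrib]
  apply Finset.sum_eq_zero
  intro i _
  ring

theorem form_skew (u v : V) : Cfsg.sympForm m F u v = - Cfsg.sympForm m F v u := by
  have h := form_self (F := F) (m := m) (u + v)
  rw [form_add_left, form_add_right, form_add_right, form_self, form_self] at h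
  linear_combination h

theorem form_sub_left (u u' v : V) :
    Cfsg.sympForm m F (u - u') v = Cfsg.sympForm m F u v - Cfsg.sympForm m F u' v := by
  have h := form_add_left (F := F) (m := m) (u - u') u' v
  rw [sub_add_cancel] at h
  linear_combination -h

theorem form_nondeg (u : V) (h : ∀ v : V, Cfsg.sympForm m F u v = 0) : u = 0 := by
  have h1 : ∀ w : V, u ⬝ᵥ w = 0 := by
    intro w
    have h2 := h ((-Matrix.J (Fin m) F) *ᵥ w)
    unfold Cfsg.sympForm at h2
    rw [Matrix.mulVec_mulVec, Matrix.mul_neg, Matrix.J_squared, neg_neg, Matrix.one_mulVec] at h2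
    exact h2
  funext i
  have := h1 (Pi.single i 1)
  simpa using this

theorem form_invariant (A : Matrix (Fin m ⊕ Fin m) (Fin m ⊕ Fin m) F)
    (hA : A ∈ Matrix.symplecticGroup (Fin m) F) (u v : V) :
    Cfsg.sympForm m F (A *ᵥ u) (A *ᵥ v) = Cfsg.sympForm m F u v := by
  have h := (SymplecticGroup.mem_iff' (A := A)).mp hA
  unfold Cfsg.sympForm
  rw [Matrix.mulVec_mulVec, ← Matrix.vecMul_transpose A u, Matrix.dotProduct_mulVec,
    Matrix.vecMul_vecMul, ← Matrix.dotProduct_mulVec, ← Matrix.mul_assoc, h]

/-- An alternating form has even rank (derived from the symplectic basis theorem S0752; the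
argument follows the one in S5698). -/
theorem alt_even {W : Type*} [AddCommGroup W] [Module F W] [FiniteDimensional F W]
    (α : LinearMap.BilinForm F W) (hA : α.IsAlt) :
    ∃ c : ℕ, Module.finrank F W = 2 * c + Module.finrank F (LinearMap.ker α) := by
  classical
  obtain ⟨m, k, b, hef, hee, hff, hr⟩ := Cfsg.Agent.S0752.result α hA
  have hskew : ∀ x y, α x y = - α y x := fun x y => (hA.neg_eq y x).symm
  have hdim : Module.finrank F W = 2 * m + k := by
    rw [Module.finrank_eq_card_basis b]
    simp only [Fintype.card_sum, Fintype.card_fin]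
    ring
  have hker : LinearMap.ker α = Submodule.span F (Set.range (fun j : Fin k => b (Sum.inr j))) := by
    apply le_antisymm
    · intro x hx
      rw [LinearMap.mem_ker] at hx
      have hx' : ∀ y, α x y = 0 := fun y => by rw [hx]; rfl
      have hrepr := b.sum_repr x
      have hcoef_e : ∀ i : Fin m, b.repr x (Sum.inl (Sum.inl i)) = 0 := by
        intro i
        have h := hx' (b (Sum.inl (Sum.inr i)))
        rw [← hrepr] at h
        simp only [map_sum, map_smul, map_add, LinearMap.sum_apply, LinearMap.smul_apply,
          LinearMap.add_apply, smul_eq_mul, Fintype.sum_sum_type] at h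
        simp only [hef, hff, hr, mul_zero, Finset.sum_const_zero, add_zero, mul_ite, mul_one,
          Finset.sum_ite_eq', Finset.mem_univ, if_true] at h
        exact h
      have hcoef_f : ∀ i : Fin m, b.repr x (Sum.inl (Sum.inr i)) = 0 := by
        intro i
        have h := hx' (b (Sum.inl (Sum.inl i)))
        rw [← hrepr] at h
        simp only [map_sum, map_smul, map_add, LinearMap.sum_apply, LinearMap.smul_apply,
          LinearMap.add_apply, smul_eq_mul, Fintype.sum_sum_type] at h
        have hfe : ∀ j : Fin m, α (b (Sum.inl (Sum.inr j))) (b (Sum.inl (Sum.inl i)))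
            = if j = i then -1 else 0 := by
          intro j
          rw [hskew, hef]
          by_cases hji : j = i
          · simp [hji]
          · simp [hji, Ne.symm hji]
        simp only [hee, hfe, hr, mul_zero, Finset.sum_const_zero, add_zero, zero_add, mul_ite,
          Finset.sum_ite_eq', Finset.mem_univ, if_true] at h
        simpa using h
      rw [← hrepr]
      simp only [Fintype.sum_sum_type, hcoef_e, hcoef_f, zero_smul, Finset.sum_const_zero,
        zero_add]
      exact Submodule.sum_mem _ (fun j _ => Submodule.smul_mem _ _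
        (Submodule.subset_span ⟨j, rfl⟩))
    · rw [Submodule.span_le]
      rintro _ ⟨j, rfl⟩
      rw [SetLike.mem_coe, LinearMap.mem_ker]
      ext y
      exact hr j y
  have hli : LinearIndependent F (fun j : Fin k => b (Sum.inr j)) :=
    b.linearIndependent.comp _ Sum.inr_injective
  refine ⟨m, ?_⟩
  rw [hdim, hker, finrank_span_eq_card hli, Fintype.card_fin]

end Cfsg.Agent.Lib.Helper15.SpInvol
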