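import Cfsg.Agent.Lib.Helper15.SpInvol
import Cfsg.Agent.Lib.Helper15.InvolClsD

set_option autoImplicit false

namespace Cfsg.Agent.Lib.Helper15.SpInvol

open Matrix Cfsg.Agent.Lib.Helper15.InvolCls

variable {F : Type*} [Field F] {m : ℕ}

/-- The symplectic form as a bilinear form. -/
def Bf (m : ℕ) (F : Type*) [Field F] : LinearMap.BilinForm F (Fin m ⊕ Fin m → F) :=
  LinearMap.mk₂ F (fun u v => Cfsg.sympForm m F u v)
    (fun u u' v => form_add_left u u' v)
    (fun c u v => by rw [form_smul_left, smul_eq_mul])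
    (fun u v v' => form_add_right u v v')
    (fun c u v => by rw [form_smul_right, smul_eq_mul])

theorem Bf_apply (u v : Fin m ⊕ Fin m → F) : Bf m F u v = Cfsg.sympForm m F u v := rfl

theorem Bf_setup [CharP F 2] : Setup (Bf m F) where
  two := CharTwo.two_eq_zero
  alt := fun v => form_self v
  sepL := fun x hx => form_nondeg x hx

theorem Bf_nondeg : (Bf m F).Nondegenerate := by
  refine ⟨fun x hx => form_nondeg x hx, fun y hy => ?_⟩
  apply form_nondeg
  intro v
  rw [form_skew, ← Bf_apply, hy v, neg_zero]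

/-- An involution of the symplectic group as an involutive isometry. -/
theorem invIso_of (A : Matrix (Fin m ⊕ Fin m) (Fin m ⊕ Fin m) F)
    (hA : A ∈ Matrix.symplecticGroup (Fin m) F) (hA2 : A * A = 1) :
    InvIso (Bf m F) (Matrix.toLin' A) where
  sq := fun v => by
    rw [Matrix.toLin'_apply, Matrix.toLin'_apply, Matrix.mulVec_mulVec, hA2, Matrix.one_mulVec]
  iso := fun u v => by
    rw [Matrix.toLin'_apply, Matrix.toLin'_apply, Bf_apply, Bf_apply, form_invariant A hA]

theorem Nm_toLin' (A : Matrix (Fin m ⊕ Fin m) (Fin m ⊕ Fin m) F) :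
    Nm (Matrix.toLin' A) = (A - 1).mulVecLin := by
  apply LinearMap.ext
  intro v
  rw [Nm_apply, Matrix.toLin'_apply, Matrix.mulVecLin_apply, Matrix.sub_mulVec, Matrix.one_mulVec]

theorem rank_eq (A : Matrix (Fin m ⊕ Fin m) (Fin m ⊕ Fin m) F) :
    Module.finrank F (LinearMap.range (Nm (Matrix.toLin' A))) = (A - 1).rank := by
  rw [Nm_toLin']
  rfl

theorem matrix_eq_of_form {n : Type*} [Fintype n] [DecidableEq n] (M M' : Matrix n n F)
    (h : ∀ u v : n → F, u ⬝ᵥ (M *ᵥ v) = u ⬝ᵥ (M' *ᵥ v)) : M = M' := by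
  ext i j
  have := h (Pi.single i 1) (Pi.single j 1)
  simpa using this

/-- An isometry of the symplectic form gives an element of the symplectic group. -/
theorem mem_symp_of_isometry (g : (Fin m ⊕ Fin m → F) →ₗ[F] (Fin m ⊕ Fin m → F))
    (hg : ∀ u v, Cfsg.sympForm m F (g u) (g v) = Cfsg.sympForm m F u v) :
    LinearMap.toMatrix' g ∈ Matrix.symplecticGroup (Fin m) F := by
  rw [SymplecticGroup.mem_iff']
  apply matrix_eq_of_form
  intro u v
  have h := hg u v
  unfold Cfsg.sympForm at h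
  rw [← LinearMap.toMatrix'_mulVec g u, ← LinearMap.toMatrix'_mulVec g v] at h
  rw [← h, Matrix.mul_assoc, ← Matrix.mulVec_mulVec, ← Matrix.mulVec_mulVec,
    Matrix.dotProduct_mulVec, Matrix.vecMul_transpose]

end Cfsg.Agent.Lib.Helper15.SpInvol
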