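import Mathlib
import Cfsg.Agent.Lib.Helper15.Eigen2

set_option autoImplicit false

namespace Cfsg.Agent.Lib.Helper15

open Module

section SqZero

variable {F : Type*} [Field F] {n : ℕ}

/-- A square-zero matrix of rank `ℓ` has a basis `u, z, w` with `N u_i = w_i`, `N z = 0`,
`N w = 0`. -/
theorem exists_adapted_basis (N : Matrix (Fin n) (Fin n) F) (hN : N * N = 0) (ℓ : ℕ)
    (hℓ : N.rank = ℓ) :
    ∃ B : Basis (Fin ℓ ⊕ (Fin (n - 2 * ℓ) ⊕ Fin ℓ)) F (Fin n → F),
      (∀ i, N.mulVec (B (Sum.inl i)) = B (Sum.inr (Sum.inr i))) ∧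
      (∀ x, N.mulVec (B (Sum.inr x)) = 0) := by
  classical
  set f : (Fin n → F) →ₗ[F] (Fin n → F) := N.mulVecLin with hf
  have hff : ∀ x, f (f x) = 0 := by
    intro x
    simp only [hf, Matrix.mulVecLin_apply, Matrix.mulVec_mulVec, hN, Matrix.zero_mulVec]
  set R := LinearMap.range f with hR
  set K := LinearMap.ker f with hK
  have hRK : R ≤ K := by
    rintro _ ⟨x, rfl⟩
    exact LinearMap.mem_ker.mpr (hff x)
  have hRrank : finrank F R = ℓ := hℓ
  have hdim : finrank F R + finrank F K = n := by
    have := LinearMap.finrank_range_add_finrank_ker f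
    rw [Module.finrank_fin_fun] at this
    exact this
  obtain ⟨Z', hZ'⟩ := exists_isCompl (⟨R, hRK⟩ : Set.Iic K)
  set Z : Submodule F (Fin n → F) := Z'.1 with hZ
  have hZK : Z ≤ K := Z'.2
  have hinf : R ⊓ Z = ⊥ := by
    have := hZ'.inf_eq_bot
    have h2 := congrArg Subtype.val this
    simpa using h2
  have hsup : R ⊔ Z = K := by
    have := hZ'.sup_eq_top
    have h2 := congrArg Subtype.val this
    simpa using h2
  have hfin := Submodule.finrank_sup_add_finrank_inf_eq R Z
  rw [hsup, hinf, finrank_bot, add_zero] at hfin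
  have hZrank : finrank F Z = n - 2 * ℓ := by omega
  have h2l : 2 * ℓ ≤ n := by omega
  let bR : Basis (Fin ℓ) F R := Module.finBasisOfFinrankEq F R hRrank
  let bZ : Basis (Fin (n - 2 * ℓ)) F Z := Module.finBasisOfFinrankEq F Z hZrank
  let w : Fin ℓ → (Fin n → F) := fun i => (bR i : Fin n → F)
  let z : Fin (n - 2 * ℓ) → (Fin n → F) := fun j => (bZ j : Fin n → F)
  have hw_mem : ∀ i, w i ∈ R := fun i => (bR i).2
  choose u hu using fun i => LinearMap.mem_range.mp (hw_mem i)
  have hw_li : LinearIndependent F w :=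
    bR.linearIndependent.map' R.subtype (Submodule.ker_subtype R)
  have hz_li : LinearIndependent F z :=
    bZ.linearIndependent.map' Z.subtype (Submodule.ker_subtype Z)
  have hu_li : LinearIndependent F u := by
    apply LinearIndependent.of_comp f
    have : f ∘ u = w := funext hu
    rw [this]; exact hw_li
  have hspan_w : Submodule.span F (Set.range w) = R := by
    have : Set.range w = R.subtype '' Set.range bR := by rw [← Set.range_comp]; rfl
    rw [this, Submodule.span_image, bR.span_eq, Submodule.map_top, Submodule.range_subtype]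
  have hspan_z : Submodule.span F (Set.range z) = Z := by
    have : Set.range z = Z.subtype '' Set.range bZ := by rw [← Set.range_comp]; rfl
    rw [this, Submodule.span_image, bZ.span_eq, Submodule.map_top, Submodule.range_subtype]
  have hzw_li : LinearIndependent F (Sum.elim z w) := by
    rw [linearIndependent_sum]
    refine ⟨hz_li, hw_li, ?_⟩
    simp only [Sum.elim_comp_inl, Sum.elim_comp_inr]
    rw [hspan_z, hspan_w, disjoint_iff, inf_comm]; exact hinf
  have hspan_zw_le : Submodule.span F (Set.range (Sum.elim z w)) ≤ K := by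
    rw [Submodule.span_le]
    rintro _ ⟨x, rfl⟩
    rcases x with j | i
    · exact hZK (bZ j).2
    · exact hRK (hw_mem i)
  have hB_li : LinearIndependent F (Sum.elim u (Sum.elim z w)) := by
    rw [linearIndependent_sum]
    refine ⟨hu_li, hzw_li, ?_⟩
    simp only [Sum.elim_comp_inl, Sum.elim_comp_inr]
    rw [Submodule.disjoint_def]
    intro x hx1 hx2
    obtain ⟨c, rfl⟩ := (Submodule.mem_span_range_iff_exists_fun F).mp hx1
    have hxK : f (∑ i, c i • u i) = 0 := LinearMap.mem_ker.mp (hspan_zw_le hx2)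
    rw [map_sum] at hxK
    simp only [map_smul, hu] at hxK
    have hc := Fintype.linearIndependent_iff.mp hw_li c hxK
    simp [hc]
  have hcard : Fintype.card (Fin ℓ ⊕ (Fin (n - 2 * ℓ) ⊕ Fin ℓ)) = finrank F (Fin n → F) := by
    simp only [Fintype.card_sum, Fintype.card_fin, Module.finrank_fin_fun]; omega
  refine ⟨basisOfLinearIndependentOfCardEqFinrank' _ hB_li hcard, ?_, ?_⟩
  · intro i
    rw [coe_basisOfLinearIndependentOfCardEqFinrank']
    exact hu i
  · intro x
    rw [coe_basisOfLinearIndependentOfCardEqFinrank']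
    rcases x with j | i
    · exact LinearMap.mem_ker.mp (hZK (bZ j).2)
    · exact LinearMap.mem_ker.mp (hRK (hw_mem i))

/-- Two matrices agreeing on a basis (as maps on vectors) are equal. -/
theorem matrix_ext_basis {κ : Type*} (B : Basis κ F (Fin n → F)) (M M' : Matrix (Fin n) (Fin n) F)
    (h : ∀ k, M.mulVec (B k) = M'.mulVec (B k)) : M = M' := by
  have : Matrix.toLin' M = Matrix.toLin' M' := by
    apply B.ext
    intro k
    rw [Matrix.toLin'_apply, Matrix.toLin'_apply, h k]
  exact Matrix.toLin'.injective this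

theorem sub_one_sq_of_sq_eq_one [CharP F 2] (A : Matrix (Fin n) (Fin n) F) (hA : A * A = 1) :
    (A - 1) * (A - 1) = 0 := by
  have h : (A - 1) * (A - 1) = A * A - (2 : F) • A + 1 := by
    rw [two_smul]; noncomm_ring
  rw [h, hA, CharTwo.two_eq_zero, zero_smul, sub_zero]
  have : (1 : Matrix (Fin n) (Fin n) F) + 1 = (2 : F) • (1 : Matrix (Fin n) (Fin n) F) := by
    rw [two_smul]
  rw [this, CharTwo.two_eq_zero, zero_smul]

/-- Conjugacy of involutions of `SL_n` over a finite field of characteristic two. -/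
theorem SL_involution_conj [Fintype F] [CharP F 2] (a b : Matrix.SpecialLinearGroup (Fin n) F)
    (ha : orderOf a = 2) (hb : orderOf b = 2) :
    IsConj a b ↔ ((a : Matrix (Fin n) (Fin n) F) - 1).rank
      = ((b : Matrix (Fin n) (Fin n) F) - 1).rank := by
  classical
  constructor
  · intro h
    obtain ⟨c, hc⟩ := isConj_iff.mp h
    have hcc : (c : Matrix (Fin n) (Fin n) F) * ((c⁻¹ : Matrix.SpecialLinearGroup (Fin n) F) :
        Matrix (Fin n) (Fin n) F) = 1 := by
      rw [← Matrix.SpecialLinearGroup.coe_mul, mul_inv_cancel, Matrix.SpecialLinearGroup.coe_one]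
    have hmat : (b : Matrix (Fin n) (Fin n) F) - 1 = (c : Matrix (Fin n) (Fin n) F)
        * ((a : Matrix (Fin n) (Fin n) F) - 1)
        * ((c⁻¹ : Matrix.SpecialLinearGroup (Fin n) F) : Matrix (Fin n) (Fin n) F) := by
      rw [← hc, Matrix.SpecialLinearGroup.coe_mul, Matrix.SpecialLinearGroup.coe_mul, mul_sub,
        sub_mul, mul_one, hcc]
    have hd1 : IsUnit (c : Matrix (Fin n) (Fin n) F).det := by
      rw [c.det_coe]; exact isUnit_one
    have hd2 : IsUnit ((c⁻¹ : Matrix.SpecialLinearGroup (Fin n) F) :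
        Matrix (Fin n) (Fin n) F).det := by
      rw [(c⁻¹).det_coe]; exact isUnit_one
    rw [hmat, Matrix.rank_mul_eq_left_of_isUnit_det _ _ hd2,
      Matrix.rank_mul_eq_right_of_isUnit_det _ _ hd1]
  · intro hrank
    have hA2 : (a : Matrix (Fin n) (Fin n) F) * (a : Matrix (Fin n) (Fin n) F) = 1 := by
      have h := pow_orderOf_eq_one a
      rw [ha, pow_two] at h
      rw [← Matrix.SpecialLinearGroup.coe_mul, h, Matrix.SpecialLinearGroup.coe_one]
    have hB2 : (b : Matrix (Fin n) (Fin n) F) * (b : Matrix (Fin n) (Fin n) F) = 1 := by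
      have h := pow_orderOf_eq_one b
      rw [hb, pow_two] at h
      rw [← Matrix.SpecialLinearGroup.coe_mul, h, Matrix.SpecialLinearGroup.coe_one]
    have hNa := sub_one_sq_of_sq_eq_one _ hA2
    have hNb := sub_one_sq_of_sq_eq_one _ hB2
    obtain ⟨ℓ, hℓ⟩ : ∃ ℓ, ((a : Matrix (Fin n) (Fin n) F) - 1).rank = ℓ := ⟨_, rfl⟩
    obtain ⟨Ba, hBa1, hBa2⟩ := exists_adapted_basis _ hNa ℓ hℓ
    obtain ⟨Bb, hBb1, hBb2⟩ := exists_adapted_basis _ hNb ℓ (hrank.symm.trans hℓ)
    have hℓpos : 0 < ℓ := by
      by_contra hcon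
      have h0 : ℓ = 0 := by omega
      have hz : (a : Matrix (Fin n) (Fin n) F) - 1 = 0 := by
        apply matrix_ext_basis Ba
        intro k
        rw [Matrix.zero_mulVec]
        rcases k with i | x
        · exact absurd i.2 (by omega)
        · exact hBa2 x
      have ha1 : a = 1 := by
        apply Subtype.ext
        rw [Matrix.SpecialLinearGroup.coe_one]
        exact sub_eq_zero.mp hz
      rw [ha1, orderOf_one] at ha
      omega
    -- the linear equivalence carrying one basis to the other
    let φ : (Fin n → F) ≃ₗ[F] (Fin n → F) := Ba.equiv Bb (Equiv.refl _)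
    let G : Matrix (Fin n) (Fin n) F := LinearMap.toMatrix' (φ : (Fin n → F) →ₗ[F] (Fin n → F))
    have hG : ∀ v, G.mulVec v = φ v := by
      intro v
      rw [← Matrix.toLin'_apply, Matrix.toLin'_toMatrix']; rfl
    have hGB : ∀ k, G.mulVec (Ba k) = Bb k := by
      intro k
      rw [hG, Basis.equiv_apply]; rfl
    have hGN : G * ((a : Matrix (Fin n) (Fin n) F) - 1)
        = ((b : Matrix (Fin n) (Fin n) F) - 1) * G := by
      apply matrix_ext_basis Ba
      intro k
      rw [← Matrix.mulVec_mulVec, ← Matrix.mulVec_mulVec, hGB]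
      rcases k with i | x
      · rw [hBa1, hBb1, hGB]
      · rw [hBa2, hBb2, Matrix.mulVec_zero]
    have hGA : G * (a : Matrix (Fin n) (Fin n) F) = (b : Matrix (Fin n) (Fin n) F) * G := by
      have := hGN
      rw [mul_sub, sub_mul, mul_one, one_mul] at this
      exact sub_left_injective this
    have hGdet : IsUnit G.det := by
      rw [LinearMap.det_toMatrix']
      exact LinearEquiv.isUnit_det' φ
    obtain ⟨ν, hν⟩ := FiniteField.isSquare_of_char_two (ringChar.eq F 2) (G.det)⁻¹
    let i₀ : Fin ℓ := ⟨0, hℓpos⟩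
    let d : Fin ℓ ⊕ (Fin (n - 2 * ℓ) ⊕ Fin ℓ) → F := fun k =>
      (if k = Sum.inl i₀ then ν else 1) * (if k = Sum.inr (Sum.inr i₀) then ν else 1)
    let c : (Fin n → F) →ₗ[F] (Fin n → F) := Ba.constr F (fun k => d k • Ba k)
    let C : Matrix (Fin n) (Fin n) F := LinearMap.toMatrix' c
    have hC : ∀ k, C.mulVec (Ba k) = d k • Ba k := by
      intro k
      rw [← Matrix.toLin'_apply, Matrix.toLin'_toMatrix', Basis.constr_basis]
    have hCdet : C.det = ν * ν := by
      rw [det_of_diag_basis Ba C d hC, Finset.prod_mul_distrib,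
        Finset.prod_ite_eq' Finset.univ (Sum.inl i₀) (fun _ => ν),
        Finset.prod_ite_eq' Finset.univ (Sum.inr (Sum.inr i₀)) (fun _ => ν)]
      simp
    have hCN : C * ((a : Matrix (Fin n) (Fin n) F) - 1)
        = ((a : Matrix (Fin n) (Fin n) F) - 1) * C := by
      apply matrix_ext_basis Ba
      intro k
      rw [← Matrix.mulVec_mulVec, ← Matrix.mulVec_mulVec, hC]
      rcases k with i | x
      · rw [hBa1, hC, Matrix.mulVec_smul, hBa1]
        congr 1
        simp only [d]
        by_cases hi : i = i₀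
        · subst hi; simp
        · simp [hi]
      · rw [hBa2, Matrix.mulVec_zero, Matrix.mulVec_smul, hBa2, smul_zero]
    have hCA : C * (a : Matrix (Fin n) (Fin n) F) = (a : Matrix (Fin n) (Fin n) F) * C := by
      have := hCN
      rw [mul_sub, sub_mul, mul_one, one_mul] at this
      exact sub_left_injective this
    have hHdet : (G * C).det = 1 := by
      rw [Matrix.det_mul, hCdet, ← hν]
      exact mul_inv_cancel₀ hGdet.ne_zero
    let h : Matrix.SpecialLinearGroup (Fin n) F := ⟨G * C, hHdet⟩
    have hha : h * a = b * h := by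
      apply Subtype.ext
      show G * C * (a : Matrix (Fin n) (Fin n) F) = (b : Matrix (Fin n) (Fin n) F) * (G * C)
      rw [mul_assoc, hCA, ← mul_assoc, hGA, mul_assoc]
    rw [isConj_iff]
    exact ⟨h, by rw [hha, mul_inv_cancel_right]⟩

end SqZero

end Cfsg.Agent.Lib.Helper15
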