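import Cfsg.Agent.Lib.Helper15.SzG2

set_option autoImplicit false

namespace Cfsg.Agent.Lib.Helper15
namespace SzG

open Matrix
open Cfsg.Agent.Lib.Helper4.Suz
open scoped Pointwise

/-- A split rank one configuration gives a doubly transitive action on the cosets of `B` on
which `U` is regular away from the base point. -/
theorem rank1 {X : Type*} [Group X] (U B : Subgroup X) (w : X) (hUB : U ≤ B)
    (hcases : ∀ g : X, g ∉ B → ∃ u ∈ U, ∃ b ∈ B, g = u * w * b)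
    (hreg : ∀ u ∈ U, w⁻¹ * u * w ∈ B → u = 1) :
    MulAction.IsMultiplyPretransitive X (X ⧸ B) 2 ∧
    ∀ x y : X ⧸ B, x ≠ QuotientGroup.mk 1 → y ≠ QuotientGroup.mk 1 →
      ∃! s : U, (s : X) • x = y := by
  have hne : ∀ g : X, (QuotientGroup.mk g : X ⧸ B) ≠ QuotientGroup.mk 1 → g ∉ B := by
    intro g hg hgB
    apply hg
    rw [QuotientGroup.eq]
    simpa using B.inv_mem hgB
  constructor
  · rw [MulAction.is_two_pretransitive_iff]
    intro a b c d hab hcd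
    induction a using QuotientGroup.induction_on with | _ x => ?_
    induction b using QuotientGroup.induction_on with | _ y => ?_
    induction c using QuotientGroup.induction_on with | _ x' => ?_
    induction d using QuotientGroup.induction_on with | _ y' => ?_
    have h1 : x⁻¹ * y ∉ B := fun h => hab (QuotientGroup.eq.2 h)
    have h2 : x'⁻¹ * y' ∉ B := fun h => hcd (QuotientGroup.eq.2 h)
    obtain ⟨u, hu, b₁, hb₁, e1⟩ := hcases _ h1
    obtain ⟨u', hu', b₁', hb₁', e2⟩ := hcases _ h2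
    refine ⟨x' * u' * u⁻¹ * x⁻¹, ?_, ?_⟩
    · rw [MulAction.Quotient.smul_mk, smul_eq_mul, QuotientGroup.eq]
      have : (x' * u' * u⁻¹ * x⁻¹ * x)⁻¹ * x' = u * u'⁻¹ := by group
      rw [this]
      exact B.mul_mem (hUB hu) (B.inv_mem (hUB hu'))
    · rw [MulAction.Quotient.smul_mk, smul_eq_mul, QuotientGroup.eq]
      have hy : y = x * (u * w * b₁) := by rw [← e1]; group
      have hy' : y' = x' * (u' * w * b₁') := by rw [← e2]; group
      have : (x' * u' * u⁻¹ * x⁻¹ * y)⁻¹ * y' = b₁⁻¹ * b₁' := by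
        rw [hy, hy']
        group
      rw [this]
      exact B.mul_mem (B.inv_mem hb₁) hb₁'
  · intro x y hx hy
    induction x using QuotientGroup.induction_on with | _ gx => ?_
    induction y using QuotientGroup.induction_on with | _ gy => ?_
    obtain ⟨u₁, hu₁, b₁, hb₁, e1⟩ := hcases _ (hne gx hx)
    obtain ⟨u₂, hu₂, b₂, hb₂, e2⟩ := hcases _ (hne gy hy)
    refine ⟨⟨u₂ * u₁⁻¹, U.mul_mem hu₂ (U.inv_mem hu₁)⟩, ?_, ?_⟩
    · show (u₂ * u₁⁻¹) • (QuotientGroup.mk gx : X ⧸ B) = QuotientGroup.mk gy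
      rw [MulAction.Quotient.smul_mk, smul_eq_mul, QuotientGroup.eq, e1, e2]
      have : (u₂ * u₁⁻¹ * (u₁ * w * b₁))⁻¹ * (u₂ * w * b₂) = b₁⁻¹ * b₂ := by group
      rw [this]
      exact B.mul_mem (B.inv_mem hb₁) hb₂
    · rintro ⟨s, hs⟩ hsy
      have hsy' : s • (QuotientGroup.mk gx : X ⧸ B) = QuotientGroup.mk gy := hsy
      rw [MulAction.Quotient.smul_mk, smul_eq_mul, QuotientGroup.eq, e1, e2] at hsy'
      have h3 : w⁻¹ * (u₁⁻¹ * s⁻¹ * u₂) * w ∈ B := by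
        have : w⁻¹ * (u₁⁻¹ * s⁻¹ * u₂) * w =
            b₁ * ((s * (u₁ * w * b₁))⁻¹ * (u₂ * w * b₂)) * b₂⁻¹ := by group
        rw [this]
        exact B.mul_mem (B.mul_mem hb₁ hsy') (B.inv_mem hb₂)
      have h4 := hreg _ (U.mul_mem (U.mul_mem (U.inv_mem hu₁) (U.inv_mem hs)) hu₂) h3
      apply Subtype.ext
      show s = u₂ * u₁⁻¹
      have : s = u₂ * (u₁⁻¹ * s⁻¹ * u₂)⁻¹ * u₁⁻¹ := by group
      rw [this, h4]
      group

theorem exists_sylow_of_card {X : Type*} [Group X] [Finite X] (n : ℕ) (U : Subgroup X)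
    (hX : Nat.card X = ((2 ^ (n + 1)) ^ 2 + 1) * ((2 ^ (n + 1)) ^ 2 * (2 ^ (n + 1) - 1)))
    (hU : Nat.card U = (2 ^ (n + 1)) ^ 2) : ∃ S : Sylow 2 X, (S : Subgroup X) = U := by
  have hp : IsPGroup 2 U := by
    apply IsPGroup.of_card (n := 2 * (n + 1))
    rw [hU, ← pow_mul]
    congr 1
    ring
  obtain ⟨Q, hQ⟩ := hp.exists_le_sylow
  have hQc : Nat.card (Q : Subgroup X) ≤ (2 ^ (n + 1)) ^ 2 := by
    obtain ⟨j, hj⟩ := IsPGroup.iff_card.1 Q.isPGroup'
    have hdvd : Nat.card (Q : Subgroup X) ∣ Nat.card X := Subgroup.card_subgroup_dvd_card _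
    rw [hj, hX] at hdvd
    have hodd1 : Odd ((2 ^ (n + 1)) ^ 2 + 1) := ⟨2 * (2 ^ n) ^ 2, by ring⟩
    have hodd2 : Odd (2 ^ (n + 1) - 1) := by
      have h1 : 1 ≤ 2 ^ n := Nat.one_le_two_pow
      refine ⟨2 ^ n - 1, ?_⟩
      rw [pow_succ]
      omega
    have c1 : Nat.Coprime (2 ^ j) ((2 ^ (n + 1)) ^ 2 + 1) :=
      Nat.Coprime.pow_left j (Nat.coprime_two_left.2 hodd1)
    have c2 : Nat.Coprime (2 ^ j) (2 ^ (n + 1) - 1) :=
      Nat.Coprime.pow_left j (Nat.coprime_two_left.2 hodd2)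
    have d1 := c1.dvd_of_dvd_mul_left hdvd
    have d2 := c2.dvd_of_dvd_mul_right d1
    rw [hj]
    exact Nat.le_of_dvd (by positivity) d2
  exact ⟨Q, (Subgroup.eq_of_le_of_card_ge hQ (by rw [hU]; exact hQc)).symm⟩

variable {F : Type*} [Field F] [Finite F] (D : Dat F)

omit [Finite F] in
theorem gB_eq_stab : gB D = MulAction.stabilizer D.G (inf F) := by
  ext g
  rfl

theorem cases_not_gB (hI : D.Indep) (g : D.G) (hg : g ∉ gB D) :
    ∃ u ∈ gU D hI, ∃ b ∈ gB D, g = u * gw D * b := by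
  rcases cases D hI g with ⟨a, b, k, rfl⟩ | ⟨a, b, c, d, k, rfl⟩
  · exact absurd ((mem_gB D hI).2 ⟨a, b, k, rfl⟩) hg
  · exact ⟨gu D a b, ⟨a, b, rfl⟩, gu D c d * gh D k, (mem_gB D hI).2 ⟨c, d, k, rfl⟩,
      by simp only [mul_assoc]⟩

theorem reg_gU (hI : D.Indep) (u : D.G) (hu : u ∈ gU D hI)
    (h : (gw D)⁻¹ * u * gw D ∈ gB D) : u = 1 := by
  obtain ⟨a, b, rfl⟩ := hu
  have h1 : ((gw D)⁻¹ * gu D a b * gw D).1 • inf F = inf F := h
  have h2 : (w F)⁻¹ • (D.u a b • (w F • inf F)) = inf F := by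
    rw [← mul_smul, ← mul_smul]
    exact h1
  rw [D.w_inf, D.u_zero, inv_smul_eq_iff, D.w_inf] at h2
  obtain ⟨rfl, rfl⟩ := D.pt_inj h2
  exact gu_zero D hI

/-- The structure of a group isomorphic to the group of the ovoid. -/
theorem structure_of_equiv [Fintype F] (hI : D.Indep) (n : ℕ) (hq : Fintype.card F = 2 ^ (n + 1))
    {X : Type*} [Group X] (φ : D.G ≃* X) :
    Nat.card X = ((2 ^ (n + 1)) ^ 2 + 1) * ((2 ^ (n + 1)) ^ 2 * (2 ^ (n + 1) - 1)) ∧
    ∃ S : Sylow 2 X,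
      Nat.card (Subgroup.normalizer ((S : Subgroup X) : Set X)) =
        (2 ^ (n + 1)) ^ 2 * (2 ^ (n + 1) - 1) ∧
      (Subgroup.normalizer ((S : Subgroup X) : Set X)).index = (2 ^ (n + 1)) ^ 2 + 1 ∧
      MulAction.IsMultiplyPretransitive X (X ⧸ Subgroup.normalizer ((S : Subgroup X) : Set X)) 2 ∧
      ∀ x y : X ⧸ Subgroup.normalizer ((S : Subgroup X) : Set X),
        x ≠ QuotientGroup.mk 1 → y ≠ QuotientGroup.mk 1 →
          ∃! s : ↥(S : Subgroup X), (s : X) • x = y := by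
  have hfin : Finite X := Finite.of_equiv _ φ.toEquiv
  have hX : Nat.card X = ((2 ^ (n + 1)) ^ 2 + 1) * ((2 ^ (n + 1)) ^ 2 * (2 ^ (n + 1) - 1)) := by
    rw [← Nat.card_congr φ.toEquiv, D.card_G hI, hq]
  refine ⟨hX, ?_⟩
  have hU : Nat.card ((gU D hI).map φ.toMonoidHom) = (2 ^ (n + 1)) ^ 2 := by
    rw [Subgroup.card_map_of_injective φ.injective, card_gU, Nat.card_eq_fintype_card, hq]
  obtain ⟨S, hS⟩ := exists_sylow_of_card n _ hX hU
  have hN : Subgroup.normalizer ((S : Subgroup X) : Set X) = (gB D).map φ.toMonoidHom := by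
    rw [hS, ← normalizer_gU D hI]
    exact (Subgroup.map_equiv_normalizer_eq (gU D hI) φ).symm
  have hcB : Nat.card ((gB D).map φ.toMonoidHom) = (2 ^ (n + 1)) ^ 2 * (2 ^ (n + 1) - 1) := by
    rw [Subgroup.card_map_of_injective φ.injective, gB_eq_stab, D.card_stab_inf hI, hq]
  have hUB : (S : Subgroup X) ≤ Subgroup.normalizer ((S : Subgroup X) : Set X) :=
    Subgroup.le_normalizer
  have hcases : ∀ g : X, g ∉ Subgroup.normalizer ((S : Subgroup X) : Set X) →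
      ∃ u ∈ (S : Subgroup X), ∃ b ∈ Subgroup.normalizer ((S : Subgroup X) : Set X),
        g = u * φ (gw D) * b := by
    rw [hN, hS]
    intro g hg
    have hg' : φ.symm g ∉ gB D := by
      intro h
      exact hg ⟨φ.symm g, h, by simp⟩
    obtain ⟨u, hu, b, hb, e⟩ := cases_not_gB D hI _ hg'
    refine ⟨φ u, ⟨u, hu, rfl⟩, φ b, ⟨b, hb, rfl⟩, ?_⟩
    rw [← map_mul, ← map_mul, ← e]
    simp
  have hreg : ∀ u ∈ (S : Subgroup X),
      (φ (gw D))⁻¹ * u * φ (gw D) ∈ Subgroup.normalizer ((S : Subgroup X) : Set X) → u = 1 := by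
    rw [hN, hS]
    rintro _ ⟨u, hu, rfl⟩ ⟨b, hb, e⟩
    have e' : φ b = φ ((gw D)⁻¹ * u * gw D) := by
      rw [map_mul, map_mul, map_inv]
      exact e
    have e'' := φ.injective e'
    rw [e''] at hb
    have h1 := reg_gU D hI u hu hb
    show φ u = 1
    rw [h1, map_one]
  obtain ⟨h2t, hregular⟩ := rank1 (S : Subgroup X) _ (φ (gw D)) hUB hcases hreg
  refine ⟨S, ?_, ?_, h2t, hregular⟩
  · rw [hN, hcB]
  · have h3 := Subgroup.card_mul_index (Subgroup.normalizer ((S : Subgroup X) : Set X))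
    rw [hN, hcB, hX] at h3
    rw [hN]
    have hpos : 0 < (2 ^ (n + 1)) ^ 2 * (2 ^ (n + 1) - 1) := by
      have h1 : 1 ≤ 2 ^ n := Nat.one_le_two_pow
      have h2 : 2 ^ (n + 1) = 2 * 2 ^ n := by rw [pow_succ]; ring
      apply Nat.mul_pos (by positivity)
      omega
    rw [mul_comm] at h3
    exact Nat.eq_of_mul_eq_mul_right hpos h3

end SzG
end Cfsg.Agent.Lib.Helper15
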