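import Mathlib

set_option autoImplicit false

namespace Cfsg.Agent.Lib.Helper15
namespace SzRep

open Module

section clifford

variable {A : Type*} [AddCommGroup A] [Finite A] {W : Type*} [AddCommGroup W] [Module ℂ W]
  [FiniteDimensional ℂ W]

/-- The radical of a sign pairing on a subgroup. -/
def rad (ε : A → A → ℂ) (S : AddSubgroup A) : Set A := {a | a ∈ S ∧ ∀ b ∈ S, ε a b = 1}

omit [Finite A] in
theorem eps_zero (ε : A → A → ℂ) (hε : ∀ a b, ε a b = 1 ∨ ε a b = -1)
    (hadd : ∀ a b c, ε (a + b) c = ε a c * ε b c) (c : A) : ε 0 c = 1 := by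
  have h := hadd 0 0 c
  rw [add_zero] at h
  rcases hε 0 c with h1 | h1
  · exact h1
  · rw [h1] at h
    norm_num at h

omit [FiniteDimensional ℂ W] in
theorem finrank_map_inj (f : W →ₗ[ℂ] W) (hf : Function.Injective f) (p : Submodule ℂ W) :
    finrank ℂ (p.map f) = finrank ℂ p :=
  (LinearEquiv.finrank_eq (Submodule.equivMapOfInjective f hf p)).symm

/-- A family of injective operators commuting up to the signs of an alternating pairing acts on
an invariant nonzero subspace of dimension at least the square root of the index of the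
radical. -/
theorem clifford_bound (T : A → Module.End ℂ W) (hT : ∀ a, Function.Injective (T a))
    (ε : A → A → ℂ) (hε : ∀ a b, ε a b = 1 ∨ ε a b = -1)
    (hadd : ∀ a b c, ε (a + b) c = ε a c * ε b c) (hsymm : ∀ a b, ε a b = ε b a)
    (halt : ∀ a, ε a a = 1) (W₀ : Submodule ℂ W)
    (hcomm : ∀ a b, ∀ v ∈ W₀, T a (T b v) = ε a b • T b (T a v)) :
    ∀ (n : ℕ) (S : AddSubgroup A), Nat.card S ≤ n → ∀ (W' : Submodule ℂ W), W' ≤ W₀ → W' ≠ ⊥ →
      (∀ a ∈ S, ∀ v ∈ W', T a v ∈ W') →
      Nat.card S ≤ (finrank ℂ W') ^ 2 * (rad ε S).ncard := by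
  intro n
  induction n with
  | zero =>
    intro S hS
    have : 0 < Nat.card S := Nat.card_pos
    omega
  | succ n ih =>
    intro S hS W' hW0 hW' hinv
    have hnt : Nontrivial W' := (Submodule.nontrivial_iff_ne_bot).2 hW'
    have hd1 : 1 ≤ finrank ℂ W' := Module.finrank_pos
    by_cases hrad : ∀ a ∈ S, ∀ b ∈ S, ε a b = 1
    · have hradS : rad ε S = (S : Set A) := by
        ext a
        exact ⟨fun h => h.1, fun h => ⟨h, hrad a h⟩⟩
      rw [hradS]
      have h1 : Nat.card S = (S : Set A).ncard := Nat.card_coe_set_eq (S : Set A)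
      rw [← h1]
      have : 1 ≤ finrank ℂ W' ^ 2 := Nat.one_le_pow _ _ hd1
      calc Nat.card S = 1 * Nat.card S := (one_mul _).symm
        _ ≤ finrank ℂ W' ^ 2 * Nat.card S := Nat.mul_le_mul_right _ this
    · push Not at hrad
      obtain ⟨a, ha, a', ha', hne⟩ := hrad
      have haa' : ε a a' = -1 := (hε a a').resolve_left hne
      have ha'a : ε a' a = -1 := by rw [hsymm]; exact haa'
      have h0 := eps_zero ε hε hadd
      have h11 : (1 : ℂ) ≠ -1 := by norm_num
      let S' : AddSubgroup A :=
        { carrier := {s | s ∈ S ∧ ε s a = 1 ∧ ε s a' = 1}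
          add_mem' := by
            rintro x y ⟨hx, hx1, hx2⟩ ⟨hy, hy1, hy2⟩
            exact ⟨S.add_mem hx hy, by rw [hadd, hx1, hy1, one_mul],
              by rw [hadd, hx2, hy2, one_mul]⟩
          zero_mem' := ⟨S.zero_mem, h0 a, h0 a'⟩
          neg_mem' := by
            rintro x ⟨hx, hx1, hx2⟩
            refine ⟨S.neg_mem hx, ?_, ?_⟩
            · have := hadd (-x) x a
              rw [neg_add_cancel, h0, hx1, mul_one] at this
              exact this.symm
            · have := hadd (-x) x a'
              rw [neg_add_cancel, h0, hx2, mul_one] at this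
              exact this.symm }
      have hS'S : S' ≤ S := fun s hs => hs.1
      let π : A → A := fun s =>
        s + (if ε s a = -1 then a' else 0) + (if ε s a' = -1 then a else 0)
      have hπdef : ∀ s, π s =
          s + (if ε s a = -1 then a' else 0) + (if ε s a' = -1 then a else 0) := fun s => rfl
      have hπ : ∀ s ∈ S, π s ∈ S' := by
        intro s hs
        refine ⟨?_, ?_, ?_⟩
        · rw [hπdef]
          apply S.add_mem (S.add_mem hs ?_) ?_
          · split_ifs
            · exact ha'
            · exact S.zero_mem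
          · split_ifs
            · exact ha
            · exact S.zero_mem
        · rw [hπdef, hadd, hadd]
          rcases hε s a with h1 | h1 <;> rcases hε s a' with h2 | h2 <;>
            simp [h1, h2, ha'a, halt, h0, h11]
        · rw [hπdef, hadd, hadd]
          rcases hε s a with h1 | h1 <;> rcases hε s a' with h2 | h2 <;>
            simp [h1, h2, haa', halt, h0, h11]
      have hcard4 : Nat.card S ≤ Nat.card S' * 4 := by
        classical
        let f : S → S' × Bool × Bool := fun s =>
          (⟨π s.1, hπ s.1 s.2⟩, decide (ε s.1 a = -1), decide (ε s.1 a' = -1))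
        have hf : Function.Injective f := by
          intro s t hst
          have e1 : π s.1 = π t.1 := congrArg (fun x => (x.1 : A)) hst
          have e2 : decide (ε s.1 a = -1) = decide (ε t.1 a = -1) :=
            congrArg (fun x => x.2.1) hst
          have e3 : decide (ε s.1 a' = -1) = decide (ε t.1 a' = -1) :=
            congrArg (fun x => x.2.2) hst
          have e2' : (ε s.1 a = -1) ↔ (ε t.1 a = -1) := by simpa using e2
          have e3' : (ε s.1 a' = -1) ↔ (ε t.1 a' = -1) := by simpa using e3
          have hx : (if ε s.1 a = -1 then a' else 0) = (if ε t.1 a = -1 then a' else 0) :=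
            if_congr e2' rfl rfl
          have hy : (if ε s.1 a' = -1 then a else 0) = (if ε t.1 a' = -1 then a else 0) :=
            if_congr e3' rfl rfl
          rw [hπdef, hπdef, hx, hy] at e1
          exact Subtype.ext (add_right_cancel (add_right_cancel e1))
        have h1 := Nat.card_le_card_of_injective f hf
        rw [Nat.card_prod, Nat.card_prod, Nat.card_eq_fintype_card (α := Bool),
          Fintype.card_bool] at h1
        omega
      have hlt : Nat.card S' < Nat.card S := by
        have h1 : Nat.card S' = (S' : Set A).ncard := Nat.card_coe_set_eq (S' : Set A)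
        have h2 : Nat.card S = (S : Set A).ncard := Nat.card_coe_set_eq (S : Set A)
        rw [h1, h2]
        apply Set.ncard_lt_ncard _ (Set.toFinite _)
        refine ⟨hS'S, fun h => ?_⟩
        have h3 : a ∈ S' := h ha
        exact hne h3.2.2
      obtain ⟨μ, hμ⟩ := Module.End.exists_eigenvalue ((T a).restrict (hinv a ha))
      obtain ⟨v, hv⟩ := hμ.exists_hasEigenvector
      have hv1 : T a v.1 = μ • v.1 := congrArg Subtype.val hv.apply_eq_smul
      have hv0 : v.1 ≠ 0 := fun h => hv.2 (Subtype.ext h)
      have hμ0 : μ ≠ 0 := by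
        rintro rfl
        rw [zero_smul] at hv1
        exact hv0 (hT a (by rw [hv1, map_zero]))
      let Ep : Submodule ℂ W := W' ⊓ Module.End.eigenspace (T a) μ
      let Em : Submodule ℂ W := W' ⊓ Module.End.eigenspace (T a) (-μ)
      have hEp : Ep ≠ ⊥ := by
        intro h
        have h1 : v.1 ∈ Ep := ⟨v.2, Module.End.mem_eigenspace_iff.2 hv1⟩
        rw [h] at h1
        exact hv0 ((Submodule.mem_bot ℂ).1 h1)
      have hmap : Ep.map (T a') ≤ Em := by
        rintro _ ⟨x, ⟨hx1, hx2⟩, rfl⟩
        refine ⟨hinv a' ha' x hx1, ?_⟩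
        have hx2' : T a x = μ • x := Module.End.mem_eigenspace_iff.1 hx2
        apply Module.End.mem_eigenspace_iff.2
        rw [hcomm a a' x (hW0 hx1), haa', hx2', map_smul]
        simp
      have hdisj : Ep ⊓ Em = ⊥ := by
        rw [eq_bot_iff]
        rintro x ⟨⟨-, hx1⟩, ⟨-, hx2⟩⟩
        have hx1' : T a x = μ • x := Module.End.mem_eigenspace_iff.1 hx1
        have hx2' : T a x = (-μ) • x := Module.End.mem_eigenspace_iff.1 hx2
        have h1 : (2 * μ) • x = 0 := by
          have h2 : μ • x = (-μ) • x := hx1'.symm.trans hx2'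
          have h3 : (2 * μ) • x = μ • x - (-μ) • x := by
            rw [← sub_smul]
            congr 1
            ring
          rw [h3, ← h2, sub_self]
        rcases smul_eq_zero.1 h1 with h | h
        · exfalso
          exact hμ0 (by simpa using h)
        · exact (Submodule.mem_bot ℂ).2 h
      have hle : finrank ℂ Ep ≤ finrank ℂ Em := by
        rw [← finrank_map_inj (T a') (hT a') Ep]
        exact Submodule.finrank_mono hmap
      have hsum : finrank ℂ Ep + finrank ℂ Em ≤ finrank ℂ W' := by
        have h1 := Submodule.finrank_sup_add_finrank_inf_eq Ep Em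
        rw [hdisj, finrank_bot, add_zero] at h1
        rw [← h1]
        exact Submodule.finrank_mono (sup_le inf_le_left inf_le_left)
      have hinv' : ∀ s ∈ S', ∀ x ∈ Ep, T s x ∈ Ep := by
        rintro s ⟨hs, hs1, hs2⟩ x ⟨hx1, hx2⟩
        refine ⟨hinv s hs x hx1, ?_⟩
        have hx2' : T a x = μ • x := Module.End.mem_eigenspace_iff.1 hx2
        apply Module.End.mem_eigenspace_iff.2
        rw [hcomm a s x (hW0 hx1), hsymm, hs1, hx2', map_smul, one_smul]
      have ih' := ih S' (by omega) Ep (le_trans inf_le_left hW0) hEp hinv'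
      have hradsub : rad ε S' ⊆ rad ε S := by
        rintro r ⟨⟨hr, hr1, hr2⟩, hr3⟩
        refine ⟨hr, fun x hx => ?_⟩
        have h1 := hr3 (π x) (hπ x hx)
        rw [hsymm, hπdef, hadd, hadd] at h1
        have e1 : ε (if ε x a = -1 then a' else 0) r = 1 := by
          split_ifs
          · rw [hsymm]; exact hr2
          · exact h0 r
        have e2 : ε (if ε x a' = -1 then a else 0) r = 1 := by
          split_ifs
          · rw [hsymm]; exact hr1
          · exact h0 r
        rw [e1, e2, mul_one, mul_one] at h1
        rw [hsymm]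
        exact h1
      have hradle : (rad ε S').ncard ≤ (rad ε S).ncard :=
        Set.ncard_le_ncard hradsub (Set.toFinite _)
      have h2 : 2 * finrank ℂ Ep ≤ finrank ℂ W' := by omega
      have h3 : (2 * finrank ℂ Ep) ^ 2 ≤ finrank ℂ W' ^ 2 := Nat.pow_le_pow_left h2 2
      calc Nat.card S ≤ Nat.card S' * 4 := hcard4
        _ ≤ (finrank ℂ Ep ^ 2 * (rad ε S').ncard) * 4 := Nat.mul_le_mul_right _ ih'
        _ = (2 * finrank ℂ Ep) ^ 2 * (rad ε S').ncard := by ring
        _ ≤ finrank ℂ W' ^ 2 * (rad ε S).ncard := Nat.mul_le_mul h3 hradle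

end clifford

end SzRep
end Cfsg.Agent.Lib.Helper15
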