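import Cfsg.Agent.Lib.Helper15.SzRep1

set_option autoImplicit false

namespace Cfsg.Agent.Lib.Helper15
namespace SzRep

open Module

section proj

variable {F : Type*} [Field F] [Fintype F] {V : Type*} [AddCommGroup V] [Module ℂ V]

/-- The isotypic projections of a family of commuting involutions indexed by the additive group
of a finite field of characteristic two. -/
noncomputable def proj (ψ : AddChar F ℂ) (T : F → Module.End ℂ V) (c : F) : Module.End ℂ V :=
  ((Fintype.card F : ℂ)⁻¹) • ∑ b, ψ (c * b) • T b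

variable (ψ : AddChar F ℂ) (T : F → Module.End ℂ V)

omit [Fintype F] in
theorem psi_sq (h2 : ∀ x : F, x + x = 0) (x : F) : ψ x * ψ x = 1 := by
  rw [← AddChar.map_add_eq_mul, h2, AddChar.map_zero_eq_one]

omit [Fintype F] in
theorem psi_pm (h2 : ∀ x : F, x + x = 0) (x : F) : ψ x = 1 ∨ ψ x = -1 := by
  have h := psi_sq ψ h2 x
  have h1 : (ψ x - 1) * (ψ x + 1) = 0 := by linear_combination h
  rcases mul_eq_zero.1 h1 with h3 | h3
  · exact Or.inl (by linear_combination h3)
  · exact Or.inr (by linear_combination h3)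

theorem card_ne_zero : (Fintype.card F : ℂ) ≠ 0 := by
  have : 0 < Fintype.card F := Fintype.card_pos
  exact_mod_cast this.ne'

theorem T_mul_proj (h2 : ∀ x : F, x + x = 0) (hTadd : ∀ b b', T (b + b') = T b * T b')
    (b' c : F) : T b' * proj ψ T c = ψ (c * b') • proj ψ T c := by
  unfold proj
  rw [mul_smul_comm, Finset.mul_sum, smul_comm]
  congr 1
  rw [Finset.smul_sum]
  apply Fintype.sum_equiv (Equiv.addLeft b')
  intro b
  rw [mul_smul_comm, ← hTadd, Equiv.coe_addLeft, smul_smul]
  congr 1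
  rw [← AddChar.map_add_eq_mul]
  congr 1
  have := h2 (c * b')
  linear_combination -this

theorem sum_proj (hT0 : T 0 = 1) (hψ : ψ ≠ 1) :
    ∑ c, proj ψ T c = 1 := by
  classical
  have hprim : ψ.IsPrimitive := AddChar.IsPrimitive.of_ne_one hψ
  unfold proj
  rw [← Finset.smul_sum, Finset.sum_comm]
  have h1 : ∀ b : F, ∑ c : F, ψ (c * b) • T b = (if b = 0 then (Fintype.card F : ℂ) else 0) • T b := by
    intro b
    rw [← Finset.sum_smul, AddChar.sum_mulShift b hprim, Nat.cast_ite, Nat.cast_zero]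
  rw [Finset.sum_congr rfl (fun b _ => h1 b)]
  simp only [ite_smul, zero_smul, Finset.sum_ite_eq', Finset.mem_univ, if_true]
  rw [hT0, smul_smul, inv_mul_cancel₀ card_ne_zero, one_smul]

theorem proj_mul_proj (h2 : ∀ x : F, x + x = 0) (hTadd : ∀ b b', T (b + b') = T b * T b')
    (hψ : ψ ≠ 1) (c c' : F) [Decidable (c = c')] :
    proj ψ T c * proj ψ T c' = if c = c' then proj ψ T c' else 0 := by
  classical
  have hprim : ψ.IsPrimitive := AddChar.IsPrimitive.of_ne_one hψ
  have h1 : proj ψ T c * proj ψ T c' =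
      ((Fintype.card F : ℂ)⁻¹) • ∑ b, ψ (c * b) • (T b * proj ψ T c') := by
    conv_lhs => rw [proj]
    rw [smul_mul_assoc, Finset.sum_mul]
    simp only [smul_mul_assoc]
  rw [h1]
  have h3 : ∀ b : F, ψ (c * b) • (T b * proj ψ T c') = ψ (b * (c + c')) • proj ψ T c' := by
    intro b
    rw [T_mul_proj ψ T h2 hTadd, smul_smul, ← AddChar.map_add_eq_mul]
    congr 2
    ring
  rw [Finset.sum_congr rfl (fun b _ => h3 b), ← Finset.sum_smul, AddChar.sum_mulShift _ hprim,
    Nat.cast_ite, Nat.cast_zero]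
  have h4 : c + c' = 0 ↔ c = c' := by
    constructor
    · intro h
      have := h2 c'
      linear_combination h - this
    · rintro rfl
      exact h2 c
  by_cases hcc : c = c'
  · rw [if_pos (h4.2 hcc), if_pos hcc, smul_smul, inv_mul_cancel₀ card_ne_zero, one_smul]
  · rw [if_neg (fun h => hcc (h4.1 h)), if_neg hcc, zero_smul, smul_zero]

theorem T_apply_of_mem (h2 : ∀ x : F, x + x = 0) (hTadd : ∀ b b', T (b + b') = T b * T b')
    (c b : F) {v : V} (hv : v ∈ LinearMap.range (proj ψ T c)) : T b v = ψ (c * b) • v := by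
  obtain ⟨u, rfl⟩ := hv
  have := congrArg (fun f : Module.End ℂ V => f u) (T_mul_proj ψ T h2 hTadd b c)
  exact this

theorem conj_proj (g : Module.End ℂ V) (l : F) (hl : l ≠ 0)
    (hg : ∀ b, g * T b = T (l * b) * g) (c : F) :
    g * proj ψ T c = proj ψ T (c / l) * g := by
  unfold proj
  rw [mul_smul_comm, smul_mul_assoc, Finset.mul_sum, Finset.sum_mul]
  congr 1
  apply Fintype.sum_equiv (Equiv.mulLeft₀ l hl)
  intro b
  show g * (ψ (c * b) • T b) = (ψ (c / l * (l * b)) • T (l * b)) * g
  have e : c / l * (l * b) = c * b := by field_simp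
  rw [mul_smul_comm, hg, smul_mul_assoc, e]

theorem finrank_ge [DecidableEq F] [FiniteDimensional ℂ V] (h2 : ∀ x : F, x + x = 0)
    (hTadd : ∀ b b', T (b + b') = T b * T b') (hψ : ψ ≠ 1) :
    ∑ u : Fˣ, finrank ℂ (LinearMap.range (proj ψ T (u : F))) ≤ finrank ℂ V := by
  classical
  let Φ : (∀ u : Fˣ, LinearMap.range (proj ψ T (u : F))) →ₗ[ℂ] V :=
    ∑ u : Fˣ, (Submodule.subtype _).comp (LinearMap.proj u)
  have hΦ : ∀ x, Φ x = ∑ u : Fˣ, ((x u : LinearMap.range (proj ψ T (u : F))) : V) := by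
    intro x
    simp [Φ, LinearMap.sum_apply]
  have hinj : Function.Injective Φ := by
    rw [injective_iff_map_eq_zero]
    intro x hx
    funext u
    apply Subtype.ext
    have h1 : proj ψ T (u : F) (Φ x) = (x u : V) := by
      rw [hΦ, map_sum]
      rw [Finset.sum_eq_single u]
      · obtain ⟨y, hy⟩ := (x u).2
        rw [← hy]
        have := congrArg (fun f : Module.End ℂ V => f y)
          (proj_mul_proj ψ T h2 hTadd hψ (u : F) (u : F))
        simpa using this
      · intro u' _ hu'
        obtain ⟨y, hy⟩ := (x u').2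
        rw [← hy]
        have := congrArg (fun f : Module.End ℂ V => f y)
          (proj_mul_proj ψ T h2 hTadd hψ (u : F) (u' : F))
        have hne : (u : F) ≠ (u' : F) := fun h => hu' (Units.ext h).symm
        simpa [hne] using this
      · intro h
        exact absurd (Finset.mem_univ u) h
    rw [hx, map_zero] at h1
    exact h1.symm
  have h3 := LinearMap.finrank_le_finrank_of_injective hinj
  rw [Module.finrank_pi_fintype] at h3
  exact h3

theorem exists_proj_ne_zero (h2 : ∀ x : F, x + x = 0) (hT0 : T 0 = 1)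
    (hTadd : ∀ b b', T (b + b') = T b * T b') (hψ : ψ ≠ 1) (hne : ∃ b, T b ≠ 1) :
    ∃ c : F, c ≠ 0 ∧ proj ψ T c ≠ 0 := by
  by_contra hcon
  push Not at hcon
  have h1 := sum_proj ψ T hT0 hψ
  rw [Finset.sum_eq_single 0 (fun c _ hc => hcon c hc)
    (fun h => absurd (Finset.mem_univ (0 : F)) h)] at h1
  obtain ⟨b, hb⟩ := hne
  apply hb
  have h3 := T_mul_proj ψ T h2 hTadd b 0
  rw [h1, mul_one, zero_mul, AddChar.map_zero_eq_one, one_smul] at h3
  exact h3

end proj

end SzRep
end Cfsg.Agent.Lib.Helper15
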