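import Cfsg.Agent.Lib.Helper15.SzRep2
import Cfsg.Agent.Lib.Helper15.SzG4

set_option autoImplicit false

namespace Cfsg.Agent.Lib.Helper15
namespace SzRep

open Module
open Cfsg.Agent.Lib.Helper4.Suz
open Cfsg.Agent.Lib.Helper15.SzG

theorem rad_bound {F : Type*} [Field F] [Fintype F] (σ : F →+* F) (hσσ : ∀ x, σ (σ x) = x ^ 2)
    (ψ : AddChar F ℂ) (hψ : ψ ≠ 1) (c : F) (hc : c ≠ 0) :
    (rad (fun a a' => ψ (c * (σ a * a' + σ a' * a))) (⊤ : AddSubgroup F)).ncard ≤ 2 := by
  have hprim : ψ.IsPrimitive := AddChar.IsPrimitive.of_ne_one hψ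
  have hbij : Function.Bijective ψ.mulShift := by
    apply Function.Injective.bijective_of_nat_card_le
      (AddChar.to_mulShift_inj_of_isPrimitive hprim)
    rw [Nat.card_eq_fintype_card, Nat.card_eq_fintype_card, AddChar.card_eq]
  obtain ⟨κ, hκ⟩ := hbij.2 (ψ.compAddMonoidHom σ.toAddMonoidHom)
  have hκ' : ∀ y, ψ (κ * y) = ψ (σ y) := by
    intro y
    have := DFunLike.congr_fun hκ y
    simpa using this
  have hσsurj : Function.Surjective σ := Finite.surjective_of_injective σ.injective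
  have hσc : σ c ≠ 0 := (map_ne_zero σ).2 hc
  have hsub : rad (fun a a' => ψ (c * (σ a * a' + σ a' * a))) (⊤ : AddSubgroup F) ⊆
      {0, -(σ κ * c) / σ c} := by
    rintro a ⟨-, ha⟩
    obtain ⟨z, hz⟩ := hσsurj (c * a)
    have key : ψ.mulShift (c * σ a + κ * z) = 1 := by
      ext a'
      rw [AddChar.mulShift_apply, AddChar.one_apply]
      have h1 : (c * σ a + κ * z) * a' = c * σ a * a' + κ * (z * a') := by ring
      rw [h1, AddChar.map_add_eq_mul, hκ', ← AddChar.map_add_eq_mul, map_mul, hz]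
      have h3 := ha a' (AddSubgroup.mem_top a')
      have h4 : c * σ a * a' + c * a * σ a' = c * (σ a * a' + σ a' * a) := by ring
      rw [h4]
      exact h3
    have h5 : c * σ a + κ * z = 0 := by
      by_contra hne
      exact hprim hne key
    have h6 : σ c * a ^ 2 + σ κ * (c * a) = 0 := by
      have := congrArg σ h5
      rw [map_add, map_mul, map_mul, hσσ, hz, map_zero] at this
      exact this
    have h7 : a * (σ c * a + σ κ * c) = 0 := by linear_combination h6
    rcases mul_eq_zero.1 h7 with h | h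
    · left
      exact h
    · right
      show a = -(σ κ * c) / σ c
      field_simp
      linear_combination h
  calc (rad (fun a a' => ψ (c * (σ a * a' + σ a' * a))) (⊤ : AddSubgroup F)).ncard
      ≤ ({0, -(σ κ * c) / σ c} : Set F).ncard := Set.ncard_le_ncard hsub (Set.toFinite _)
    _ ≤ ({-(σ κ * c) / σ c} : Set F).ncard + 1 := Set.ncard_insert_le _ _
    _ = 2 := by rw [Set.ncard_singleton]

/-- A complex representation of the group of the ovoid on which the centre of the unipotent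
subgroup acts nontrivially has degree at least `2 ^ m * (q - 1)`. -/
theorem min_degree {F : Type*} [Field F] [Fintype F] (D : Dat F) (hI : D.Indep) (m : ℕ)
    (hq : Fintype.card F = 2 ^ (2 * m + 1))
    {V : Type*} [AddCommGroup V] [Module ℂ V] [FiniteDimensional ℂ V]
    (ρ : D.G →* Module.End ℂ V) (hρ : ∃ b, ρ (gu D 0 b) ≠ 1) :
    2 ^ m * (2 ^ (2 * m + 1) - 1) ≤ finrank ℂ V := by
  classical
  have h2 : ∀ x : F, x + x = 0 := D.add_self
  obtain ⟨ψ, hψ1⟩ := AddChar.exists_apply_ne_zero.2 (one_ne_zero : (1 : F) ≠ 0)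
  have hψ : ψ ≠ 1 := by
    rintro rfl
    exact hψ1 rfl
  set T : F → Module.End ℂ V := fun b => ρ (gu D 0 b) with hTdef
  have hT0 : T 0 = 1 := by
    simp only [hTdef]
    rw [gu_zero D hI, map_one]
  have hTadd : ∀ b b', T (b + b') = T b * T b' := by
    intro b b'
    simp only [hTdef]
    rw [← map_mul, gu0_mul D hI]
  obtain ⟨c₀, hc₀, hP⟩ := exists_proj_ne_zero ψ T h2 hT0 hTadd hψ hρ
  set W₀ := LinearMap.range (proj ψ T c₀) with hW₀
  have hW₀ne : W₀ ≠ ⊥ := by
    rw [hW₀, Ne, LinearMap.range_eq_bot]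
    exact hP
  set A : F → Module.End ℂ V := fun a => ρ (gu D a 0) with hAdef
  have hinjρ : ∀ g : D.G, Function.Injective (ρ g) := by
    intro g
    apply Function.LeftInverse.injective (g := ρ g⁻¹)
    intro v
    have h1 : ρ g⁻¹ * ρ g = 1 := by rw [← map_mul, inv_mul_cancel, map_one]
    exact congrArg (fun f : Module.End ℂ V => f v) h1
  have hAT : ∀ a b, A a * T b = T b * A a := by
    intro a b
    simp only [hAdef, hTdef]
    rw [← map_mul, ← map_mul]
    congr 1
    rw [gu_mul D hI, gu_mul D hI]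
    simp [add_comm]
  have hAP : ∀ a, A a * proj ψ T c₀ = proj ψ T c₀ * A a := by
    intro a
    unfold proj
    rw [mul_smul_comm, smul_mul_assoc, Finset.mul_sum, Finset.sum_mul]
    congr 1
    apply Finset.sum_congr rfl
    intro b _
    rw [mul_smul_comm, smul_mul_assoc, hAT]
  have hAinv : ∀ a, ∀ v ∈ W₀, A a v ∈ W₀ := by
    rintro a _ ⟨u, rfl⟩
    exact ⟨A a u, (congrArg (fun f : Module.End ℂ V => f u) (hAP a)).symm⟩
  let ε : F → F → ℂ := fun a a' => ψ (c₀ * (D.σ a * a' + D.σ a' * a))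
  have hcomm : ∀ a b, ∀ v ∈ W₀, A a (A b v) = ε a b • A b (A a v) := by
    intro a b v hv
    have h1 : gu D a 0 * gu D b 0 =
        gu D 0 (D.σ a * b + D.σ b * a) * (gu D b 0 * gu D a 0) := by
      rw [gu_mul D hI, gu_mul D hI, gu_mul D hI]
      have e1 : a + b = 0 + (b + a) := by ring
      have e2 : (0 : F) + 0 + D.σ a * b =
          D.σ a * b + D.σ b * a + (0 + 0 + D.σ b * a) + D.σ 0 * (b + a) := by
        have := h2 (D.σ b * a)
        rw [map_zero]
        linear_combination -this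
      rw [← e1, ← e2]
    have h3 : A a (A b v) = T (D.σ a * b + D.σ b * a) (A b (A a v)) := by
      show (A a * A b) v = (T _ * (A b * A a)) v
      simp only [hAdef, hTdef]
      rw [← map_mul, ← map_mul, ← map_mul, h1]
    rw [h3, T_apply_of_mem ψ T h2 hTadd c₀ _ (hAinv b _ (hAinv a v hv))]
  have hε : ∀ a b, ε a b = 1 ∨ ε a b = -1 := fun a b => psi_pm ψ h2 _
  have hεadd : ∀ a b c, ε (a + b) c = ε a c * ε b c := by
    intro a b c
    simp only [ε]
    rw [← AddChar.map_add_eq_mul]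
    congr 1
    rw [map_add]
    ring
  have hεsymm : ∀ a b, ε a b = ε b a := by
    intro a b
    simp only [ε]
    congr 1
    ring
  have hεalt : ∀ a, ε a a = 1 := by
    intro a
    simp only [ε]
    rw [h2, mul_zero, AddChar.map_zero_eq_one]
  have hcl := clifford_bound A (fun a => hinjρ _) ε hε hεadd hεsymm hεalt W₀ hcomm
    (Nat.card (⊤ : AddSubgroup F)) ⊤ le_rfl W₀ le_rfl hW₀ne (fun a _ v hv => hAinv a v hv)
  have hrad := rad_bound D.σ D.hσ ψ hψ c₀ hc₀
  have hcardtop : Nat.card (⊤ : AddSubgroup F) = 2 ^ (2 * m + 1) := by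
    rw [← hq, ← Nat.card_eq_fintype_card]
    exact Nat.card_congr AddSubgroup.topEquiv.toEquiv
  have hd : 2 ^ m ≤ finrank ℂ W₀ := by
    have h5 : 2 ^ (2 * m + 1) ≤ finrank ℂ W₀ ^ 2 * 2 := by
      rw [← hcardtop]
      exact hcl.trans (Nat.mul_le_mul_left _ hrad)
    have h6 : (2 ^ m) ^ 2 ≤ finrank ℂ W₀ ^ 2 := by
      have : 2 ^ (2 * m + 1) = (2 ^ m) ^ 2 * 2 := by
        rw [← pow_mul, pow_succ]
        congr 2
        ring
      omega
    exact (Nat.pow_le_pow_iff_left (by norm_num)).1 h6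
  have hall : ∀ u : Fˣ, finrank ℂ W₀ ≤ finrank ℂ (LinearMap.range (proj ψ T (u : F))) := by
    intro u
    obtain ⟨k, hk⟩ := D.exists_mul_sigma (c₀ / u)
    have hk0 : k ≠ 0 := by
      rintro rfl
      rw [zero_mul] at hk
      exact (div_ne_zero hc₀ u.ne_zero) hk.symm
    set g := ρ (gh D (Units.mk0 k hk0)) with hg
    have hgT : ∀ b, g * T b = T (c₀ / u * b) * g := by
      intro b
      simp only [hg, hTdef]
      rw [← map_mul, ← map_mul, gh_gu D hI, Units.val_mk0, hk, mul_zero]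
    have hgP := conj_proj ψ T g (c₀ / u) (div_ne_zero hc₀ u.ne_zero) hgT c₀
    have hcu : c₀ / (c₀ / (u : F)) = u := by
      have := u.ne_zero
      field_simp
    rw [hcu] at hgP
    have hmap : W₀.map g ≤ LinearMap.range (proj ψ T (u : F)) := by
      rintro _ ⟨_, ⟨y, rfl⟩, rfl⟩
      exact ⟨g y, (congrArg (fun f : Module.End ℂ V => f y) hgP).symm⟩
    rw [← finrank_map_inj g (hinjρ _) W₀]
    exact Submodule.finrank_mono hmap
  have hsum := finrank_ge ψ T h2 hTadd hψ
  calc 2 ^ m * (2 ^ (2 * m + 1) - 1) = ∑ _u : Fˣ, 2 ^ m := by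
        rw [Finset.sum_const, Finset.card_univ, Fintype.card_units, hq, smul_eq_mul, mul_comm]
    _ ≤ ∑ u : Fˣ, finrank ℂ (LinearMap.range (proj ψ T (u : F))) :=
        Finset.sum_le_sum (fun u _ => hd.trans (hall u))
    _ ≤ finrank ℂ V := hsum

end SzRep
end Cfsg.Agent.Lib.Helper15
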